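import Cfsg.Agent.H35.PcRed
import Cfsg.Agent.H42.PcDefs

/-! Row S3916: pieces QUOT, SOC, TOP. -/

set_option autoImplicit false

namespace Cfsg.Agent.H35.PcWrap

open Cfsg.Agent.H42.Pc

universe u

theorem quot : QuotStmt.{u} := fun _ _ _ h N _ =>
  PcRed.P.of_surj h (QuotientGroup.mk'_surjective N)

theorem soc : SocStmt.{u} := fun _ _ _ _ h hr => PcRed.soc h hr

theorem top (main : MainStmt.{0}) : TopStmt.{u} := fun _ _ _ h hn => PcRed.red main h hn

end Cfsg.Agent.H35.PcWrap
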