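import Cfsg.Agent.S0721
import Cfsg.Agent.S0205

/-! Row S3916: reduction to the almost simple case. -/

set_option autoImplicit false

namespace Cfsg.Agent.H35.PcRed

open Subgroup

/-- cyclic `p`-subgroups of equal order are conjugate -/
def P (G : Type*) [Group G] : Prop :=
  ∀ (p : ℕ), p.Prime → ∀ A B : Subgroup G, IsCyclic ↥A → IsCyclic ↥B → IsPGroup p ↥A →
    Nat.card ↥A = Nat.card ↥B → ∃ g : G, B = A.map (MulAut.conj g).toMonoidHom

/-- element form -/
theorem P.elt {G : Type*} [Group G] (h : P G) {p k : ℕ} (hp : p.Prime) {a b : G}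
    (ha : orderOf a = p ^ k) (hb : orderOf b = p ^ k) :
    ∃ g : G, zpowers b = zpowers (g * a * g⁻¹) := by
  obtain ⟨g, hg⟩ := h p hp (zpowers a) (zpowers b) inferInstance inferInstance
    (IsPGroup.of_card (n := k) (by rw [Nat.card_zpowers, ha]))
    (by rw [Nat.card_zpowers, Nat.card_zpowers, ha, hb])
  exact ⟨g, by rw [hg, MonoidHom.map_zpowers]; rfl⟩

theorem P.inv {G : Type*} [Group G] (h : P G) {a b : G} (ha : orderOf a = 2)
    (hb : orderOf b = 2) : ∃ g : G, b = g * a * g⁻¹ := by
  obtain ⟨g, hg⟩ := h.elt (k := 1) Nat.prime_two (a := a) (b := b) (by simpa using ha)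
    (by simpa using hb)
  have o : orderOf (g * a * g⁻¹) = 2 := by
    rw [← ha]; exact (MulAut.conj g).orderOf_eq a
  have m : b ∈ zpowers (g * a * g⁻¹) := hg ▸ mem_zpowers b
  refine ⟨g, ?_⟩
  have hf : IsOfFinOrder (g * a * g⁻¹) := orderOf_pos_iff.1 (by omega)
  obtain ⟨n, hn⟩ := (hf.mem_powers_iff_mem_zpowers).2 m
  simp only at hn
  rw [← pow_mod_orderOf, o] at hn
  rcases Nat.mod_two_eq_zero_or_one n with e | e
  · rw [e, pow_zero] at hn
    rw [← hn, orderOf_one] at hb
    omega
  · rw [e, pow_one] at hn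
    exact hn.symm

theorem lift {G H : Type*} [Group G] [Finite G] [Group H] {f : G →* H}
    (hf : Function.Surjective f) {p k : ℕ} (hp : p.Prime) {a : H} (ha : orderOf a = p ^ k) :
    ∃ x : G, f x = a ∧ ∃ j, orderOf x = p ^ j := by
  obtain ⟨x, rfl⟩ := hf a
  obtain ⟨i, m, hm, e⟩ := Nat.exists_eq_pow_mul_and_not_dvd (orderOf_pos x).ne' p hp.ne_one
  have c : m.Coprime (orderOf (f x)) := by
    rw [ha]
    exact ((Nat.Prime.coprime_iff_not_dvd hp).2 hm).symm.pow_right k
  obtain ⟨u, hu⟩ := exists_pow_eq_self_of_coprime c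
  refine ⟨(x ^ m) ^ u, by rw [map_pow, map_pow, hu], ?_⟩
  have : orderOf ((x ^ m) ^ u) ∣ p ^ i := by
    apply orderOf_dvd_of_pow_eq_one
    rw [← pow_mul, ← pow_mul, show m * (u * p ^ i) = (p ^ i * m) * u by ring, pow_mul, ← e,
      pow_orderOf_eq_one, one_pow]
  obtain ⟨j, -, hj⟩ := (Nat.dvd_prime_pow hp).1 this
  exact ⟨j, hj⟩

theorem half {G H : Type*} [Group G] [Finite G] [Group H] [Finite H] (h : P G) (f : G →* H)
    {p i j : ℕ} (hp : p.Prime) {x y : G} (hx : orderOf x = p ^ i) (hy : orderOf y = p ^ j)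
    (hij : i ≤ j) (e : orderOf (f x) = orderOf (f y)) :
    ∃ g : H, zpowers (f y) = (zpowers (f x)).map (MulAut.conj g).toMonoidHom := by
  have o : orderOf (y ^ p ^ (j - i)) = p ^ i := by
    rw [orderOf_pow, hy, Nat.gcd_eq_right (pow_dvd_pow p (Nat.sub_le j i)),
      Nat.pow_div (Nat.sub_le j i) hp.pos]
    congr 1
    omega
  obtain ⟨g, hg⟩ := h.elt hp hx o
  refine ⟨f g, ?_⟩
  rw [MonoidHom.map_zpowers]
  symm
  apply eq_of_le_of_card_ge
  · rw [zpowers_le]
    have m : g * x * g⁻¹ ∈ zpowers y := by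
      have : g * x * g⁻¹ ∈ zpowers (y ^ p ^ (j - i)) := hg ▸ mem_zpowers _
      exact (zpowers_le.2 (pow_mem (mem_zpowers y) _)) this
    have := mem_map_of_mem f m
    rw [MonoidHom.map_zpowers] at this
    simpa using this
  · rw [Nat.card_zpowers, Nat.card_zpowers, ← e]
    exact ((MulAut.conj (f g)).orderOf_eq (f x)).ge

theorem P.of_surj {G H : Type*} [Group G] [Finite G] [Group H] (h : P G) {f : G →* H}
    (hf : Function.Surjective f) : P H := by
  have : Finite H := Finite.of_surjective f hf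
  intro p hp A B hA hB pA hc
  obtain ⟨a, rfl⟩ := A.isCyclic_iff_exists_zpowers_eq_top.1 hA
  obtain ⟨b, rfl⟩ := B.isCyclic_iff_exists_zpowers_eq_top.1 hB
  have := Fact.mk hp
  obtain ⟨k, hk⟩ := IsPGroup.iff_card.1 pA
  rw [Nat.card_zpowers] at hk
  rw [Nat.card_zpowers, Nat.card_zpowers] at hc
  obtain ⟨x, rfl, i, hi⟩ := lift hf hp hk
  obtain ⟨y, rfl, j, hj⟩ := lift hf hp (hc ▸ hk)
  rcases le_total i j with l | l
  · exact half h f hp hi hj l hc
  · obtain ⟨g, hg⟩ := half h f hp hj hi l hc.symm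
    refine ⟨g⁻¹, ?_⟩
    rw [hg, map_map]
    have : (MulAut.conj g⁻¹).toMonoidHom.comp (MulAut.conj g).toMonoidHom = MonoidHom.id _ := by
      ext z; simp [mul_assoc]
    rw [this, map_id]

theorem inv_of_ns (G : Type*) [Group G] [Finite G] (h : ¬ Group.IsSolvable G) :
    ∃ t : G, orderOf t = 2 := by
  have : ¬ Odd (Nat.card G) := fun o => h (S0205.result o)
  have := Fact.mk Nat.prime_two
  exact exists_prime_orderOf_dvd_card' 2 (even_iff_two_dvd.1 (Nat.not_odd_iff_even.1 ‹_›))

/-- the almost simple configuration -/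
theorem soc {H : Type*} [Group H] [Finite H] [Nontrivial H] (h : P H)
    (hr : ∀ N : Subgroup H, N.Normal → Group.IsSolvable N → N = ⊥) :
    ∃ S : Subgroup H, S.Normal ∧ IsSimpleGroup S ∧ ¬ IsMulCommutative S ∧
      centralizer (S : Set H) = ⊥ := by
  obtain ⟨S, ⟨hS, hb⟩, hmin⟩ := (wellFounded_lt (α := Subgroup H)).has_min
    {N | N.Normal ∧ N ≠ ⊥} ⟨⊤, inferInstance, top_ne_bot⟩
  have ns : ¬ Group.IsSolvable S := fun e => hb (hr S hS e)
  have nc : ¬ IsMulCommutative S := fun e => ns (Group.isSolvable_of_comm fun a b => e.1.1 a b)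
  refine ⟨S, hS, ?_, nc, ?_⟩
  · obtain ⟨T, _, m, hT, hm, ⟨e⟩⟩ := S0721.result S hb (fun M hM hle => by
      by_contra hn
      push Not at hn
      exact hmin M ⟨hM, hn.1⟩ (lt_of_le_of_ne hle hn.2))
    have fT : Finite (Fin m → T) := Finite.of_equiv S e.toEquiv
    have : Nonempty (Fin m) := ⟨⟨0, hm⟩⟩
    have : Finite T := Finite.of_injective (Function.const (Fin m)) Function.const_injective
    have ncT : ¬ ∀ a b : T, a * b = b * a := fun c => nc ⟨⟨fun a b => e.injective (by
      rw [map_mul, map_mul]; funext i; exact c _ _)⟩⟩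
    have nsT : ¬ Group.IsSolvable T := fun c => ncT (IsSimpleGroup.comm_iff_isSolvable.2 c)
    obtain ⟨t, ht⟩ := inv_of_ns T nsT
    by_cases m1 : m = 1
    · subst m1
      exact (e.trans (MulEquiv.funUnique (Fin 1) T)).isSimpleGroup
    exfalso
    have m2 : 1 < m := by omega
    obtain ⟨u, hu⟩ : ∃ u : T, u * t ≠ t * u := by
      by_contra hn
      push Not at hn
      rcases (inferInstance : (center T).Normal).eq_bot_or_eq_top with c | c
      · have : t ∈ center T := mem_center_iff.2 hn
        rw [c, mem_bot] at this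
        rw [this, orderOf_one] at ht
        omega
      · exact ncT fun a b => mem_center_iff.1 (c ▸ mem_top b) a
    let i0 : Fin m := ⟨0, hm⟩
    let i1 : Fin m := ⟨1, m2⟩
    have i01 : i1 ≠ i0 := fun c => by simpa [i0, i1] using congrArg Fin.val c
    let a : Fin m → T := Pi.mulSingle i0 t
    let b : Fin m → T := fun _ => t
    have oa : orderOf a = 2 := by
      rw [← ht]
      exact orderOf_injective (MonoidHom.mulSingle (fun _ : Fin m => T) i0)
        (Pi.mulSingle_injective (M := fun _ : Fin m => T) i0) t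
    have ob : orderOf b = 2 := by
      rw [← ht]
      exact orderOf_injective (Pi.constMonoidHom (Fin m) T) Function.const_injective t
    obtain ⟨g, hg⟩ := h.inv (a := (e.symm a : S)) (b := (e.symm b : S))
      (by rw [orderOf_coe, e.symm.orderOf_eq, oa]) (by rw [orderOf_coe, e.symm.orderOf_eq, ob])
    let φ : (Fin m → T) ≃* (Fin m → T) := (e.symm.trans (MulAut.conjNormal g)).trans e
    have φa : φ a = b := by
      have : MulAut.conjNormal g (e.symm a) = e.symm b := Subtype.ext (by
        rw [MulAut.conjNormal_apply]; exact hg.symm)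
      simp [φ, this]
    have le : centralizer ({b} : Set (Fin m → T)) ≤ centralizer {a} := by
      intro s hs
      rw [mem_centralizer_singleton_iff] at hs ⊢
      funext i
      by_cases c : i = i0
      · subst c
        simpa [a, b] using congrFun hs i0
      · simp [a, Pi.mulSingle_eq_of_ne c]
    have cd : Nat.card (centralizer ({a} : Set (Fin m → T))) ≤
        Nat.card (centralizer ({b} : Set (Fin m → T))) := by
      refine Nat.card_le_card_of_injective (fun s => ⟨φ s.1, ?_⟩) ?_
      · have := mem_centralizer_singleton_iff.1 s.2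
        rw [mem_centralizer_singleton_iff, ← φa, ← map_mul, ← map_mul, this]
      · intro s s' c
        exact Subtype.ext (φ.injective (congrArg Subtype.val c))
    have eq := eq_of_le_of_card_ge le cd
    have m : (Pi.mulSingle i1 u : Fin m → T) ∈ centralizer ({a} : Set (Fin m → T)) := by
      rw [mem_centralizer_singleton_iff]
      exact (Pi.mulSingle_commute (f := fun _ : Fin m => T) i01 u t).eq
    rw [← eq, mem_centralizer_singleton_iff] at m
    apply hu
    simpa [b] using congrFun m i1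
  · by_contra hc
    have nC : ¬ Group.IsSolvable (centralizer (S : Set H)) := fun e => hc (hr _ inferInstance e)
    obtain ⟨c, oc⟩ := inv_of_ns _ nC
    obtain ⟨s, os⟩ := inv_of_ns _ ns
    obtain ⟨g, hg⟩ := h.inv (a := (s : H)) (b := (c : H)) (by rw [orderOf_coe, os])
      (by rw [orderOf_coe, oc])
    have cS : (c : H) ∈ S := hg ▸ hS.conj_mem _ s.2 g
    have z : S ⊓ centralizer (S : Set H) = ⊥ := hr _ inferInstance
      (Group.isSolvable_of_comm fun x y => Subtype.ext (mem_centralizer_iff.1 y.2.2 x x.2.1))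
    have : (c : H) ∈ S ⊓ centralizer (S : Set H) := ⟨cS, c.2⟩
    rw [z, mem_bot] at this
    have : c = 1 := Subtype.ext this
    rw [this, orderOf_one] at oc
    omega

/-- the almost simple case -/
def CoreStmt : Prop := ∀ (G : Type) [Group G] [Finite G], P G → ∀ (S : Subgroup G) [S.Normal],
  IsSimpleGroup S → ¬ IsMulCommutative S → centralizer (S : Set G) = ⊥ → Group.IsSolvable (G ⧸ S)

theorem red (core : CoreStmt) {G : Type*} [Group G] [Finite G] (hP : P G)
    (hns : ¬ Group.IsSolvable G) :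
    ∃ (K L : Subgroup G) (_ : K.Normal) (_ : L.Normal), K ≤ L ∧ Group.IsSolvable ↥K ∧
      Group.IsSolvable (G ⧸ L) ∧ IsSimpleGroup (↥L ⧸ K.subgroupOf L) ∧
        ¬ IsMulCommutative (↥L ⧸ K.subgroupOf L) := by
  obtain ⟨K, ⟨hK, sK⟩, hmax⟩ := (wellFounded_gt (α := Subgroup G)).has_min
    {N | N.Normal ∧ Group.IsSolvable N} ⟨⊥, inferInstance, inferInstance⟩
  let e : Shrink.{0} (G ⧸ K) ≃* G ⧸ K := Shrink.mulEquiv
  let f : G →* Shrink.{0} (G ⧸ K) := e.symm.toMonoidHom.comp (QuotientGroup.mk' K)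
  have hf : Function.Surjective f := e.symm.surjective.comp (QuotientGroup.mk'_surjective K)
  have kf : ∀ x, f x = 1 ↔ x ∈ K := fun x => by simp [f]
  have : Finite (Shrink.{0} (G ⧸ K)) := Finite.of_surjective f hf
  have pH := hP.of_surj hf
  have hr : ∀ N : Subgroup (Shrink.{0} (G ⧸ K)), N.Normal → Group.IsSolvable N → N = ⊥ := by
    intro N hN sN
    have le : K ≤ N.comap f := fun x hx => by
      rw [mem_comap, (kf x).2 hx]; exact one_mem _
    have s : Group.IsSolvable (N.comap f) :=
      Group.isSolvable_of_ker_le_range (inclusion le) (f.subgroupComap N) (fun x hx =>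
        ⟨⟨x, (kf x).1 (congrArg Subtype.val hx)⟩, rfl⟩)
    have eq : K = N.comap f := by
      by_contra hn
      exact hmax _ ⟨inferInstance, s⟩ (lt_of_le_of_ne le hn)
    rw [eq_bot_iff]
    intro y hy
    obtain ⟨x, rfl⟩ := hf y
    exact (kf x).2 (eq ▸ hy)
  have : Nontrivial (Shrink.{0} (G ⧸ K)) := by
    by_contra hn
    rw [not_nontrivial_iff_subsingleton] at hn
    exact hns (Group.isSolvable_of_surjective (f := K.subtype) fun x =>
      ⟨⟨x, (kf x).1 (Subsingleton.elim _ _)⟩, rfl⟩)
  obtain ⟨S, hS, s1, s2, s3⟩ := soc pH hr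
  have sq := core _ pH S s1 s2 s3
  have le : K ≤ S.comap f := fun x hx => by
    rw [mem_comap, (kf x).2 hx]; exact one_mem _
  have ek : K.subgroupOf (S.comap f) = (f.subgroupComap S).ker := by
    ext x
    rw [mem_subgroupOf, MonoidHom.mem_ker, ← kf]
    exact ⟨fun c => Subtype.ext c, fun c => congrArg Subtype.val c⟩
  let q : (S.comap f) ⧸ K.subgroupOf (S.comap f) ≃* S :=
    (QuotientGroup.quotientMulEquivOfEq ek).trans
      (QuotientGroup.quotientKerEquivOfSurjective _
        (f.subgroupComap_surjective_of_surjective S hf))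
  refine ⟨K, S.comap f, hK, inferInstance, le, sK, ?_, q.isSimpleGroup, fun c => s2 ⟨⟨fun a b =>
    q.symm.injective (by rw [map_mul, map_mul]; exact c.1.1 _ _)⟩⟩⟩
  refine Group.isSolvable_of_isSolvable_injective (f := QuotientGroup.map (S.comap f) S f le_rfl) ?_
  rw [injective_iff_map_eq_one]
  intro x hx
  induction x using QuotientGroup.induction_on with
  | H x =>
    rw [QuotientGroup.map_mk, QuotientGroup.eq_one_iff] at hx
    exact (QuotientGroup.eq_one_iff _).2 hx

end Cfsg.Agent.H35.PcRed
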