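import Cfsg.Agent.H28.CyOle

set_option autoImplicit false

namespace Cfsg.Agent.H35.CyOl

open Subgroup MulAction Cfsg.Agent.H11.Cy

variable {G : Type} [Group G] [Finite G] {Ω : Type} [MulAction G Ω] {p : ℕ} {A : Ω → Subgroup G}

theorem le_norm (S : St p A) (x y : Ω) : Hs G x y ≤ normalizer (A x : Set G) := by
  intro h hh
  have hx : h • x = x := hh.1
  have hx' : h⁻¹ • x = x := by rw [inv_smul_eq_iff, hx]
  rw [mem_normalizer_iff]
  intro a
  constructor
  · intro ha
    have := S.eqv h x a ha
    rwa [hx] at this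
  · intro ha
    have := S.eqv h⁻¹ x _ ha
    rw [hx'] at this
    simpa [mul_assoc] using this

/-- a subgroup of the two-point stabiliser meeting the centraliser of `A x` trivially is cyclic -/
theorem cyc (S : St p A) {x y : Ω} (L : Subgroup G) (hL : L ≤ Hs G x y)
    (h : ∀ g ∈ L, g ∈ centralizer (A x : Set G) → g = 1) : IsCyclic L := by
  haveI : Fact p.Prime := ⟨S.pp⟩
  haveI : IsCyclic (A x) := isCyclic_of_prime_card (S.card x)
  haveI : IsCyclic (MulAut (A x)) := by
    have e := IsCyclic.mulAutMulEquiv (A x)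
    rw [S.card x] at e
    exact isCyclic_of_injective e.toMonoidHom e.injective
  let f : L →* MulAut (A x) :=
    (A x).normalizerMonoidHom.comp (inclusion (hL.trans (le_norm S x y)))
  refine isCyclic_of_injective f ((injective_iff_map_eq_one f).2 fun g hg => ?_)
  have : inclusion (hL.trans (le_norm S x y)) g ∈ (A x).normalizerMonoidHom.ker := hg
  rw [normalizerMonoidHom_ker, mem_subgroupOf] at this
  exact Subtype.ext (h g g.2 this)

theorem ol (cg : CgStmt) : OlStmt := by
  intro G _ _ Ω _ _ p A S mc h1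
  refine cg G Ω p A S mc fun x y hxy => ⟨?_, ?_⟩
  · exact cyc S _ le_rfl fun g hg hc => H28.CyOle.ole G Ω p A S h1 x y hxy g hg hc
  · have : Kl A x y = ⊥ := by
      rw [eq_bot_iff]
      intro k hk
      exact S.faith k fun z => (mc.ep.kfix x y hxy k).1 hk z (by rw [h1 x y hxy]; trivial)
    rw [this, card_bot]
    exact odd_one

end Cfsg.Agent.H35.CyOl
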