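import Cfsg.Agent.H74.RuDefs
import Cfsg.Agent.H28.Transport

/-! Rank three actions of the unitary groups: reduction to the isometry group. -/

set_option autoImplicit false

namespace Cfsg.Agent.H35.RuFin

open Cfsg Module Cfsg.Agent.H31 Cfsg.Agent.H74.Ru MulAction

theorem three {α : Type*} (h : Nat.card α = 3) (o : α) :
    ∃ a b : α, ∀ c, c = o ∨ c = a ∨ c = b := by
  have : Finite α := Nat.finite_of_card_ne_zero (by omega)
  let e := Finite.equivFinOfCardEq h
  have key : ∀ i : Fin 3, ∃ a b : Fin 3, ∀ c, c = i ∨ c = a ∨ c = b := by decide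
  obtain ⟨a, b, hab⟩ := key (e o)
  refine ⟨e.symm a, e.symm b, fun c => ?_⟩
  rcases hab (e c) with h | h | h
  · exact Or.inl (e.injective h)
  · exact Or.inr (Or.inl (e.eq_symm_apply.2 h))
  · exact Or.inr (Or.inr (e.eq_symm_apply.2 h))

theorem red {Γ : Type} {G X : Type*} [Group Γ] [Group G] [MulAction G X] (π : Γ →* G)
    (hπ : Function.Surjective π) (hprim : IsPreprimitive G X) (x : X)
    (h3 : Nat.card (orbitRel.Quotient (stabilizer G x) X) = 3) :
    IsCoatom ((stabilizer G x).comap π) ∧ ((stabilizer G x).comap π).index = Nat.card X ∧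
      Rk3 ((stabilizer G x).comap π) := by
  have nt : Nontrivial X := by
    by_contra h
    have := not_nontrivial_iff_subsingleton.1 h
    have h1 : Subsingleton (orbitRel.Quotient (stabilizer G x) X) :=
      ⟨fun a b => Quotient.inductionOn₂ a b fun a b => by rw [Subsingleton.elim a b]⟩
    have h2 := Nat.card_le_card_of_injective
      (fun _ : orbitRel.Quotient (stabilizer G x) X => ()) fun a b _ => Subsingleton.elim a b
    simp [h3] at h2
  refine ⟨Subgroup.isCoatom_comap_of_surjective hπ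
    ((isCoatom_stabilizer_iff_preprimitive G x).2 hprim), ?_, ?_⟩
  · rw [Subgroup.index_comap_of_surjective _ hπ, index_stabilizer_of_transitive]
  obtain ⟨A, B, hAB⟩ := three h3 (Quotient.mk _ x)
  obtain ⟨a, rfl⟩ := Quotient.exists_rep A
  obtain ⟨b, rfl⟩ := Quotient.exists_rep B
  obtain ⟨a, rfl⟩ := exists_smul_eq G x a
  obtain ⟨b, rfl⟩ := exists_smul_eq G x b
  obtain ⟨a, rfl⟩ := hπ a
  obtain ⟨b, rfl⟩ := hπ b
  have key : ∀ g c : Γ, (Quotient.mk _ (π g • x) : orbitRel.Quotient (stabilizer G x) X) =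
      Quotient.mk _ (π c • x) → ∃ h ∈ (stabilizer G x).comap π,
        ∃ h' ∈ (stabilizer G x).comap π, g = h * c * h' := by
    intro g c h
    obtain ⟨⟨k, hk⟩, e⟩ := orbitRel_apply.1 (Quotient.exact h)
    obtain ⟨k, rfl⟩ := hπ k
    refine ⟨k, hk, (k * c)⁻¹ * g, ?_, by group⟩
    change π ((k * c)⁻¹ * g) • x = x
    rw [map_mul, map_inv, mul_smul, inv_smul_eq_iff, map_mul, mul_smul]
    exact e.symm
  refine ⟨a, b, fun g => ?_⟩
  rcases hAB (Quotient.mk _ (π g • x)) with h | h | h
  · obtain ⟨h1, m1, h2, m2, e⟩ := key g 1 (by rw [h, map_one, one_smul])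
    exact Or.inl (by rw [e, mul_one]; exact mul_mem m1 m2)
  · exact Or.inr (Or.inl (key g a h))
  · exact Or.inr (Or.inr (key g b h))

theorem fin (main : MainStmt) {G X : Type*} [Group G] [MulAction G X] [Fintype X]
    {F : Type*} [Field F] [Fintype F] (n q : ℕ) (hn : 6 ≤ n) (hq : 3 ≤ q)
    (hF : Fintype.card F = q ^ 2) (e : G ≃* Cfsg.PSU n F q) (hprim : IsPreprimitive G X) (x : X)
    (h3 : Nat.card (orbitRel.Quotient (stabilizer G x) X) = 3) :
    (Even n → Fintype.card X * (q ^ 2 - 1) = (q ^ n - 1) * (q ^ (n - 1) + 1)) ∧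
    (Odd n → Fintype.card X * (q ^ 2 - 1) = (q ^ n + 1) * (q ^ (n - 1) - 1)) := by
  have hFf : IsField (Shrink.{0} F) :=
    MulEquiv.isField (Field.toIsField F) (Shrink.ringEquiv.{0} F).toMulEquiv
  let _ : Field (Shrink.{0} F) := hFf.toField
  let φ : Shrink.{0} F ≃+* F := Shrink.ringEquiv.{0} F
  let _ : Fintype (Shrink.{0} F) := Fintype.ofEquiv _ φ.symm.toEquiv
  have hc : Fintype.card (Shrink.{0} F) = q ^ 2 := by
    rw [Fintype.card_congr φ.toEquiv, hF]
  let S : Un (Shrink.{0} F) (Fin n → Shrink.{0} F) :=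
    ⟨q, frobQ hc, hermB hc n, hc, fun _ => rfl, isHerm_hermB hc n, n, finrank_fin n, hn, hq⟩
  let ρ : S.G →* PSU n (Shrink.{0} F) q :=
    (QuotientGroup.mk' _).comp (suEquiv hc n).symm.toMonoidHom
  let π : S.G →* G := (e.symm.toMonoidHom.comp (H28.psuEquiv φ n q).toMonoidHom).comp ρ
  have hπ : Function.Surjective π := (e.symm.surjective.comp (H28.psuEquiv φ n q).surjective).comp
    ((QuotientGroup.mk'_surjective _).comp (suEquiv hc n).symm.surjective)
  obtain ⟨h1, h2, h4⟩ := red π hπ hprim x h3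
  have eK : (((stabilizer G x).comap π).map S.G.subtype).subgroupOf S.G = (stabilizer G x).comap π :=
    Subgroup.comap_map_eq_self_of_injective S.G.subtype_injective _
  have hz : Subgroup.center S.G ≤ (stabilizer G x).comap π := by
    intro z hz
    have h5 : ρ z = 1 := by
      refine (QuotientGroup.eq_one_iff _).2 (Subgroup.mem_center_iff.2 fun g => ?_)
      apply (suEquiv hc n).injective
      have := Subgroup.mem_center_iff.1 hz (suEquiv hc n g)
      simpa using this
    change π z • x = x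
    have h6 : π z = 1 := by
      change e.symm (H28.psuEquiv φ n q (ρ z)) = 1
      rw [h5, map_one, map_one]
    rw [h6, one_smul]
  have := main S (((stabilizer G x).comap π).map S.G.subtype) (Subgroup.map_subtype_le _)
    (eK.symm ▸ h1) (eK.symm ▸ hz) (eK.symm ▸ h4)
  rw [Subgroup.relIndex, eK, h2, Nat.card_eq_fintype_card] at this
  change Fintype.card X * (q ^ 2 - 1) = cI q n at this
  refine ⟨fun h => ?_, fun h => ?_⟩
  · rw [this, cI, if_pos h]
  · rw [this, cI, if_neg (Nat.not_even_iff_odd.2 h)]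

end Cfsg.Agent.H35.RuFin
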