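import Cfsg.Agent.H35.S4Defs

/-!
# Standard subgroups of type `Sp₄(q)`: the assembly
-/

set_option autoImplicit false
set_option linter.unusedSectionVars false

namespace Cfsg.Agent.H35.S4

open Cfsg Cfsg.Agent.H63 Cfsg.Agent.H63.SL Subgroup
open scoped commutatorElement

universe u v

variable {F : Type v} [Field F] [Finite F] {G : Type u} [Group G] [Finite G]
  {L X : Subgroup G} {x : ZMod 8 → F → G} {t : G}

theorem mir3 (a : F) : mir x 3 a = x 2 (a ^ 2) := by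
  simp only [mir]; rw [if_pos (by decide)]; rfl

theorem mir2 (a : F) : mir x 2 a = x 3 a := by
  simp only [mir]; rw [if_neg (by decide)]; rfl

theorem Mv.mem {z : G} (h : Mv x t z) : t * z ∈ Dt t := by
  obtain ⟨g, -, -, e⟩ := h
  exact ⟨g, e.symm⟩

theorem Pin2.zero (p : Pin2 x) (i : ZMod 8) : x i 0 = 1 := by
  have := p.add i 0 0
  rw [add_zero] at this
  exact (mul_eq_left.1 this.symm)

theorem AllS.ctx (a : AllS.{u, v}) (hM : Mod L x) (tc : Tc L t) (r2 : R2 L t) : Ctx L x t :=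
  have kp := a.kp L x hM
  have kn := a.kn L x hM
  ⟨hM, kp, kn, tc, r2, (a.a1 L x hM kp kn t tc).1, (a.a1 L x hM kp kn t tc).2,
    a.base L x hM kp kn t tc r2⟩

theorem AllS.cmir (a : AllS.{u, v}) (h : Ctx L x t) : Ctx L (S4.mir x) t :=
  a.ctx h.kp.mir h.tc h.r2

theorem AllS.hat (a : AllS.{u, v}) (h : Ctx L x t) (m : ∀ b, Mv x t (x 3 b)) :
    ∃ c l Xh, HatP L x t c l Xh := by
  obtain ⟨P, hP⟩ := a.h1 L x t h m
  obtain ⟨c, l, Y, hY⟩ := a.h3 L x t h P hP (a.h2 L x t h P hP)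
  obtain ⟨Xh, hX⟩ := a.h4 L x t h c l Y hY
  exact ⟨c, l, Xh, hX⟩

theorem AllS.rad (a : AllS.{u, v}) (h : Ctx L x t) {c l c' l' : F} {Xh : ZMod 8 → Subgroup G}
    {Y : Subgroup G} (h1 : HatP L x t c l Xh) (h2 : Hat2 L x t c' l' Y) :
    Rad x t c l c' l' Xh Y := by
  obtain ⟨r1, r3⟩ := a.r1 L x t h c l c' l' Xh Y h1 h2
  have r4 := a.r3 L x t h c l c' l' Xh Y h1 h2
  obtain ⟨k1, k2, k3⟩ := a.r4 L x t h c l c' l' Xh Y h1 h2 r1 r3 r4
  exact ⟨r1, r3, a.r2 L x t h c l Xh h1, r4, k1, k2, k3⟩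

theorem su4 (a : AllS.{u, v}) (b : AllU.{u, v}) (h : Ctx L x t) {c' : F}
    {Xh : ZMod 8 → Subgroup G} {Y : Subgroup G} (h1 : HatP L x t 0 1 Xh)
    (h2 : Hat2 L x t c' 0 Y) :
    ∃ (A : Type v) (_ : CommRing A) (j : F →+* A) (σ : A ≃+* A) (y : ZMod 8 → A → G),
      DblS L x t j σ y := by
  have s1 : sh 1 := by decide
  obtain ⟨p, hp⟩ := a.par L x t h 1 (Xh 1) (h1.mem 1 s1) (h1.le 1 s1) (h1.surj 1 s1) (h1.fix 1 s1)
  obtain ⟨A, _, j, σ, y1, hy⟩ := b.su1 L x t h c' Xh Y p h1 h2 (a.rad h h1 h2) hp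
  obtain ⟨y, hy'⟩ := b.su2 L x t h j σ y1 hy
  exact ⟨A, inferInstance, j, σ, y, hy'⟩

theorem typeI (a : AllS.{u, v}) (b : AllU.{u, v}) (h : Ctx L x t) (hr : Red X L t)
    (m : ∀ c, Mv x t (x 3 c)) (n : ¬ ∀ c, Mv x t (x 2 c)) : IsLieTypeChar 2 X := by
  have p := h.mod.pin
  have no : ∀ b c, b ≠ 0 → t * (x 2 b * x 3 c) ∉ Dt t := fun b c hb hd =>
    n ((a.b2 L x t h (a.b1 L x t h) b c hd).1 hb)
  obtain ⟨c, l, Xh, h1⟩ := a.hat h m
  have h2 := (a.mir L x t h).2.2.2 fun b hb hd => no b 0 hb (by rwa [p.zero, mul_one])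
  have r := a.rad h h1 h2
  have hc : c = 0 := by
    have := r.k1
    simpa using this
  have hl : l = 1 := by
    obtain ⟨q, hq, e⟩ := h1.surj 1 (by decide) 1
    obtain ⟨-, -, y, hy, -, e2, -⟩ := r.r4 q hq 1 e 1
    obtain ⟨w, rfl⟩ := (h.kp.memX 2 y).1 hy
    have e3 : x 2 w * t * (x 2 w)⁻¹ = t := by
      rw [← (h.kb.tL _ (h.kb.xL 2 w)).eq]; group
    rw [e3] at e2
    have e4 := p.inj 2 _ (mul_eq_left.1 e2.symm)
    have e5 := p.two
    linear_combination e4 - e5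
  subst hc hl
  obtain ⟨A, _, j, σ, y, hy⟩ := su4 a b h h1 h2
  exact b.e1 L x t h j σ y X hr hy (b.dc L x t h (fun c => (m c).mem) no)

theorem typeIII (a : AllS.{u, v}) (b : AllU.{u, v}) (h : Ctx L x t) (hr : Red X L t)
    {Xh Xh' : ZMod 8 → Subgroup G} (h1 : HatP L x t 0 1 Xh) (h1' : HatP L (mir x) t 1 0 Xh') :
    IsLieTypeChar 2 X := by
  have h' := a.cmir h
  have h2 := (a.mir L x t h).2.1 1 0 Xh' h1'
  have h2' := (a.mir L _ t h').2.1 0 1 Xh ((a.mir L x t h).2.2.1 0 1 Xh (by simpa using h1))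
  obtain ⟨A, _, j, σ, y, ds⟩ := su4 a b h h1 h2
  have hl := b.hl L x t h j σ y Xh Xh' ds h1 h1' (a.rad h h1 h2) (a.rad h' h1' h2')
  obtain ⟨S, P, l1⟩ := b.lv1 L x t h j σ y _ ds hl
  obtain ⟨R, l2⟩ := b.lv2a L x t h j σ y _ S P ds hl l1
  have l2' := b.lv2b L x t h j σ y _ S P R ds hl l1 l2
  obtain ⟨W2, W4, l3⟩ := b.lv3a L x t h j σ y _ S P R ds hl l1 l2 l2'
  have T : T3 L x t j σ y _ S P R W2 W4 := ⟨ds, hl, l1, l2, l2', l3⟩
  have l3b := b.lv3b2 L x t h j σ y _ S P R W2 W4 T (b.lv3b1 L x t h j σ y _ S P R W2 W4 T)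
  have l3c := b.lv3c L x t h j σ y _ S P R W2 W4 T l3b
  obtain ⟨s, l4⟩ := b.lv4a L x t h j σ y _ S P R W2 W4 T l3b
  obtain ⟨E, f, df⟩ := b.lv4b L x t h j σ y _ S P R W2 W4 s T l3b l3c l4
  have f0 := b.f0b L x t h j σ y _ S P R W2 W4 E f T l3c df
    (b.f0a L x t h j σ y _ S P R W2 W4 E f T l3c df)
  exact b.e3 L x t h j σ y X hr ds (b.nsw L x t h j σ y _ ds hl) E (b.f0c L x t h j σ y E f ds df f0)

theorem typeII (a : AllS.{u, v}) (d : AllD.{u, v}) (h : Ctx L x t) (hr : Red X L t)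
    {Xh Xh' : ZMod 8 → Subgroup G} (h1 : HatP L x t 0 0 Xh) (h1' : HatP L (mir x) t 0 0 Xh') :
    IsLieTypeChar 2 X := by
  have h' := a.cmir h
  have h2 := (a.mir L x t h).2.1 0 0 Xh' h1'
  have h2' := (a.mir L _ t h').2.1 0 0 Xh ((a.mir L x t h).2.2.1 0 0 Xh (by simpa using h1))
  obtain ⟨Yh, c2⟩ := d.com2 L x t h Xh Xh' h1 h1' (a.rad h h1 h2) (a.rad h' h1' h2')
  obtain ⟨p, hp⟩ := a.par L x t h 1 (Yh 1) (c2.mem 1) (c2.le 1) (c2.surj 1) (c2.fix 1)
  obtain ⟨A, _, j, σ, y, y', m, p1⟩ := d.pre1 L x t h Yh p c2 (d.com3 L x t h Yh c2) hp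
  obtain ⟨z, p2⟩ := d.pre2 L x t h j σ y y' m Yh c2 p1
  exact d.e2 L x t h j σ z X hr (d.mon2 L x t h j σ z m p2 (d.mon1 L x t h j σ z m p2))

theorem both (a : AllS.{u, v}) (b : AllU.{u, v}) (d : AllD.{u, v}) (h : Ctx L x t)
    (hr : Red X L t) (m3 : ∀ c, Mv x t (x 3 c)) (m2 : ∀ c, Mv x t (x 2 c)) :
    IsLieTypeChar 2 X := by
  have h' := a.cmir h
  have M := a.mir L x t h
  have e2 := h.mod.pin.two
  obtain ⟨c0, l0, Xh, h1⟩ := a.hat h m3
  obtain ⟨c', l', Xh', h1'⟩ := a.hat h' fun c => (M.1 _).2 (by rw [mir3]; exact m2 _)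
  obtain ⟨c, rfl⟩ := h.kb.root c0
  obtain ⟨l, rfl⟩ := h.kb.root l0
  have h3 := M.2.2.1 c l Xh h1
  have r := a.rad h h1 (M.2.1 c' l' Xh' h1')
  have r' := a.rad h' h1' ((a.mir L _ t h').2.1 c l Xh h3)
  have k3 := r'.k3 fun c => by rw [mir2]; exact (m3 c).mem
  have k1 := r.k1
  have k2 := r.k2
  have k1' := r'.k1
  have k2' := r'.k2
  have sq : ∀ u w : F, u ^ 2 = w ^ 2 → u = w := fun u w e => by
    have : (u - w) ^ 2 = 0 := by linear_combination e + (w ^ 2 - u * w) * e2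
    exact sub_eq_zero.1 (pow_eq_zero_iff two_ne_zero |>.1 this)
  rcases mul_eq_zero.1 k3 with rfl | rfl
  · have hc : c = 0 := by simpa using k1
    subst hc
    have hc' : c' = l := sq _ _ (by simpa using k1')
    subst hc'
    have hl : c' ^ 2 * (1 + c' ^ 2) = 0 := by simpa using k2
    rcases mul_eq_zero.1 hl with e | e
    · have : c' = 0 := by simpa using e
      subst this
      exact typeII a d h hr (by simpa using h1) h1'
    · have : c' = 1 := sq _ _ (by linear_combination e - e2)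
      subst this
      exact typeIII a b h hr (by simpa using h1) h1'
  · have hc' : c' = 0 := by simpa using k1'
    subst hc'
    have hc : c ^ 2 = l' := sq _ _ (by simpa using k1)
    subst hc
    have hl : c ^ 2 * (1 + c ^ 2) = 0 := by simpa using k2'
    rcases mul_eq_zero.1 hl with e | e
    · have : c = 0 := by simpa using e
      subst this
      exact typeII a d h hr (by simpa using h1) (by simpa using h1')
    · have : c = 1 := sq _ _ (by linear_combination e - e2)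
      subst this
      exact typeIII a b h' hr (by simpa using h1') h3

theorem s4_of (a : AllS.{u, v}) (b : AllU.{u, v}) (d : AllD.{u, v}) : S4Stmt.{u, v} := by
  intro F _ _ G _ _ X L t h2 h4 hr hL
  obtain ⟨x, hM⟩ := a.model L h2 h4 hr.qs hL
  have kp := a.kp L x hM
  have kn := a.kn L x hM
  have tc : Tc L t := ⟨hr.t2, hr.tc, hr.cN, fun k hk hc hk2 => by
    have t2 : t * t = 1 := by rw [← sq, ← hr.t2, pow_orderOf_eq_one]
    have hle : closure ({k, t} : Set G) ≤ C[L] := by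
      rw [closure_le]; rintro g (rfl | rfl)
      · exact hk
      · exact hr.tc
    have hsq : ∀ g ∈ closure ({k, t} : Set G), g * g = 1 ∧ Commute g k ∧ Commute g t := by
      intro g hg
      induction hg using closure_induction with
      | mem g hg =>
        rcases hg with rfl | rfl
        · exact ⟨hk2, Commute.refl _, hc⟩
        · exact ⟨t2, hc.symm, Commute.refl _⟩
      | one => simp
      | mul g g' hg hg' ih ih' =>
        refine ⟨?_, ih.2.1.mul_left ih'.2.1, ih.2.2.mul_left ih'.2.2⟩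
        have hcm : Commute g g' := by
          refine closure_induction (p := fun y _ => Commute g y) ?_ (Commute.one_right g)
            (fun _ _ _ _ e e' => e.mul_right e') (fun _ _ e => e.inv_right) hg'
          rintro y (rfl | rfl)
          · exact ih.2.1
          · exact ih.2.2
        calc g * g' * (g * g') = g * (g' * g) * g' := by group
          _ = (g * g) * (g' * g') := by rw [← hcm.eq]; group
          _ = 1 := by rw [ih.1, ih'.1, one_mul]
      | inv g hg ih =>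
        exact ⟨by rw [← mul_inv_rev, ih.1, inv_one], ih.2.1.inv_left, ih.2.2.inv_left⟩
    have hp : IsPGroup 2 (closure ({k, t} : Set G)) := fun g =>
      ⟨1, Subtype.ext (by simpa [sq] using (hsq g g.2).1)⟩
    obtain ⟨⟨g, hg⟩⟩ := hr.cyc _ hle hp
    have key : ∀ y ∈ closure ({k, t} : Set G), y = 1 ∨ y = g := by
      intro y hy
      obtain ⟨n, hn⟩ := hg ⟨y, hy⟩
      have e : (g : G) ^ n = y := by simpa using congrArg Subtype.val hn
      have g2 : (g : G) ^ (2 : ℤ) = 1 := by rw [zpow_two]; exact (hsq g g.2).1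
      rcases Int.even_or_odd' n with ⟨m, rfl | rfl⟩
      · left; rw [← e, zpow_mul, g2, one_zpow]
      · right; rw [← e, zpow_add, zpow_mul, g2, one_zpow, one_mul, zpow_one]
    rcases key k (subset_closure (by simp)) with e | e
    · exact Or.inl e
    · rcases key t (subset_closure (by simp)) with e' | e'
      · have := hr.t2
        rw [e'] at this
        simp at this
      · exact Or.inr (e.trans e'.symm)⟩
  obtain ⟨no, nw⟩ := a.a1 L x hM kp kn t tc
  obtain ⟨r2, z, hz, z1, hd⟩ := a.a2 L x hM kp kn t tc hr.cyc no nw hr.iso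
  have h := a.ctx hM tc r2
  have h' := a.cmir h
  have M := a.mir L x t h
  obtain ⟨b0, c0, rfl⟩ := (kp.memZ z).1 hz
  obtain ⟨s2, s3⟩ := a.b2 L x t h (a.b1 L x t h) b0 c0 hd
  by_cases m2 : ∀ c, Mv x t (x 2 c)
  · by_cases m3 : ∀ c, Mv x t (x 3 c)
    · exact both a b d h hr m3 m2
    · exact typeI a b h' hr (fun c => (M.1 _).2 (by rw [mir3]; exact m2 _))
        fun m => m3 fun c => (M.1 _).1 (by have := m c; rwa [mir2] at this)
  · refine typeI a b h hr (s3 ?_) m2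
    rintro rfl
    refine m2 (s2 ?_)
    rintro rfl
    exact z1 (by rw [hM.pin.zero, hM.pin.zero, one_mul])

end Cfsg.Agent.H35.S4
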