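import Cfsg.Agent.H63.WrDefs
import Cfsg.Prelude.Def_LieTypeChar

/-!
# Standard subgroups of type `Sp₄(q)`, `q ≥ 4` even

Definitions, interface propositions and the assembly; the paper proofs are in
`stubs/notes/h35_s4.md`.  Roots are indexed by `ZMod 8` (angle `45°·i`), odd indices are short.
-/

set_option autoImplicit false

namespace Cfsg.Agent.H35.S4

open Cfsg Cfsg.Agent.H63 Cfsg.Agent.H63.SL Subgroup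
open Cfsg.Agent.H8 (IsSylowIn)
open scoped commutatorElement

universe u v

/-- The short roots. -/
def sh (i : ZMod 8) : Prop := i.val % 2 = 1

instance : DecidablePred sh := fun _ => inferInstanceAs (Decidable (_ = _))

section Ring

variable {A : Type v} [CommRing A] {G : Type u} [Group G]

/-- The Steinberg relations of type `B₂` in characteristic two. -/
structure Pin2 (x : ZMod 8 → A → G) : Prop where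
  two : (2 : A) = 0
  add : ∀ i a b, x i (a + b) = x i a * x i b
  inj : ∀ i a, x i a = 1 → a = 0
  c1 : ∀ i a b, Commute (x i a) (x (i + 1) b)
  c2 : ∀ i a b, Commute (x i a) (x (i + 2) b)
  rs : ∀ i, sh i → ∀ a b, ⁅x i a, x (i + 3) b⁆ = x (i + 1) (a ^ 2 * b) * x (i + 2) (a * b)
  rl : ∀ i, ¬ sh i → ∀ a b, ⁅x i a, x (i + 3) b⁆ = x (i + 1) (a * b) * x (i + 2) (a * b ^ 2)

variable (x : ZMod 8 → A → G)

/-- `X_{i-1} X_i X_{i+1}`. -/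
def A3 (i : ZMod 8) : Subgroup G := XR x (i - 1) ⊔ XR x i ⊔ XR x (i + 1)

/-- `⟨X_i, X_{-i}⟩`. -/
def KK (i : ZMod 8) : Subgroup G := XR x i ⊔ XR x (i + 4)

/-- `U = X_1 X_2 X_3 X_4`. -/
def Up : Subgroup G := A3 x 2 ⊔ A3 x 3

/-- `Z(U) = X_2 X_3`. -/
def Zp : Subgroup G := XR x 2 ⊔ XR x 3

def n2 (i : ZMod 8) : G := x i 1 * x (i + 4) 1 * x i 1

/-- The pinning twisted by the graph symmetry (it fixes `U` and swaps `A3 x 2`, `A3 x 3`). -/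
def mir : ZMod 8 → A → G := fun i a => x (5 - i) (if sh i then a ^ 2 else a)

/-- The weights of the torus element acting on `X_1`, `X_4` by `α`, `β`. -/
def wt (α β : Aˣ) (i : ZMod 8) : Aˣ :=
  if i = 1 then α else if i = 2 then α ^ 2 * β else if i = 3 then α * β else if i = 4 then β else
  if i = 5 then α⁻¹ else if i = 6 then (α ^ 2 * β)⁻¹ else if i = 7 then (α * β)⁻¹ else β⁻¹

def Tor (h : G) (α β : Aˣ) : Prop := ∀ i a, h * x i a * h⁻¹ = x i (wt α β i * a)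

/-- The torus. -/
def HH (L : Subgroup G) : Subgroup G := L ⊓ ⨅ i, N[XR x i]

/-- The part of the torus centralizing `X_i`. -/
def TT (L : Subgroup G) (i : ZMod 8) : Subgroup G := HH x L ⊓ C[XR x i]

/-- The short root elements. -/
def Sh (L : Subgroup G) : Set G := RtZ L (XR x 1)

/-- The long root elements. -/
def Lg (L : Subgroup G) : Set G := RtZ L (XR x 2)

end Ring

section Field

variable {F : Type v} [Field F] {G : Type u} [Group G]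

/-- The model. -/
structure Mod (L : Subgroup G) (x : ZMod 8 → F → G) : Prop where
  pin : Pin2 x
  four : 4 ≤ Nat.card F
  gen : UU x Set.univ = L
  zL : Z[L] = ⊥

/-- Consequences of the relations inside `L`. -/
structure KP (L : Subgroup G) (x : ZMod 8 → F → G) : Prop where
  mir : Mod L (mir x)
  nn : ∀ k i a, n2 x k * x i a * (n2 x k)⁻¹ = x (2 * k + 4 - i) a
  tor : ∀ α β, ∃ h ∈ HH x L, Tor x h α β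
  memH : ∀ h ∈ HH x L, ∃ α β, Tor x h α β
  TK : ∀ i, TT x L i ≤ KK x (i + 2)
  memX : ∀ i g, g ∈ XR x i ↔ ∃ a, g = x i a
  memZ : ∀ g, g ∈ Zp x ↔ ∃ b c, g = x 2 b * x 3 c
  memA : ∀ i g, g ∈ A3 x i ↔ ∃ a b c, g = x (i - 1) a * x i b * x (i + 1) c
  memU : ∀ g, g ∈ Up x ↔ ∃ a b c d, g = x 1 a * x 2 b * x 3 c * x 4 d
  uniq : ∀ i a b c d, x i a * x (i + 1) b * x (i + 2) c * x (i + 3) d = 1 →
    a = 0 ∧ b = 0 ∧ c = 0 ∧ d = 0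
  opp : ∀ i, A3 x i ⊓ A3 x (i + 4) = ⊥
  cardA : ∀ i, Nat.card (A3 x i) = Nat.card F ^ 3
  cardU : Nat.card (Up x) = Nat.card F ^ 4
  syl : IsSylowIn 2 (Up x) L
  der : ⁅Up x, Up x⁆ = Zp x
  qs : IsQuasisimple L

/-- Facts on `N(L)`. -/
structure KN (L : Subgroup G) (x : ZMod 8 → F → G) : Prop where
  aut : ∀ g ∈ N[L], ∃ l ∈ L, ∃ φ : F ≃+* F, (∀ i a, l * g * x i a * (l * g)⁻¹ = x i (φ a)) ∨
    ∀ i a, l * g * x i a * (l * g)⁻¹ = mir x i (φ a)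
  cA : ∀ i, ∀ g ∈ N[L] ⊓ C[XR x i], (∀ v ∈ A3 x i, ⁅g, v⁆ ∈ XR x i) →
    ∃ v ∈ A3 x i, ∃ k ∈ C[L], g = v * k
  cU : ∀ g ∈ N[L] ⊓ C[Zp x], (∀ u ∈ Up x, ⁅g, u⁆ ∈ Zp x) → ∃ u ∈ Up x, ∃ k ∈ C[L], g = u * k
  cX : ∀ i, N[L] ⊓ C[XR x i] ≤ L ⊔ C[L]
  cls : ∀ j ∈ L, j * j = 1 → ∃ l ∈ L, l * j * l⁻¹ ∈ Zp x
  rt : ∀ g ∈ N[L], ∀ r ∈ Sh x L ∪ Lg x L, g * r * g⁻¹ ∈ Sh x L ∪ Lg x L
  dis : Disjoint (Sh x L) (Lg x L)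
  mix : ∀ i a b, a ≠ 0 → b ≠ 0 → x i a * x (i + 1) b ∉ Sh x L ∪ Lg x L
  mix2 : ∀ i a b, a ≠ 0 → b ≠ 0 → x i a * x (i + 2) b ∉ Sh x L ∪ Lg x L
  shB : ∀ B : Subgroup G, B ≤ L → (∀ b ∈ B, b ≠ 1 → b ∈ Sh x L) → ∃ l ∈ L, cj l B ≤ XR x 1
  idx2 : ∀ E : Subgroup G, E ≤ N[L] → (∀ e ∈ E, e * e = 1) →
    Nat.card E ≤ 2 * Nat.card ↥(E ⊓ (L ⊔ C[L]))
  big : ∀ t, Tc L t → ∀ E : Subgroup G, E ≤ C1[t] → (∀ e ∈ E, e * e = 1) →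
    2 * Nat.card F ^ 3 ≤ Nat.card E →
    ∃ l ∈ L, cj l E = zpowers t ⊔ A3 x 2 ∨ cj l E = zpowers t ⊔ A3 x 3
  out : ∀ e ∈ N[L], e * e = 1 → e ∉ L ⊔ C[L] → ∃ B : Subgroup G, B ≤ L ⊓ C1[e] ∧
    (∀ b ∈ B, b * b = 1) ∧ (∀ b ∈ B, ∃ l ∈ L, l * e * l⁻¹ = e * b) ∧ 4 ≤ Nat.card B ∧
    ((∀ r ∈ Sh x L, e * r * e⁻¹ ∈ Sh x L) → Nat.card F ^ 3 ≤ Nat.card B ^ 2)
  pf : Cyc L → PF L

/-- The elements of odd order of `C(L) ∩ C(t)` centralize `Y`. -/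
def OddC (L : Subgroup G) (t : G) (Y : Set G) : Prop :=
  ∀ k ∈ C[L], Commute k t → Odd (orderOf k) → ∀ p ∈ Y, Commute k p

/-- The doubled root group with squaring constant `c`. -/
def HatS (L : Subgroup G) (x : ZMod 8 → F → G) (t : G) (c : F) (i : ZMod 8) : Set G :=
  {p | p ∈ C[A3 x i] ∧ p ∈ C[TT x L i] ∧ (∃ a, p * t * p⁻¹ = t * x i a ∧ p * p = x i (c * a)) ∧
    ¬ ∃ a, p = t * x i a}

/-- The second layer over a long root. -/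
def TldS (L : Subgroup G) (x : ZMod 8 → F → G) (t : G) (i : ZMod 8) : Set G :=
  {p | Is2 p ∧ p ∈ C[KK x (i + 2)] ∧
    (∀ r ∈ HatS L x t 0 (i - 1) ∪ HatS L x t 0 (i + 1), Commute p r) ∧
    t⁻¹ * (p * t * p⁻¹) ∈ HatS L x t 1 i}

/-- The elements of odd order of `C(L) ∩ C(t)`. -/
def Od (L : Subgroup G) (t : G) : Set G := {k | k ∈ C[L] ∧ Commute k t ∧ Odd (orderOf k)}

/-- Elementary facts used everywhere. -/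
structure KB (L : Subgroup G) (x : ZMod 8 → F → G) (t : G) : Prop where
  xL : ∀ i a, x i a ∈ L
  tL : ∀ l ∈ L, Commute t l
  root : ∀ a : F, ∃ r, r ^ 2 = a
  ne1 : ∃ γ : Fˣ, γ ≠ 1 ∧ γ ^ 2 ≠ 1
  ext : ∀ g ∈ L, (∀ i a, Commute g (x i a)) → g = 1
  nL : ∀ k, n2 x k ∈ L
  nsq : ∀ k, n2 x k * n2 x k = 1
  torH : ∀ h ∈ L, ∀ α β, Tor x h α β → h ∈ HH x L
  memT : ∀ i h, h ∈ TT x L i ↔ h ∈ L ∧ ∃ α β, Tor x h α β ∧ wt α β i = 1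
  wtH : ∀ i (γ : Fˣ), ∃ h ∈ HH x L, ∃ α β, Tor x h α β ∧ wt α β i = γ
  comH : ∀ h ∈ HH x L, ∀ h' ∈ HH x L, Commute h h'
  oddH : Odd (Nat.card (HH x L))
  nH : ∀ k, ∀ h ∈ HH x L, n2 x k * h * (n2 x k)⁻¹ ∈ HH x L
  nT : ∀ k i, ∀ h ∈ TT x L i, n2 x k * h * (n2 x k)⁻¹ ∈ TT x L (2 * k + 4 - i)
  od : ∃ O : Subgroup G, (O : Set G) = Od L t
  split : ∀ k ∈ C[L], Commute k t → k ∈ Od L t ∨ t * k ∈ Od L t
  lto : ∀ l ∈ L, ∀ o ∈ Od L t, (l * o = 1 → l = 1 ∧ o = 1) ∧ t * l * o ≠ 1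
  cA : ∀ i g, Commute g t → g ∈ C[A3 x i] →
    ∃ v ∈ A3 x i, ∃ o ∈ Od L t, g = v * o ∨ g = t * v * o
  cAT : ∀ i g, Commute g t → g ∈ C[A3 x i] → g ∈ C[TT x L i] →
    ∃ a, ∃ o ∈ Od L t, g = x i a * o ∨ g = t * x i a * o
  cU : ∀ g, Commute g t → g ∈ C[Zp x] → (∀ u ∈ Up x, ⁅g, u⁆ ∈ Zp x) →
    ∃ u ∈ Up x, ∃ o ∈ Od L t, g = u * o ∨ g = t * u * o
  hatH : ∀ h ∈ HH x L, ∀ c i, ∀ p ∈ HatS L x t c i, h * p * h⁻¹ ∈ HatS L x t c i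
  hatN : ∀ k c i, ∀ p ∈ HatS L x t c i,
    n2 x k * p * (n2 x k)⁻¹ ∈ HatS L x t c (2 * k + 4 - i)
  tldH : ∀ h ∈ HH x L, ∀ i, ∀ p ∈ TldS L x t i, h * p * h⁻¹ ∈ TldS L x t i
  tldN : ∀ k i, ∀ p ∈ TldS L x t i, n2 x k * p * (n2 x k)⁻¹ ∈ TldS L x t (2 * k + 4 - i)
  rot : ∀ k : ZMod 8, ∃ w ∈ L, (∀ i a, w * x i a * w⁻¹ = x (i + 2 * k) a) ∧
    (∀ c i p, p ∈ HatS L x t c i ↔ w * p * w⁻¹ ∈ HatS L x t c (i + 2 * k)) ∧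
    ∀ i p, p ∈ TldS L x t i ↔ w * p * w⁻¹ ∈ TldS L x t (i + 2 * k)
  oddN : ∀ Γ : Subgroup G, t ∈ N[Γ] → (∀ g ∈ Γ, Commute g t → g * g = 1 → g = 1) →
    ∀ g ∈ Γ, Odd (orderOf g)

/-- Fusion of `t` with `t z` takes place in `N(⟨t⟩ U)`. -/
def NW (x : ZMod 8 → F → G) (t : G) : Prop :=
  ∀ z ∈ Zp x, t * z ∈ Dt t → ∃ g ∈ N[zpowers t ⊔ Up x], g * t * g⁻¹ = t * z

/-- The setting of all local pieces. -/
structure Ctx (L : Subgroup G) (x : ZMod 8 → F → G) (t : G) : Prop where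
  mod : Mod L x
  kp : KP L x
  kn : KN L x
  tc : Tc L t
  r2 : R2 L t
  noL : ∀ d ∈ Dt t, d ∉ L
  nw : NW x t
  kb : KB L x t

/-- `t` is moved to `t z` by an element stabilizing `U > Z > 1`. -/
def Mv (x : ZMod 8 → F → G) (t z : G) : Prop :=
  ∃ g ∈ C[Zp x], (∀ u ∈ Up x, ⁅g, u⁆ ∈ Zp x) ∧ g * t * g⁻¹ = t * z

/-- `N(⟨t⟩ U)` normalizes the action of the torus. -/
def SemiL (L : Subgroup G) (x : ZMod 8 → F → G) (t : G) : Prop :=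
  ∀ g ∈ N[zpowers t ⊔ Up x], ∀ h' ∈ HH x L, ∃ h ∈ HH x L, g * h * g⁻¹ * h'⁻¹ ∈ C[Zp x] ∧
    ∀ u ∈ Up x, ⁅g * h * g⁻¹ * h'⁻¹, u⁆ ∈ zpowers t ⊔ Zp x

/-- First step towards the doubled group of the root `3`. -/
structure Hat1 (L : Subgroup G) (x : ZMod 8 → F → G) (t : G) (P : Subgroup G) : Prop where
  two : IsPGroup 2 P
  le : XR x 3 ≤ P
  cen : P ≤ C[Zp x] ⊓ C[TT x L 3]
  cU : ∀ p ∈ P, ∀ u ∈ Up x, ⁅p, u⁆ ∈ Zp x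
  odd : OddC L t P
  nH : HH x L ≤ N[P]
  mov : ∀ p ∈ P, ∃ a, p * t * p⁻¹ = t * x 3 a
  surj : ∀ a, ∃ p ∈ P, p * t * p⁻¹ = t * x 3 a

/-- The doubled group of the root `3`. -/
structure Hat3 (L : Subgroup G) (x : ZMod 8 → F → G) (t : G) (c l : F) (Y : Subgroup G) :
    Prop where
  mem : ∀ p, p ∈ Y ↔ p ∈ HatS L x t c 3
  le : ∀ a, x 3 a ∈ Y
  surj : ∀ a, ∃ p ∈ Y, p * t * p⁻¹ = t * x 3 a
  fix : ∀ p ∈ Y, Commute p t → ∃ a, p = x 3 a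
  com : ∀ p ∈ Y, ∀ p' ∈ Y, Commute p p'
  odd : OddC L t Y
  act : ∀ p ∈ Y, ∀ a, p * t * p⁻¹ = t * x 3 a → ∀ s, ⁅p, x 1 s⁆ = x 2 (l * a * s)

/-- The doubled short root groups. -/
structure HatP (L : Subgroup G) (x : ZMod 8 → F → G) (t : G) (c l : F)
    (Xh : ZMod 8 → Subgroup G) : Prop where
  mem : ∀ i, sh i → ∀ p, p ∈ Xh i ↔ p ∈ HatS L x t c i
  le : ∀ i, sh i → ∀ a, x i a ∈ Xh i
  surj : ∀ i, sh i → ∀ a, ∃ p ∈ Xh i, p * t * p⁻¹ = t * x i a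
  fix : ∀ i, sh i → ∀ p ∈ Xh i, Commute p t → ∃ a, p = x i a
  com : ∀ i, sh i → ∀ p ∈ Xh i, ∀ p' ∈ Xh i, Commute p p'
  odd : ∀ i, sh i → OddC L t (Xh i)
  act : ∀ i, sh i → ∀ p ∈ Xh i, ∀ a, p * t * p⁻¹ = t * x i a → ∀ s,
    ⁅p, x (i - 2) s⁆ = x (i - 1) (l * a * s) ∧ ⁅p, x (i + 2) s⁆ = x (i + 1) (l * a * s)
  ref : ∀ i, sh i → ∀ p ∈ Xh i, ∀ a, p * t * p⁻¹ = t * x i a →
    n2 x (i + 2) * p * (n2 x (i + 2))⁻¹ = p * x i (l * a)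

/-- The doubled group of the long root `2`, or `X_2` itself. -/
structure Hat2 (L : Subgroup G) (x : ZMod 8 → F → G) (t : G) (c l : F) (Y : Subgroup G) : Prop where
  le : ∀ a, x 2 a ∈ Y
  cen : Y ≤ C[A3 x 2] ⊓ C[TT x L 2]
  nH : HH x L ≤ N[Y]
  mov : ∀ p ∈ Y, ∃ w, p * t * p⁻¹ = t * x 2 (w ^ 2) ∧ p * p = x 2 ((c * w) ^ 2) ∧
    (w = 0 → p ∈ XR x 2) ∧
    ∀ s, ⁅p, x 4 (s ^ 2)⁆ = x 3 (l * w * s) ∧ ⁅p, x 0 (s ^ 2)⁆ = x 1 (l * w * s)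
  sat : ∀ a, t * x 2 a ∈ Dt t → ∃ p ∈ Y, p * t * p⁻¹ = t * x 2 a
  com : ∀ p ∈ Y, ∀ p' ∈ Y, Commute p p'
  odd : OddC L t Y

/-- The conjugate of `X̂_1` by `X_4`. -/
def R4 (x : ZMod 8 → F → G) (t : G) (l : F) (Xh : ZMod 8 → Subgroup G) (Y : Subgroup G) : Prop :=
  ∀ p ∈ Xh 1, ∀ a, p * t * p⁻¹ = t * x 1 a → ∀ u, ∃ p' ∈ Xh 3, ∃ y ∈ Y,
    p' * t * p'⁻¹ = t * x 3 (a * u) ∧ y * t * y⁻¹ = t * x 2 ((1 + l) * a ^ 2 * u) ∧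
      x 4 u * p * (x 4 u)⁻¹ = p' * p * y

/-- The relations between the groups around the long root `2`. -/
structure Rad (x : ZMod 8 → F → G) (t : G) (c l c' l' : F) (Xh : ZMod 8 → Subgroup G)
    (Y : Subgroup G) : Prop where
  r1 : ∀ p ∈ Xh 1, ∀ y ∈ Y, Commute p y
  r3 : ∀ p ∈ Xh 3, ∀ y ∈ Y, Commute p y
  r13 : ∀ p ∈ Xh 1, ∀ p' ∈ Xh 3, ⁅p, p'⁆ ∈ XR x 2
  r4 : R4 x t l Xh Y
  k1 : c ^ 2 = l' ^ 2 * (1 + l)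
  k2 : c' ^ 2 * (1 + l) = l * c
  k3 : (∀ a, t * x 2 a ∈ Dt t) → l * l' = 0

variable {A : Type v} [CommRing A]

/-- `A` is a quadratic extension ring of `F`. -/
structure Quad (j : F →+* A) (σ : A ≃+* A) : Prop where
  two : (2 : A) = 0
  sq : ∀ a, σ (σ a) = a
  fix : ∀ a, σ a = a ↔ ∃ b, a = j b
  tr : ∃ ω, σ ω = ω + 1
  card : Nat.card A = Nat.card F ^ 2

/-- An additive section of the doubled group commuting with the torus. -/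
structure Par (L : Subgroup G) (x : ZMod 8 → F → G) (t : G) (i : ZMod 8) (p : F → G) : Prop where
  mem : ∀ b, p b ∈ HatS L x t 0 i
  add : ∀ b b', p (b + b') = p b * p b'
  mov : ∀ b, p b * t * (p b)⁻¹ = t * x i b
  tor : ∀ h ∈ L, ∀ α β, Tor x h α β → ∀ b, h * p b * h⁻¹ = p (wt α β i * b)

/-- Types I and III: the coordinates on `X̂_1`. -/
structure Su1 (L : Subgroup G) (x : ZMod 8 → F → G) (t : G) (j : F →+* A) (σ : A ≃+* A)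
    (y : A → G) : Prop where
  quad : Quad j σ
  add : ∀ a b, y (a + b) = y a * y b
  inj : ∀ a, y a = 1 → a = 0
  res : ∀ a, y (j a) = x 1 a
  conj : ∀ a, t * y a * t⁻¹ = y (σ a)
  ref : ∀ a, n2 x 3 * y a * (n2 x 3)⁻¹ = y (σ a)
  s2 : ∀ a b n, j n = a * b + σ (a * b) → ⁅y a, n2 x 4 * y (σ b) * (n2 x 4)⁻¹⁆ = x 2 n
  s3 : ∀ a n, j n = a * σ a → ∀ u,
    ⁅y a, x 4 u⁆ = x 2 (n * u) * (n2 x 4 * y (a * j u) * (n2 x 4)⁻¹)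
  tor : ∀ h ∈ L, ∀ α β, Tor x h α β → ∀ a, h * y a * h⁻¹ = y (j α * a)
  hat : ∀ p, p ∈ HatS L x t 0 1 ↔ ∃ a, p = y a
  odd : OddC L t (Set.range y)

/-- Types I and III: the relations of `SU₄(A, σ)`; `y i` is used for short `i` only. -/
structure DblS (L : Subgroup G) (x : ZMod 8 → F → G) (t : G) (j : F →+* A) (σ : A ≃+* A)
    (y : ZMod 8 → A → G) : Prop where
  quad : Quad j σ
  add : ∀ i, sh i → ∀ a b, y i (a + b) = y i a * y i b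
  inj : ∀ i, sh i → ∀ a, y i a = 1 → a = 0
  res : ∀ i, sh i → ∀ a, y i (j a) = x i a
  conj : ∀ i, sh i → ∀ a, t * y i a * t⁻¹ = y i (σ a)
  c1 : ∀ i, sh i → ∀ a u, Commute (y i a) (x (i + 1) u) ∧ Commute (y i a) (x (i - 1) u)
  s2 : ∀ i, sh i → ∀ a b n, j n = a * b + σ (a * b) → ⁅y i a, y (i + 2) b⁆ = x (i + 1) n
  s3 : ∀ i, sh i → ∀ a n, j n = a * σ a → ∀ u,
    ⁅y i a, x (i + 3) u⁆ = x (i + 1) (n * u) * y (i + 2) (σ a * j u) ∧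
    ⁅y i a, x (i - 3) u⁆ = x (i - 1) (n * u) * y (i - 2) (σ a * j u)
  wey : ∀ k i, sh i → ∀ a, n2 x k * y i a * (n2 x k)⁻¹ = y (2 * k + 4 - i) (σ a)
  tor : ∀ h ∈ L, ∀ α β, Tor x h α β → ∀ i, sh i → ∀ a,
    h * y i a * h⁻¹ = y i (j (wt α β i) * a)
  hat : ∀ i, sh i → ∀ p, p ∈ HatS L x t 0 i ↔ ∃ a, p = y i a
  odd : ∀ i, sh i → OddC L t (Set.range (y i))

/-- The parameters of the Heisenberg group. -/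
def Hz (σ : A ≃+* A) (s ν : A) : Prop := ν + σ ν = s * σ s

/-- Type III: the relations of `SU₅(A, σ)`; `E i` is used for long `i` only. -/
structure DblL (L : Subgroup G) (x : ZMod 8 → F → G) (t : G) (j : F →+* A) (σ : A ≃+* A)
    (y : ZMod 8 → A → G) (E : ZMod 8 → A → A → G) : Prop where
  mul : ∀ i, ¬ sh i → ∀ s ν s' ν', Hz σ s ν → Hz σ s' ν' →
    E i s ν * E i s' ν' = E i (s + s') (ν + ν' + s * σ s')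
  inj : ∀ i, ¬ sh i → ∀ s ν, Hz σ s ν → E i s ν = 1 → s = 0 ∧ ν = 0
  res : ∀ i, ¬ sh i → ∀ u, E i 0 (j u) = x i u
  conj : ∀ i, ¬ sh i → ∀ s ν, Hz σ s ν → t * E i s ν * t⁻¹ = E i (σ s) (σ ν)
  c1 : ∀ i, ¬ sh i → ∀ s ν, Hz σ s ν → ∀ a,
    Commute (E i s ν) (y (i + 1) a) ∧ Commute (E i s ν) (y (i - 1) a)
  l2 : ∀ i, ¬ sh i → ∀ s ν s' ν', Hz σ s ν → Hz σ s' ν' →
    ⁅E i s ν, E (i + 2) s' ν'⁆ = y (i + 1) (σ s * s')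
  l3 : ∀ i, sh i → ∀ a s ν, Hz σ s ν →
    ⁅y i a, E (i + 3) s ν⁆ = E (i + 1) (a * s) (a * σ a * ν) * y (i + 2) (σ a * ν) ∧
    ⁅y i a, E (i - 3) s ν⁆ = E (i - 1) (σ a * s) (a * σ a * ν) * y (i - 2) (σ a * σ ν)
  wey : ∀ k i, ¬ sh i → ∀ s ν, Hz σ s ν →
    n2 x k * E i s ν * (n2 x k)⁻¹ = E (2 * k + 4 - i) s ν
  tor : ∀ h ∈ L, ∀ α β, Tor x h α β → ∀ i, ¬ sh i → ∀ r : F, r ^ 2 = wt α β i →
    ∀ s ν, Hz σ s ν → h * E i s ν * h⁻¹ = E i (j r * s) (j (r ^ 2) * ν)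
  hat : ∀ i, ¬ sh i → ∀ p, p ∈ TldS L x t i ↔ ∃ s ν, Hz σ s ν ∧ p = E i s ν
  odd : ∀ i, ¬ sh i → OddC L t {p | ∃ s ν, Hz σ s ν ∧ p = E i s ν}

/-- Type II: all root groups are doubled. -/
structure Dbl2 (L : Subgroup G) (x : ZMod 8 → F → G) (t : G) (j : F →+* A) (σ : A ≃+* A)
    (y : ZMod 8 → A → G) : Prop where
  quad : Quad j σ
  pin : Pin2 y
  res : ∀ i a, y i (j a) = x i a
  conj : ∀ i a, t * y i a * t⁻¹ = y i (σ a)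
  hat : ∀ i p, p ∈ HatS L x t 0 i ↔ ∃ a, p = y i a
  odd : ∀ i, OddC L t (Set.range (y i))

/-- `C(t)` does not swap the short and the long root elements. -/
def NoSw (L : Subgroup G) (x : ZMod 8 → F → G) (t : G) : Prop :=
  ∀ g ∈ C1[t], ∀ r ∈ Sh x L, g * r * g⁻¹ ∈ Sh x L

/-- Type I: the conjugates of `t` in `C(t)`. -/
structure TyI (L : Subgroup G) (x : ZMod 8 → F → G) (t : G) : Prop where
  nsw : NoSw L x t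
  dc : ∀ d ∈ Dt t, Commute d t → d = t ∨ t * d ∈ Sh x L
  b1 : ∀ B : Subgroup G, B ≤ C1[t] → (∀ e ∈ B, t * e ∈ Dt t) → Nat.card B ≤ Nat.card F

/-- The doubled long root groups in type III. -/
structure HatL (L : Subgroup G) (x : ZMod 8 → F → G) (t : G) (y : ZMod 8 → A → G)
    (Yh : ZMod 8 → Subgroup G) : Prop where
  mem : ∀ i, ¬ sh i → ∀ p, p ∈ Yh i ↔ p ∈ HatS L x t 1 i
  le : ∀ i, ¬ sh i → ∀ a, x i a ∈ Yh i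
  surj : ∀ i, ¬ sh i → ∀ a, ∃ p ∈ Yh i, p * t * p⁻¹ = t * x i a
  fix : ∀ i, ¬ sh i → ∀ p ∈ Yh i, Commute p t → ∃ a, p = x i a
  com : ∀ i, ¬ sh i → ∀ p ∈ Yh i, ∀ p' ∈ Yh i, Commute p p'
  odd : ∀ i, ¬ sh i → OddC L t (Yh i)
  cK : ∀ i, ¬ sh i → Yh i ≤ C[KK x (i + 2)]
  cy : ∀ i, ¬ sh i → ∀ p ∈ Yh i, ∀ a, Commute p (y (i + 1) a) ∧ Commute p (y (i - 1) a)
  l2 : ∀ i, ¬ sh i → ∀ p ∈ Yh i, ∀ p' ∈ Yh (i + 2), ⁅p, p'⁆ ∈ XR x (i + 1)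
  l3 : ∀ p ∈ Yh 4, ∀ w, p * t * p⁻¹ = t * x 4 w → ∀ s, ∃ p' ∈ Yh 2, ∃ b,
    p' * t * p'⁻¹ = t * x 2 (s ^ 2 * w) ∧ y 3 b * t * (y 3 b)⁻¹ = t * x 3 (w * s) ∧
      x 1 s * p * (x 1 s)⁻¹ = p' * p * y 3 b

/-- Type III: the groups `S = X_2 X̂_3 X_4` and `P = X̂_2 X̂_3 X̂_4`. -/
structure Lv1 (L : Subgroup G) (x : ZMod 8 → F → G) (t : G) (y : ZMod 8 → A → G)
    (Yh : ZMod 8 → Subgroup G) (S P : Subgroup G) : Prop where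
  memS : ∀ g, g ∈ S ↔ ∃ a b c, g = x 2 a * y 3 b * x 4 c
  uniqS : ∀ a b c, x 2 a * y 3 b * x 4 c = 1 → a = 0 ∧ b = 0 ∧ c = 0
  sqS : ∀ g ∈ S, g * g = 1
  cardS : Nat.card S = Nat.card F ^ 4
  nS : t ∈ N[S] ∧ HH x L ≤ N[S] ∧ ∀ a, y 1 a ∈ N[S] ∧ y 5 a ∈ N[S]
  memP : ∀ g, g ∈ P ↔ ∃ p ∈ Yh 2, ∃ b, ∃ p' ∈ Yh 4, g = p * y 3 b * p'
  uniqP : ∀ p ∈ Yh 2, ∀ p' ∈ Yh 4, p * p' ∈ S → p ∈ XR x 2 ∧ p' ∈ XR x 4
  SP : S ≤ P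
  cS : P ≤ C[S]
  sqP : ∀ g ∈ P, g * g ∈ S
  comP : ∀ g ∈ P, ∀ g' ∈ P, ⁅g, g'⁆ ∈ S
  tP : ∀ g ∈ P, ⁅g, t⁆ ∈ S
  cardP : Nat.card P = Nat.card F ^ 6
  oddP : OddC L t P
  nP : t ∈ N[P] ∧ HH x L ≤ N[P] ∧ KK x 1 ≤ N[P]
  fixO : ∀ g ∈ C[S], ⁅g, t⁆ ∈ S → ∃ p ∈ P, ∃ o ∈ Od L t, g = p * o
  fix : ∀ g ∈ C[S], Is2 g → ⁅g, t⁆ ∈ S → g ∈ P
  /-- `K_1` is transitive on the nonidentity elements of `P / S`. -/
  tr : ∀ g ∈ P, ∃ k ∈ KK x 1, ∃ p ∈ Yh 2, p⁻¹ * (k * g * k⁻¹) ∈ S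
  /-- the conjugates of `X̂_4` under `X̂_1` -/
  up : ∀ a s, y 1 a * t * (y 1 a)⁻¹ = t * x 1 s → ∀ p ∈ Yh 4, ∀ w, p * t * p⁻¹ = t * x 4 w →
    ∃ p' ∈ Yh 2, p' * t * p'⁻¹ = t * x 2 (s ^ 2 * w) ∧
      p'⁻¹ * (t⁻¹ * (y 1 a * p * (y 1 a)⁻¹ * t * (y 1 a * p * (y 1 a)⁻¹)⁻¹)) ∈ S

/-- Type III: the group `R` of order `q ^ 8`. -/
structure Lv2 (L : Subgroup G) (x : ZMod 8 → F → G) (t : G) (S P R : Subgroup G) : Prop where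
  mem : ∀ g, g ∈ R ↔ Is2 g ∧ g ∈ C[S] ∧ OddC L t {g} ∧ t⁻¹ * (g * t * g⁻¹) ∈ P
  le : P ≤ R
  nP : R ≤ N[P]
  card : Nat.card R = Nat.card F ^ 8
  onto : ∀ p ∈ P, ∃ g ∈ R, p⁻¹ * (t⁻¹ * (g * t * g⁻¹)) ∈ S
  nR : t ∈ N[R] ∧ HH x L ≤ N[R] ∧ KK x 1 ≤ N[R]

/-- `R / S` is elementary abelian and normalized by `X̂_1`, `X̂_5`. -/
structure Lv2' (y : ZMod 8 → A → G) (S R : Subgroup G) : Prop where
  sq : ∀ g ∈ R, g * g ∈ S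
  n1 : ∀ a, y 1 a ∈ N[R] ∧ y 5 a ∈ N[R]

/-- Type III: the decomposition of `R`. -/
structure Lv3a (L : Subgroup G) (x : ZMod 8 → F → G) (t : G) (y : ZMod 8 → A → G)
    (Yh : ZMod 8 → Subgroup G) (R W2 W4 : Subgroup G) : Prop where
  two : W2 = R ⊓ C[TT x L 2]
  four : W4 = R ⊓ C[TT x L 4]
  sw : ∀ e, e ∈ W4 ↔ n2 x 1 * e * (n2 x 1)⁻¹ ∈ W2
  card : Nat.card W2 = Nat.card F ^ 3
  dec : ∀ g ∈ R, ∃ e ∈ W2, ∃ b, ∃ e' ∈ W4, g = e * y 3 b * e'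
  uniq : ∀ e ∈ W2, ∀ b, ∀ e' ∈ W4, e * y 3 b * e' = 1 → e = 1 ∧ b = 0 ∧ e' = 1
  sq : ∀ e ∈ W2, e * e ∈ XR x 2
  com : ∀ e ∈ W2, ∀ e' ∈ W2, ⁅e, e'⁆ ∈ XR x 2
  l2 : ∀ e ∈ W2, ∀ e' ∈ W4, ∃ b, ⁅e, e'⁆ = y 3 b
  le : Yh 2 ≤ W2
  mov : ∀ e ∈ W2, t⁻¹ * (e * t * e⁻¹) ∈ Yh 2
  ker : ∀ e ∈ W2, t⁻¹ * (e * t * e⁻¹) ∈ XR x 2 → e ∈ Yh 2
  onto : ∀ p ∈ Yh 2, ∃ e ∈ W2, p⁻¹ * (t⁻¹ * (e * t * e⁻¹)) ∈ XR x 2

/-- The action of `X̂_1`. -/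
structure Lv3b (y : ZMod 8 → A → G) (W2 W4 : Subgroup G) : Prop where
  c1 : ∀ a, ∀ e ∈ W2, Commute (y 1 a) e
  l3 : ∀ a, ∀ e' ∈ W4, ∃ e ∈ W2, ∃ b, ⁅y 1 a, e'⁆ = e * y 3 b

/-- Type III: the coordinate on `W_2 / X_2`; on `W_4 / X_4` it is transported by `n_1`. -/
structure Lv4 (L : Subgroup G) (x : ZMod 8 → F → G) (t : G) (j : F →+* A) (σ : A ≃+* A)
    (y : ZMod 8 → A → G) (W2 W4 : Subgroup G) (s : G → A) : Prop where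
  add : ∀ e ∈ W2, ∀ e' ∈ W2, s (e * e') = s e + s e'
  ker : ∀ e ∈ W2, s e = 0 ↔ e ∈ XR x 2
  surj : ∀ a, ∃ e ∈ W2, s e = a
  conj : ∀ e ∈ W2, s (t * e * t⁻¹) = σ (s e)
  tor : ∀ h ∈ L, ∀ α β, Tor x h α β → ∀ r : F, r ^ 2 = wt α β 2 → ∀ e ∈ W2,
    s (h * e * h⁻¹) = j r * s e
  sq : ∀ e ∈ W2, ∀ n, j n = s e * σ (s e) → e * e = x 2 n
  l2 : ∀ e ∈ W2, ∀ e' ∈ W4, ⁅e, e'⁆ = y 3 (σ (s e) * s (n2 x 1 * e' * (n2 x 1)⁻¹))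
  l3 : ∀ a, ∀ e' ∈ W4, ∀ e ∈ W2, ∀ b, ⁅y 1 a, e'⁆ = e * y 3 b →
    s e = a * s (n2 x 1 * e' * (n2 x 1)⁻¹)

/-- All data of type III up to the decomposition of `R`. -/
structure T3 (L : Subgroup G) (x : ZMod 8 → F → G) (t : G) (j : F →+* A) (σ : A ≃+* A)
    (y : ZMod 8 → A → G) (Yh : ZMod 8 → Subgroup G) (S P R W2 W4 : Subgroup G) : Prop where
  ds : DblS L x t j σ y
  hl : HatL L x t y Yh
  l1 : Lv1 L x t y Yh S P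
  l2 : Lv2 L x t S P R
  l2' : Lv2' y S R
  l3 : Lv3a L x t y Yh R W2 W4

/-- Type III, third step: the relations up to the defect `f`. -/
structure DblF (L : Subgroup G) (x : ZMod 8 → F → G) (t : G) (j : F →+* A) (σ : A ≃+* A)
    (y : ZMod 8 → A → G) (E : ZMod 8 → A → A → G) (f : A → A → F) : Prop where
  mem : ∀ i, ¬ sh i → ∀ p, p ∈ TldS L x t i ↔ ∃ s ν, Hz σ s ν ∧ p = E i s ν
  odd : OddC L t (TldS L x t 2)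
  mul : ∀ i, ¬ sh i → ∀ s ν s' ν', Hz σ s ν → Hz σ s' ν' →
    E i s ν * E i s' ν' = E i (s + s') (ν + ν' + s * σ s')
  inj : ∀ i, ¬ sh i → ∀ s ν, Hz σ s ν → E i s ν = 1 → s = 0 ∧ ν = 0
  res : ∀ i, ¬ sh i → ∀ u, E i 0 (j u) = x i u
  conj : ∀ i, ¬ sh i → ∀ s ν, Hz σ s ν → t * E i s ν * t⁻¹ = E i (σ s) (σ ν)
  l2 : ∀ s ν s' ν', Hz σ s ν → Hz σ s' ν' → ⁅E 2 s ν, E 4 s' ν'⁆ = y 3 (σ s * s')
  l3 : ∀ a s ν, Hz σ s ν →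
    ⁅y 1 a, E 4 s ν⁆ = E 2 (a * s) (a * σ a * ν + j (f a s)) * y 3 (σ a * ν)
  fadd : ∀ a a' s, f (a + a') s = f a s + f a' s
  fsc : ∀ u a s, f (j u * a) s = u ^ 2 * f a s
  wey : ∀ k i, ¬ sh i → ∀ s ν, Hz σ s ν →
    n2 x k * E i s ν * (n2 x k)⁻¹ = E (2 * k + 4 - i) s ν
  tor : ∀ h ∈ L, ∀ α β, Tor x h α β → ∀ i, ¬ sh i → ∀ r : F, r ^ 2 = wt α β i →
    ∀ s ν, Hz σ s ν → h * E i s ν * h⁻¹ = E i (j r * s) (j (r ^ 2) * ν)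

/-- Type II, first step: the commutator relations of the doubled groups. -/
structure Com2 (L : Subgroup G) (x : ZMod 8 → F → G) (t : G) (Xh : ZMod 8 → Subgroup G) :
    Prop where
  mem : ∀ i p, p ∈ Xh i ↔ p ∈ HatS L x t 0 i
  le : ∀ i a, x i a ∈ Xh i
  surj : ∀ i a, ∃ p ∈ Xh i, p * t * p⁻¹ = t * x i a
  fix : ∀ i, ∀ p ∈ Xh i, Commute p t → ∃ a, p = x i a
  odd : ∀ i, OddC L t (Xh i)
  c1 : ∀ i, Xh i ≤ C[Xh (i + 1)]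
  c2 : ∀ i, Xh i ≤ C[Xh (i + 2)]
  r4 : ∀ p ∈ Xh 1, ∀ a, p * t * p⁻¹ = t * x 1 a → ∀ u, ∃ r ∈ Xh 2, ∃ r' ∈ Xh 3,
    r * t * r⁻¹ = t * x 2 (a ^ 2 * u) ∧ r' * t * r'⁻¹ = t * x 3 (a * u) ∧ ⁅p, x 4 u⁆ = r * r'
  r1 : ∀ p ∈ Xh 4, ∀ w, p * t * p⁻¹ = t * x 4 w → ∀ s, ∃ r ∈ Xh 2, ∃ r' ∈ Xh 3,
    r * t * r⁻¹ = t * x 2 (s ^ 2 * w) ∧ r' * t * r'⁻¹ = t * x 3 (s * w) ∧ ⁅x 1 s, p⁆ = r * r'

/-- Type II: the commutators of `X̂_1` and `X̂_4`. -/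
def C3 (Xh : ZMod 8 → Subgroup G) : Prop :=
  ∀ p ∈ Xh 1, ∀ p' ∈ Xh 4, ∃ r ∈ Xh 2, ∃ r' ∈ Xh 3, ⁅p, p'⁆ = r * r'

/-- Type II: the coordinates on `X̂_1` and `X̂_4`. -/
structure Pre1 (L : Subgroup G) (x : ZMod 8 → F → G) (t : G) (j : F →+* A) (σ : A ≃+* A)
    (y y' : A → G) (m : A → A → A) : Prop where
  quad : Quad j σ
  add : ∀ a b, y (a + b) = y a * y b ∧ y' (a + b) = y' a * y' b
  inj : ∀ a, (y a = 1 → a = 0) ∧ (y' a = 1 → a = 0)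
  res : ∀ a, y (j a) = x 1 a ∧ y' (j a) = x 4 a
  conj : ∀ a, t * y a * t⁻¹ = y (σ a) ∧ t * y' a * t⁻¹ = y' (σ a)
  tor : ∀ h ∈ L, ∀ α β, Tor x h α β → ∀ a,
    h * y a * h⁻¹ = y (j α * a) ∧ h * y' a * h⁻¹ = y' (j β * a)
  hat : ∀ p, (p ∈ HatS L x t 0 1 ↔ ∃ a, p = y a) ∧ (p ∈ HatS L x t 0 4 ↔ ∃ a, p = y' a)
  rs : ∀ a b, ⁅y a, y' b⁆ =
    n2 x 1 * y' (m a b) * (n2 x 1)⁻¹ * (n2 x 4 * y (a * b) * (n2 x 4)⁻¹)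
  madd : ∀ a a' b, m (a + a') b = m a b + m a' b
  madd' : ∀ a b b', m a (b + b') = m a b + m a b'
  msc : ∀ u w a b, m (j u * a) (j w * b) = j (u ^ 2 * w) * m a b
  mone : ∀ b, m 1 b = b

/-- Type II, second step: coordinates; the long component `m` is not yet known. -/
structure Pre2 (L : Subgroup G) (x : ZMod 8 → F → G) (t : G) (j : F →+* A) (σ : A ≃+* A)
    (y : ZMod 8 → A → G) (m : A → A → A) : Prop where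
  quad : Quad j σ
  add : ∀ i a b, y i (a + b) = y i a * y i b
  inj : ∀ i a, y i a = 1 → a = 0
  c1 : ∀ i a b, Commute (y i a) (y (i + 1) b)
  c2 : ∀ i a b, Commute (y i a) (y (i + 2) b)
  rs : ∀ a b, ⁅y 1 a, y 4 b⁆ = y 2 (m a b) * y 3 (a * b)
  madd : ∀ a a' b, m (a + a') b = m a b + m a' b
  madd' : ∀ a b b', m a (b + b') = m a b + m a b'
  msc : ∀ u w a b, m (j u * a) (j w * b) = j (u ^ 2 * w) * m a b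
  mone : ∀ b, m 1 b = b
  res : ∀ i a, y i (j a) = x i a
  conj : ∀ i a, t * y i a * t⁻¹ = y i (σ a)
  wey : ∀ k i a, n2 x k * y i a * (n2 x k)⁻¹ = y (2 * k + 4 - i) a
  tor : ∀ h ∈ L, ∀ α β, Tor x h α β → ∀ i a, h * y i a * h⁻¹ = y i (j (wt α β i) * a)
  hat : ∀ i p, p ∈ HatS L x t 0 i ↔ ∃ a, p = y i a
  odd : ∀ i, OddC L t (Set.range (y i))

end Field

/-- A statement about one model. -/
def MAll (P : ∀ {F : Type v} [Field F] {G : Type u} [Group G] (_ : Subgroup G)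
    (_ : ZMod 8 → F → G), Prop) : Prop :=
  ∀ {F : Type v} [Field F] [Finite F] {G : Type u} [Group G] [Finite G] (L : Subgroup G)
    (x : ZMod 8 → F → G), Mod L x → P L x

/-- A statement about one local configuration. -/
def CAll (P : ∀ {F : Type v} [Field F] {G : Type u} [Group G] (_ : Subgroup G)
    (_ : ZMod 8 → F → G) (_ : G), Prop) : Prop :=
  ∀ {F : Type v} [Field F] [Finite F] {G : Type u} [Group G] [Finite G] (L : Subgroup G)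
    (x : ZMod 8 → F → G) (t : G), Ctx L x t → P L x t

/-- A statement about one local configuration with a coefficient ring. -/
def RAll (P : ∀ {F : Type v} [Field F] {G : Type u} [Group G] (_ : Subgroup G)
    (_ : ZMod 8 → F → G) (_ : G) {A : Type v} [CommRing A] (_ : F →+* A) (_ : A ≃+* A)
    (_ : ZMod 8 → A → G), Prop) : Prop :=
  CAll.{u, v} fun {F} _ {G} _ L x t => ∀ {A : Type v} [CommRing A] (j : F →+* A) (σ : A ≃+* A)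
    (y : ZMod 8 → A → G), P L x t j σ y

/-- **MODEL** -/
def ModelStmt : Prop :=
  ∀ {F : Type v} [Field F] [Fintype F] {G : Type u} [Group G] [Finite G] (L : Subgroup G),
    (2 : F) = 0 → 4 ≤ Nat.card F → IsQuasisimple L → Nonempty ((L ⧸ center L) ≃* PSp 2 F) →
    ∃ x : ZMod 8 → F → G, Mod L x

/-- **KP** -/
def KPStmt : Prop := MAll.{u, v} fun L x => KP L x

/-- **KN** -/
def KNStmt : Prop := MAll.{u, v} fun L x => KN L x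

/-- **BASE** -/
def BaseStmt : Prop := MAll.{u, v} fun L x => KP L x → KN L x → ∀ t, Tc L t → R2 L t → KB L x t

/-- **STA1** -/
def StA1Stmt : Prop := MAll.{u, v} fun L x => KP L x → KN L x → ∀ t, Tc L t →
  (∀ d ∈ Dt t, d ∉ L) ∧ NW x t

/-- **STA2** -/
def StA2Stmt : Prop := MAll.{u, v} fun L x => KP L x → KN L x → ∀ t, Tc L t → Cyc L →
  (∀ d ∈ Dt t, d ∉ L) → NW x t → (∃ g, Commute (g * t * g⁻¹) t ∧ g * t * g⁻¹ ≠ t) →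
  R2 L t ∧ ∃ z ∈ Zp x, z ≠ 1 ∧ t * z ∈ Dt t

/-- **STB1** -/
def StB1Stmt : Prop := CAll.{u, v} fun L x t => SemiL L x t

/-- **STB2** -/
def StB2Stmt : Prop := CAll.{u, v} fun L x t => SemiL L x t →
  ∀ b c, t * (x 2 b * x 3 c) ∈ Dt t →
    (b ≠ 0 → ∀ a, Mv x t (x 2 a)) ∧ (c ≠ 0 → ∀ a, Mv x t (x 3 a))

/-- **HAT1** -/
def Hat1Stmt : Prop := CAll.{u, v} fun L x t => (∀ a, Mv x t (x 3 a)) → ∃ P, Hat1 L x t P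

/-- **HAT2** -/
def Hat2Stmt : Prop := CAll.{u, v} fun L x t => ∀ P, Hat1 L x t P → P ≤ C[A3 x 3]

/-- **HAT3** -/
def Hat3Stmt : Prop := CAll.{u, v} fun L x t => ∀ P, Hat1 L x t P → P ≤ C[A3 x 3] →
  ∃ c l Y, Hat3 L x t c l Y

/-- **HAT4** -/
def Hat4Stmt : Prop := CAll.{u, v} fun L x t => ∀ c l Y, Hat3 L x t c l Y →
  ∃ Xh, HatP L x t c l Xh

/-- **RAD1** -/
def Rad1Stmt : Prop := CAll.{u, v} fun L x t => ∀ c l c' l' Xh Y, HatP L x t c l Xh →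
  Hat2 L x t c' l' Y → (∀ p ∈ Xh 1, ∀ y ∈ Y, Commute p y) ∧ ∀ p ∈ Xh 3, ∀ y ∈ Y, Commute p y

/-- **RAD2** -/
def Rad2Stmt : Prop := CAll.{u, v} fun L x t => ∀ c l Xh, HatP L x t c l Xh →
  ∀ p ∈ Xh 1, ∀ p' ∈ Xh 3, ⁅p, p'⁆ ∈ XR x 2

/-- **RAD3** -/
def Rad3Stmt : Prop := CAll.{u, v} fun L x t => ∀ c l c' l' Xh Y, HatP L x t c l Xh →
  Hat2 L x t c' l' Y → R4 x t l Xh Y

/-- **RAD4** -/
def Rad4Stmt : Prop := CAll.{u, v} fun L x t => ∀ c l c' l' Xh Y, HatP L x t c l Xh →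
  Hat2 L x t c' l' Y → (∀ p ∈ Xh 1, ∀ y ∈ Y, Commute p y) → (∀ p ∈ Xh 3, ∀ y ∈ Y, Commute p y) →
  R4 x t l Xh Y → c ^ 2 = l' ^ 2 * (1 + l) ∧ c' ^ 2 * (1 + l) = l * c ∧
    ((∀ a, t * x 2 a ∈ Dt t) → l * l' = 0)

/-- **MIR**: translation of the mirrored data. -/
def MirStmt : Prop := CAll.{u, v} fun L x t =>
  (∀ z, Mv (mir x) t z ↔ Mv x t z) ∧
  (∀ c l Xh, HatP L (mir x) t c l Xh → Hat2 L x t c l (Xh 3)) ∧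
  (∀ c l Xh, HatP L x t (c ^ 2) (l ^ 2) Xh → HatP L (mir (mir x)) t c l Xh) ∧
  ((∀ a, a ≠ 0 → t * x 2 a ∉ Dt t) → Hat2 L x t 0 0 (XR x 2))

/-- **DC**: type I. -/
def DcStmt : Prop := CAll.{u, v} fun L x t => (∀ a, t * x 3 a ∈ Dt t) →
  (∀ b c, b ≠ 0 → t * (x 2 b * x 3 c) ∉ Dt t) → TyI L x t

/-- **PAR** -/
def ParStmt : Prop := CAll.{u, v} fun {_} _ {G} _ L x t => ∀ i (V : Subgroup G),
  (∀ p, p ∈ V ↔ p ∈ HatS L x t 0 i) → (∀ a, x i a ∈ V) →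
  (∀ a, ∃ p ∈ V, p * t * p⁻¹ = t * x i a) → (∀ p ∈ V, Commute p t → ∃ a, p = x i a) →
  ∃ p, Par L x t i p

/-- **SU1**: types I and III. -/
def Su1Stmt : Prop := CAll.{u, v} fun {F} _ {G} _ L x t => ∀ c' Xh Y p, HatP L x t 0 1 Xh →
  Hat2 L x t c' 0 Y → Rad x t 0 1 c' 0 Xh Y → Par L x t 1 p →
  ∃ (A : Type v) (_ : CommRing A) (j : F →+* A) (σ : A ≃+* A) (y : A → G), Su1 L x t j σ y

/-- **SU2** -/
def Su2Stmt : Prop := CAll.{u, v} fun {F} _ {G} _ L x t => ∀ {A : Type v} [CommRing A]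
  (j : F →+* A) (σ : A ≃+* A) (y1 : A → G), Su1 L x t j σ y1 → ∃ y, DblS L x t j σ y

/-- **HL**: type III. -/
def HlStmt : Prop := RAll.{u, v} fun L x t _ _ j σ y => ∀ Xh Xh', DblS L x t j σ y →
  HatP L x t 0 1 Xh → HatP L (mir x) t 1 0 Xh' → Rad x t 0 1 1 0 Xh (Xh' 3) →
  Rad (mir x) t 1 0 0 1 Xh' (Xh 3) → HatL L x t y (fun i => Xh' (5 - i))

/-- **NSW** -/
def NswStmt : Prop := RAll.{u, v} fun L x t _ _ j σ y => ∀ Yh, DblS L x t j σ y →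
  HatL L x t y Yh → NoSw L x t

/-- **LV1** -/
def Lv1Stmt : Prop := RAll.{u, v} fun L x t _ _ j σ y => ∀ Yh, DblS L x t j σ y →
  HatL L x t y Yh → ∃ S P, Lv1 L x t y Yh S P

/-- **LV2A** -/
def Lv2aStmt : Prop := RAll.{u, v} fun L x t _ _ j σ y => ∀ Yh S P, DblS L x t j σ y →
  HatL L x t y Yh → Lv1 L x t y Yh S P → ∃ R, Lv2 L x t S P R

/-- **LV2B** -/
def Lv2bStmt : Prop := RAll.{u, v} fun L x t _ _ j σ y => ∀ Yh S P R, DblS L x t j σ y →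
  HatL L x t y Yh → Lv1 L x t y Yh S P → Lv2 L x t S P R → Lv2' y S R

/-- **LV3A** -/
def Lv3aStmt : Prop := RAll.{u, v} fun L x t _ _ j σ y => ∀ Yh S P R, DblS L x t j σ y →
  HatL L x t y Yh → Lv1 L x t y Yh S P → Lv2 L x t S P R → Lv2' y S R →
  ∃ W2 W4, Lv3a L x t y Yh R W2 W4

/-- **LV3B1**: `X̂_1` stabilizes the chain `R > W_2 S > S`. -/
def Lv3b1Stmt : Prop := RAll.{u, v} fun L x t _ _ j σ y => ∀ Yh S P R W2 W4,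
  T3 L x t j σ y Yh S P R W2 W4 →
  ∀ a, (∀ e ∈ W2, ⁅y 1 a, e⁆ ∈ S) ∧ ∀ e' ∈ W4, ∃ e ∈ W2, ∃ g ∈ S, ⁅y 1 a, e'⁆ = e * g

/-- **LV3B2** -/
def Lv3b2Stmt : Prop := RAll.{u, v} fun L x t _ _ j σ y => ∀ Yh S P R W2 W4,
  T3 L x t j σ y Yh S P R W2 W4 →
  (∀ a, (∀ e ∈ W2, ⁅y 1 a, e⁆ ∈ S) ∧ ∀ e' ∈ W4, ∃ e ∈ W2, ∃ g ∈ S, ⁅y 1 a, e'⁆ = e * g) →
  Lv3b y W2 W4

/-- **LV3C** -/
def Lv3cStmt : Prop := RAll.{u, v} fun L x t _ _ j σ y => ∀ Yh S P R W2 W4,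
  T3 L x t j σ y Yh S P R W2 W4 → Lv3b y W2 W4 → ∀ p, p ∈ W2 ↔ p ∈ TldS L x t 2

/-- **LV4A** -/
def Lv4aStmt : Prop := RAll.{u, v} fun L x t _ _ j σ y => ∀ Yh S P R W2 W4,
  T3 L x t j σ y Yh S P R W2 W4 → Lv3b y W2 W4 → ∃ s, Lv4 L x t j σ y W2 W4 s

/-- **LV4B** -/
def Lv4bStmt : Prop := RAll.{u, v} fun L x t _ _ j σ y => ∀ Yh S P R W2 W4 s,
  T3 L x t j σ y Yh S P R W2 W4 → Lv3b y W2 W4 → (∀ p, p ∈ W2 ↔ p ∈ TldS L x t 2) →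
  Lv4 L x t j σ y W2 W4 s → ∃ E f, DblF L x t j σ y E f

/-- **F0A** -/
def F0aStmt : Prop := RAll.{u, v} fun L x t _ _ j σ y => ∀ Yh S P R W2 W4 E f,
  T3 L x t j σ y Yh S P R W2 W4 → (∀ p, p ∈ W2 ↔ p ∈ TldS L x t 2) → DblF L x t j σ y E f →
  ∀ a a', a * a' = 1 → ∀ e ∈ W4,
    y 1 a * y 5 (σ a') * y 1 a * e * (y 1 a * y 5 (σ a') * y 1 a)⁻¹ ∈ W2

/-- **F0B** -/
def F0bStmt : Prop := RAll.{u, v} fun L x t _ _ j σ y => ∀ Yh S P R W2 W4 E f,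
  T3 L x t j σ y Yh S P R W2 W4 → (∀ p, p ∈ W2 ↔ p ∈ TldS L x t 2) → DblF L x t j σ y E f →
  (∀ a a', a * a' = 1 → ∀ e ∈ W4,
    y 1 a * y 5 (σ a') * y 1 a * e * (y 1 a * y 5 (σ a') * y 1 a)⁻¹ ∈ W2) → ∀ a s, f a s = 0

/-- **F0C** -/
def F0cStmt : Prop := RAll.{u, v} fun L x t _ _ j σ y => ∀ E f, DblS L x t j σ y →
  DblF L x t j σ y E f → (∀ a s, f a s = 0) → DblL L x t j σ y E

/-- **COM2**: type II. -/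
def Com2Stmt : Prop := CAll.{u, v} fun L x t => ∀ Xh Xh', HatP L x t 0 0 Xh →
  HatP L (mir x) t 0 0 Xh' → Rad x t 0 0 0 0 Xh (Xh' 3) → Rad (mir x) t 0 0 0 0 Xh' (Xh 3) →
  ∃ Yh, Com2 L x t Yh

/-- **COM3** -/
def Com3Stmt : Prop := CAll.{u, v} fun L x t => ∀ Xh, Com2 L x t Xh → C3 Xh

/-- **PRE1** -/
def Pre1Stmt : Prop := CAll.{u, v} fun {F} _ {G} _ L x t => ∀ Xh p, Com2 L x t Xh → C3 Xh →
  Par L x t 1 p → ∃ (A : Type v) (_ : CommRing A) (j : F →+* A) (σ : A ≃+* A) (y y' : A → G)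
    (m : A → A → A), Pre1 L x t j σ y y' m

/-- **PRE2** -/
def Pre2Stmt : Prop := CAll.{u, v} fun {F} _ {G} _ L x t => ∀ {A : Type v} [CommRing A]
  (j : F →+* A) (σ : A ≃+* A) (y y' : A → G) m Xh, Com2 L x t Xh → Pre1 L x t j σ y y' m →
  ∃ z, Pre2 L x t j σ z m

/-- **MON1** -/
def Mon1Stmt : Prop := RAll.{u, v} fun L x t _ _ j σ y => ∀ m, Pre2 L x t j σ y m →
  ∀ a b b', b * b' = 1 → m a b = m (a * b) b'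

/-- **MON2** -/
def Mon2Stmt : Prop := RAll.{u, v} fun L x t _ _ j σ y => ∀ m, Pre2 L x t j σ y m →
  (∀ a b b', b * b' = 1 → m a b = m (a * b) b') → Dbl2 L x t j σ y

/-- **END I** (chapter 2). -/
def End1Stmt : Prop := RAll.{u, v} fun {_} _ {G} _ L x t _ _ j σ y => ∀ X : Subgroup G,
  Red X L t → DblS L x t j σ y → TyI L x t → IsLieTypeChar 2 X

/-- **END II** (chapter 2). -/
def End2Stmt : Prop := RAll.{u, v} fun {_} _ {G} _ L x t _ _ j σ y => ∀ X : Subgroup G,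
  Red X L t → Dbl2 L x t j σ y → IsLieTypeChar 2 X

/-- **END III** (chapter 2). -/
def End3Stmt : Prop := RAll.{u, v} fun {_} _ {G} _ L x t _ _ j σ y => ∀ X : Subgroup G,
  Red X L t → DblS L x t j σ y → NoSw L x t → ∀ E, DblL L x t j σ y E → IsLieTypeChar 2 X

/-- The theorem for `Sp₄(q)`. -/
def S4Stmt : Prop :=
  ∀ {F : Type v} [Field F] [Fintype F] {G : Type u} [Group G] [Finite G] (X L : Subgroup G) (t : G),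
    (2 : F) = 0 → 4 ≤ Nat.card F → Red X L t → Nonempty ((L ⧸ center L) ≃* PSp 2 F) →
    IsLieTypeChar 2 X

/-- The kit and the start. -/
structure AllS : Prop where
  model : ModelStmt.{u, v}
  kp : KPStmt.{u, v}
  kn : KNStmt.{u, v}
  base : BaseStmt.{u, v}
  a1 : StA1Stmt.{u, v}
  a2 : StA2Stmt.{u, v}
  b1 : StB1Stmt.{u, v}
  b2 : StB2Stmt.{u, v}
  h1 : Hat1Stmt.{u, v}
  h2 : Hat2Stmt.{u, v}
  h3 : Hat3Stmt.{u, v}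
  h4 : Hat4Stmt.{u, v}
  r1 : Rad1Stmt.{u, v}
  r2 : Rad2Stmt.{u, v}
  r3 : Rad3Stmt.{u, v}
  r4 : Rad4Stmt.{u, v}
  mir : MirStmt.{u, v}
  par : ParStmt.{u, v}

/-- Types I and III. -/
structure AllU : Prop where
  dc : DcStmt.{u, v}
  su1 : Su1Stmt.{u, v}
  su2 : Su2Stmt.{u, v}
  hl : HlStmt.{u, v}
  nsw : NswStmt.{u, v}
  lv1 : Lv1Stmt.{u, v}
  lv2a : Lv2aStmt.{u, v}
  lv2b : Lv2bStmt.{u, v}
  lv3a : Lv3aStmt.{u, v}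
  lv3b1 : Lv3b1Stmt.{u, v}
  lv3b2 : Lv3b2Stmt.{u, v}
  lv3c : Lv3cStmt.{u, v}
  lv4a : Lv4aStmt.{u, v}
  lv4b : Lv4bStmt.{u, v}
  f0a : F0aStmt.{u, v}
  f0b : F0bStmt.{u, v}
  f0c : F0cStmt.{u, v}
  e1 : End1Stmt.{u, v}
  e3 : End3Stmt.{u, v}

/-- Type II. -/
structure AllD : Prop where
  com2 : Com2Stmt.{u, v}
  com3 : Com3Stmt.{u, v}
  pre1 : Pre1Stmt.{u, v}
  pre2 : Pre2Stmt.{u, v}
  mon1 : Mon1Stmt.{u, v}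
  mon2 : Mon2Stmt.{u, v}
  e2 : End2Stmt.{u, v}

end Cfsg.Agent.H35.S4
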