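import Cfsg.Agent.H35.S4Asm
import Cfsg.Agent.H40.S4Lv4a
import Cfsg.Agent.H64.S4Lv4b
import Cfsg.Agent.H91.S4Stb1
import Cfsg.Agent.H4.S4Pre1
import Cfsg.Agent.H54.S4Su1
import Cfsg.Agent.H20.S4Lv1
import Cfsg.Agent.H29.S4Lv2a
import Cfsg.Agent.H33.S4Lv3a
import Cfsg.Agent.H6.S4Base
import Cfsg.Agent.H7.S4Hat1
import Cfsg.Agent.H13.S4Hat3
import Cfsg.Agent.H32.S4Rad3
import Cfsg.Agent.H51.S4F0a
import Cfsg.Agent.H90.S4Mon1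
import Cfsg.Agent.H43.S4Lv2b
import Cfsg.Agent.H92.S4B1
import Cfsg.Agent.H70.S4Lv3b2
import Cfsg.Agent.H76.S4Lv3c
import Cfsg.Agent.H31.S4Stb2
import Cfsg.Agent.H75.S4StA1
import Cfsg.Agent.H80.S4StA2
import Cfsg.Agent.H69.S4Rad1
import Cfsg.Agent.H94.S4Rad2
import Cfsg.Agent.H67.S4Dc
import Cfsg.Agent.H28.S4Su2
import Cfsg.Agent.H5.S4Pre2
import Cfsg.Agent.H3.S4F0b
import Cfsg.Agent.H83.S4F0c
import Cfsg.Agent.H91.S4Mir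
import Cfsg.Agent.H54.S4Sh1
import Cfsg.Agent.H54.S4Sh2
import Cfsg.Agent.H7.S4Par
import Cfsg.Agent.H64.S4Mon2
import Cfsg.Agent.H7.S4Hat2

/-!
# Standard subgroups of type `Sp₄(q)`: the local analysis
-/

set_option autoImplicit false

namespace Cfsg.Agent.H35.S4

universe u v

theorem s4_one (model : ModelStmt.{u, v}) (kp : KPStmt.{u, v}) (kn : KNStmt.{u, v})
    (e1 : End1Stmt.{u, v}) (e2 : End2Stmt.{u, v}) (e3 : End3Stmt.{u, v}) : S4Stmt.{u, v} :=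
  s4_of
    ⟨model, kp, kn, H6.S4B.base, H75.S4A.stA1, H80.S4StA2.stA2, H91.S4Stb1.stB1, H31.S4B.stb2,
      H7.S4.hat1, H7.S4.hat2, H13.S4H3.hat3, H54.S4Su.hat4, H69.S4R.rad1, H94.S4Rad2.rad2,
      H32.S4Rad3.rad3, H54.S4Su.rad4, H91.S4Mir.mirS, H7.S4.par⟩
    ⟨H67.S4Dc.dc, H54.S4Su.su1, H28.S4Su2.su2, H91.S4Mir.hl, H54.S4Su.nsw, H20.S4L.lv1,
      H29.S4Lv2a.lv2a, H43.S4Lv2b.lv2b, H33.S4Lv3a.lv3a, H92.S4B1.lv3b1, H70.S4L.lv3b2,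
      H76.S4Lv3c.lv3c, H40.S4Lv4a.lv4a, H64.S4L.lv4b, H51.S4F0a.f0a, H3.S4F0b.f0b, H83.S4F.f0c,
      e1, e3⟩
    ⟨H91.S4Mir.com2, H54.S4Su.com3, H4.S4Pre1.pre1, H5.S4P.pre2, H90.S4Mon1.mon1, H64.S4L.mon2, e2⟩

end Cfsg.Agent.H35.S4
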