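/-
Facts about the root subgroups of the symplectic group.
-/
import Mathlib
import Cfsg.Agent.H35.CTSub
import Cfsg.Agent.H80.FrameEven
import Cfsg.Agent.H75.ModCl

set_option autoImplicit false

namespace Cfsg.Agent.H35

open H78 H78.Frame H26 H26.PForm H80 H75
open scoped commutatorElement

variable {F V : Type*} [Field F] [AddCommGroup V] [Module F V] {P : PForm F V} {n : ℕ}
  {Fr : Frame P n} {a b c e : BI n} {g x : P.E}

variable (Fr) in
/-- The long root `SL₂`. -/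
def LE (a : BI n) : Subgroup P.E := XE Fr a a ⊔ XE Fr (ng a) (ng a)

variable (Fr) in
/-- A Siegel radical of rank two. -/
def RE (a b : BI n) : Subgroup P.E := XE Fr a a ⊔ XE Fr a b ⊔ XE Fr b b

theorem LE_ng (a : BI n) : LE Fr (ng a) = LE Fr a := by rw [LE, ng_ng, sup_comm, LE]

theorem LE_eq (h : a.1 = b.1) : LE Fr a = LE Fr b := by
  by_cases e : a = b
  · rw [e]
  · rw [show b = ng a from by_contra fun e' => fst_ne_iff.2 ⟨e, e'⟩ h, LE_ng]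

theorem RE_symm (a b : BI n) : RE Fr a b = RE Fr b a := by
  rw [RE, RE, XE_symm b a]; ac_rfl

theorem XE_fix (hg : g ∈ XE Fr a b) (h1 : c ≠ ng a) (h2 : c ≠ ng b) : g.1 (Fr.e c) = Fr.e c :=
  X_apply_e h1 h2 hg

theorem orth_ng (h : a.1 ≠ b.1) : P.f (Fr.e (ng a)) (Fr.e (ng b)) = 0 :=
  Fr.orth _ _ (ne_ng_of_fst h.symm)

theorem LE_fix (hg : g ∈ LE Fr c) (h : a.1 ≠ c.1) : g.1 (Fr.e a) = Fr.e a :=
  L_apply_e h.symm (mem_XE_sup.1 hg)

theorem RE_fix (hg : g ∈ RE Fr a b) (h1 : c ≠ ng a) (h2 : c ≠ ng b) : g.1 (Fr.e c) = Fr.e c :=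
  (sup_le (sup_le (fun _ h => X_apply_e h1 h1 h) fun _ h => X_apply_e h1 h2 h)
    fun _ h => X_apply_e h2 h2 h :
      _ ≤ (MulAction.stabilizer (V ≃ₗ[F] V) (Fr.e c)).comap P.E.subtype) hg

theorem mon_LE {σ : WI n} (h : Fr.Mono g.1 σ) (hx : x ∈ LE Fr a) :
    g * x * g⁻¹ ∈ LE Fr (σ.1 a) := mem_XE_sup.2 (h.conj_L (mem_XE_sup.1 hx))

theorem mon_RE {σ : WI n} (h : Fr.Mono g.1 σ) (hab : b ≠ ng a) (hx : x ∈ RE Fr a b) :
    g * x * g⁻¹ ∈ RE Fr (σ.1 a) (σ.1 b) :=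
  conj_mem_sup (fun _ => conj_mem_sup
    (fun _ h' => Subgroup.mem_sup_left (Subgroup.mem_sup_left (mon_of_mono h _ _ (ne_ng _) _ h')))
    fun _ h' => Subgroup.mem_sup_left (Subgroup.mem_sup_right (mon_of_mono h _ _ hab _ h')))
    (fun _ h' => Subgroup.mem_sup_right (mon_of_mono h _ _ (ne_ng _) _ h')) hx

theorem XE_eq_one (h : a.1 ≠ b.1) (hx : x ∈ XE Fr a b)
    (e : P.f (x.1 (Fr.e (ng a))) (Fr.e (ng b)) = 0) : x = 1 := by
  obtain ⟨t, rfl⟩ := (mem_XES h x).1 hx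
  rw [xE, xs_apply_ng h, P.f_add_left, P.f_smul_left, orth_ng h] at e
  exact (xE_eq_one h t).2 (by simpa [Fr.pair, Fr.pair'] using e)

theorem XE_eq_one_of_HE (h : a.1 ≠ b.1) (hx : x ∈ XE Fr a b) (h1 : x ∈ HE Fr) : x = 1 := by
  obtain ⟨c, e⟩ := exists_sc h1 (ng a)
  refine XE_eq_one h hx ?_
  rw [e, P.f_smul_left, orth_ng h, mul_zero]

theorem XE_disj (h : a.1 ≠ b.1) (hx : x ∈ XE Fr a b) (h1 : x ∈ XE Fr c e) (h2 : a ≠ c)
    (h3 : a ≠ e) : x = 1 := by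
  refine XE_eq_one h hx ?_
  rw [XE_fix h1 (by simpa using h2) (by simpa using h3), orth_ng h]

theorem not_mem_HE (h : a.1 ≠ b.1) {y : P.E} (hx : x ∈ XE Fr a b) (hy : y ∈ XE Fr a b)
    (hg : Fr.Mono g.1 (rf a b)) : x * g * y ∉ HE Fr := fun h1 => by
  obtain ⟨c, e⟩ := exists_sc h1 a
  obtain ⟨h2, h3⟩ := fst_ne_iff.1 h
  obtain ⟨d, hd, e'⟩ := hg.exists_ne a
  obtain ⟨t, rfl⟩ := (mem_XES h x).1 hx
  have := congrArg (fun v => P.f v (Fr.e b)) e
  change P.f (Fr.xs a b t (g.1 (y.1 (Fr.e a)))) _ = _ at this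
  rw [XE_fix hy (ne_ng a) (ne_ng_symm h3), e', rf_left, map_smul, xs_apply_ng' h] at this
  simp [P.f_smul_left, f_sub_left, Fr.orth _ _ h3, hd, Fr.pair'] at this

section

variable (hV : Fr.V0 = ⊥)
include hV

theorem eq_of_frame {x y : V} (h : ∀ c, P.f x (Fr.e c) = P.f y (Fr.e c)) : x = y :=
  sub_eq_zero.1 (eq_zero_of_frame (Fr := Fr) (fun c => by rw [f_sub_left, h, sub_self])
    fun w hw => by rw [show w = 0 by simpa [hV] using hw, f_zero_right])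

theorem ext_E {g g' : P.E} (h : ∀ c, g.1 (Fr.e c) = g'.1 (Fr.e c)) : g = g' :=
  Subtype.ext (Fr.ext_frame h fun w hw => by rw [show w = 0 by simpa [hV] using hw]; simp)

theorem commute_XE (hab : b ≠ ng a) (ha : g.1 (Fr.e a) = Fr.e a) (hb : g.1 (Fr.e b) = Fr.e b)
    (hx : x ∈ XE Fr a b) : Commute g x := by
  by_cases e : a = b
  · subst e
    exact (Sc.of_fix ha).commute_XL (fix0_of_bot hV g) x hx
  · exact commute_of_fix (Sc.fix_XE (fst_ne_iff.2 ⟨e, hab⟩) (Sc.of_fix ha) (Sc.of_fix hb) (by simp))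
      x hx

theorem commute_RE (hab : b ≠ ng a) (ha : g.1 (Fr.e a) = Fr.e a) (hb : g.1 (Fr.e b) = Fr.e b)
    (hx : x ∈ RE Fr a b) : Commute g x :=
  (commute_sup_left (commute_sup_left (fun _ h => (commute_XE hV (ne_ng a) ha ha h).symm)
    fun _ h => (commute_XE hV hab ha hb h).symm)
    (fun _ h => (commute_XE hV (ne_ng b) hb hb h).symm) x hx).symm

theorem commute_LE (ha : g.1 (Fr.e a) = Fr.e a) (hb : g.1 (Fr.e (ng a)) = Fr.e (ng a))
    (hx : x ∈ LE Fr a) : Commute g x :=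
  (commute_sup_left (fun _ h => (commute_XE hV (ne_ng a) ha ha h).symm)
    (fun _ h => (commute_XE hV (ne_ng _) hb hb h).symm) x hx).symm

theorem conj_RE (h : a.1 ≠ b.1) (hg : g ∈ XE Fr a b) (hx : x ∈ RE Fr a (ng b)) :
    g * x * g⁻¹ ∈ RE Fr a (ng b) := by
  have hs := bcSys_XE (Fr := Fr) (d := True) fun h => absurd trivial h
  obtain ⟨h2, h3⟩ := fst_ne_iff.1 h
  rw [XE_symm] at hg
  refine conj_mem_sup (fun _ => conj_mem_sup (fun y hy => ?_) fun y hy => ?_) (fun y hy => ?_) hx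
  · rw [(commute_XE hV (ne_ng a) (X_apply_e (ne_ng_symm h3) (ne_ng a) hg)
      (X_apply_e (ne_ng_symm h3) (ne_ng a) hg) hy).eq, mul_inv_cancel_right]
    exact Subgroup.mem_sup_left (Subgroup.mem_sup_left hy)
  · rw [conj_eq_commutator_mul]
    exact Subgroup.mem_sup_left (mul_mem (Subgroup.mem_sup_left
      (hs.c4 b a a h.symm h.symm (ne_ng a) g hg y (XE_symm (Fr := Fr) _ _ ▸ hy))) (Subgroup.mem_sup_right hy))
  · rw [conj_eq_commutator_mul]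
    exact mul_mem (Subgroup.mem_sup_left (sup_comm (XE Fr a (ng b)) _ ▸ hs.c5 b a h.symm g hg y hy))
      (Subgroup.mem_sup_right hy)

theorem hE_mul (h : a.1 ≠ b.1) {t u : F} (ht : t ≠ 0) (hu : u ≠ 0) :
    hE Fr a b t * hE Fr a b u = hE Fr a b (t * u) := by
  have htu := mul_ne_zero ht hu
  have h1 : ∀ c : BI n, (∃ k, Sc Fr (hE Fr a b t * hE Fr a b u) c k ∧ Sc Fr (hE Fr a b (t * u)) c k) →
      ∃ k, Sc Fr (hE Fr a b t * hE Fr a b u) (ng c) k ∧ Sc Fr (hE Fr a b (t * u)) (ng c) k :=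
    fun c ⟨_, h1, h2⟩ => ⟨_, h1.ng (mul_mem (hE_mem h ht) (hE_mem h hu)), h2.ng (hE_mem h htu)⟩
  have h2 := h1 _ (h1 _ ⟨_, (sc_hE_left h ht).mul (sc_hE_left h hu),
    (sc_hE_left h htu).congr (map_mul _ _ _)⟩)
  have h3 := h1 _ (h1 _ ⟨_, (sc_hE_right h ht).mul (sc_hE_right h hu), sc_hE_right h htu⟩)
  rw [ng_ng] at h2 h3
  refine ext_E hV fun c => ?_
  suffices ∃ k, Sc Fr (hE Fr a b t * hE Fr a b u) c k ∧ Sc Fr (hE Fr a b (t * u)) c k from
    let ⟨_, h1, h2⟩ := this; h1.trans h2.symm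
  by_cases e1 : c.1 = a.1
  · by_cases e : a = c
    · exact e ▸ h2
    · exact (show c = ng a from by_contra fun e' => fst_ne_iff.2 ⟨e, e'⟩ e1.symm) ▸ h1 _ h2
  by_cases e2 : c.1 = b.1
  · by_cases e : b = c
    · exact e ▸ h3
    · exact (show c = ng b from by_contra fun e' => fst_ne_iff.2 ⟨e, e'⟩ e2.symm) ▸ h1 _ h3
  exact ⟨_, (sc_hE_ne h e1 e2 t).mul (sc_hE_ne h e1 e2 u), (sc_hE_ne h e1 e2 _).congr (by simp)⟩

variable (hL : Lng P (RingHom.id F) 1)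
include hL

omit hV in
theorem lng_mem (ν : F) : ν ∈ P.Λ := by simpa using hL.mem' ν

omit hV in
theorem lng_ε : P.ε = -1 := by
  have := hL.σ_ν
  rw [map_one, mul_one] at this
  exact (neg_eq_iff_eq_neg.1 this.symm)

omit hV in
theorem lng_σ (t : F) : P.σ t = t := hL.fix t

theorem mem_XL_of_fix (h : ∀ c, c ≠ ng b → g.1 (Fr.e c) = Fr.e c) : g ∈ XE Fr b b := by
  have := ext_long (Fr := Fr) (g := g.1) (a := b) (lng_mem hL (P.f (g.1 (Fr.e (ng b))) (Fr.e (ng b)) /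
    (P.f (Fr.e b) (Fr.e (ng b)) * P.f (Fr.e (ng b)) (Fr.e b)))) (h b (ne_ng b))
    (eq_of_frame hV fun c => ?_) (fun c hc => h c (ne_ng_of_fst hc)) (fix0_of_bot hV g)
  · exact mem_XE.2 (this ▸ eT_mem_XL (zero_mem _) (EV.of_mem (Fr.sing b) (lng_mem hL _)))
  rw [f_sub_left, P.f_smul_left]
  by_cases hc : c = ng b
  · have := Fr.pair b
    have := Fr.pair' b
    rw [hc, Fr.f_self, lng_ε hL]
    field_simp
    ring
  · rw [Fr.orth b c hc, mul_zero, sub_zero, ← isom_f (isom_E g) (Fr.e (ng b)), h c hc]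

theorem mem_RE_of_fix (hab : a.1 ≠ b.1) (h : ∀ c, c ≠ ng a → c ≠ ng b → g.1 (Fr.e c) = Fr.e c) :
    g ∈ RE Fr a b := by
  obtain ⟨h1, h2⟩ := fst_ne_iff.1 hab
  have p1 := Fr.pair a
  have p2 := Fr.pair' a
  have p3 := Fr.pair b
  let y := xE Fr a b (P.f (g.1 (Fr.e (ng a))) (Fr.e (ng b)) /
    (P.f (Fr.e b) (Fr.e (ng b)) * P.f (Fr.e (ng a)) (Fr.e a))) * eE P (Fr.e a) 0
      (P.f (g.1 (Fr.e (ng a))) (Fr.e (ng a)) / (P.f (Fr.e a) (Fr.e (ng a)) * P.f (Fr.e (ng a)) (Fr.e a)))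
  have hy : y ∈ XE Fr a a ⊔ XE Fr a b := mul_mem (Subgroup.mem_sup_right (xE_mem h2 _))
    (Subgroup.mem_sup_left (eE_mem (zero_mem _) (EV.of_mem (Fr.sing a) (lng_mem hL _))))
  have h3 : y⁻¹ * g ∈ XE Fr b b := mem_XL_of_fix hV hL fun c hc => by
    change (y.1)⁻¹ (g.1 _) = _
    rw [LinearEquiv.coe_inv, LinearEquiv.symm_apply_eq]
    by_cases hc' : c = ng a
    · change _ = Fr.xs _ _ _ ((eE P _ _ _).1 _)
      rw [hc', eE_zero_apply (Fr.sing a) (lng_mem hL _), map_sub, map_smul, xs_apply_ng hab,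
        X_apply_e (ne_ng a) (ne_ng_symm h2) (xs_mem h2 _)]
      refine eq_of_frame hV fun c => ?_
      rw [f_sub_left, P.f_add_left, P.f_smul_left, P.f_smul_left, lng_ε hL]
      by_cases e1 : c = ng a
      · rw [e1, Fr.f_self, Fr.orth b (ng a) (ne_ng_of_fst hab)]
        field_simp
        ring
      by_cases e2 : c = ng b
      · rw [e2, Fr.orth a (ng b) (ne_ng_of_fst hab.symm), orth_ng hab]
        field_simp
        ring
      · rw [Fr.orth a c e1, Fr.orth b c e2, ← isom_f (isom_E g) (Fr.e (ng a)), h c e1 e2]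
        ring
    · rw [h c hc' hc, RE_fix (Subgroup.mem_sup_left hy) hc' hc]
  simpa [RE] using mul_mem (Subgroup.mem_sup_left hy) (Subgroup.mem_sup_right h3)

theorem mem_LE_of_fix (hN : Fr.Norm) {k : Fin n} (h : ∀ c : BI n, c.1 ≠ k → g.1 (Fr.e c) = Fr.e c) :
    g ∈ LE Fr (k, false) := by
  have h1 := hN k
  have h2 := (f_symm_one h1).trans (lng_ε hL)
  have ex : ∀ b, g.1 (Fr.e (k, b)) = P.f (g.1 (Fr.e (k, b))) (Fr.e (k, true)) • Fr.e (k, false) -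
      P.f (g.1 (Fr.e (k, b))) (Fr.e (k, false)) • Fr.e (k, true) := fun b =>
    eq_of_frame hV fun c => by
    rw [f_sub_left, P.f_smul_left, P.f_smul_left]
    by_cases hc : c.1 = k
    · obtain ⟨c, _ | _⟩ := c <;> obtain rfl : c = k := hc <;> simp [h1, h2, Fr.f_self]
    · rw [← h c hc, isom_f (isom_E g), h c hc]
      simp [Fr.orth (k, _) c (ne_ng_of_fst hc)]
  have h3 := isom_f (isom_E g) (Fr.e (k, false)) (Fr.e (k, true))
  rw [ex, ex true] at h3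
  simp only [f_sub_left, f_sub_right, P.f_smul_left, f_smul_right, lng_σ hL, h1, h2, Fr.f_self] at h3
  obtain ⟨M, hM⟩ : ∃ M : Matrix.SpecialLinearGroup (Fin 2) F, M.1 =
      !![P.f (g.1 (Fr.e (k, false))) (Fr.e (k, true)), -P.f (g.1 (Fr.e (k, true))) (Fr.e (k, true));
      P.f (g.1 (Fr.e (k, false))) (Fr.e (k, false)), -P.f (g.1 (Fr.e (k, true))) (Fr.e (k, false))] :=
    ⟨⟨_, by rw [Matrix.det_fin_two_of]; linear_combination h3⟩, rfl⟩
  refine mem_XE_sup.2 ((Fr.ext_frame (fun c => ?_) fun w hw => ?_ : _ = g.1) ▸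
    sl2L_mem (RingHom.id F) 1 k hN (fun _ => lng_mem hL _) M)
  · by_cases hc : c.1 = k
    · obtain ⟨c, _ | _⟩ := c <;> obtain rfl : c = k := hc
      · rw [sl2L_ff, ex false, hM]; simp [sub_eq_add_neg]
      · rw [sl2L_tt, ex true, hM]; simp [sub_eq_add_neg]
    · rw [sl2L_ne _ _ _ _ _ hc, h c hc]
  · rw [sl2L_V0 _ _ _ _ _ hw, fix0_of_bot hV g w hw]

end

end Cfsg.Agent.H35
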