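/-
The slim amalgam of the symplectic group: local analysis.
-/
import Mathlib
import Cfsg.Agent.H35.SpGeo

set_option autoImplicit false

namespace Cfsg.Agent.H35

open H78 H78.Frame H26 H26.PForm H80 H75 H36
open scoped commutatorElement MatrixGroups

variable {F V : Type*} [Field F] [AddCommGroup V] [Module F V] {P : PForm F V} {n : ℕ}
  {Γ : Type*} [Group Γ]

/-- Lifts of the long root `SL₂`'s and of the Siegel radicals of adjacent pairs. -/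
structure SpAm (Fr : Frame P n) (π : Γ →* P.E) (Adj : Fin n → Fin n → Prop)
    (A : Fin n → Subgroup Γ) (B : BI n → BI n → Subgroup Γ) : Prop where
  hV : Fr.V0 = ⊥
  hL : Lng P (RingHom.id F) 1
  ne : ∀ {i j}, Adj i j → i ≠ j
  symm : ∀ {i j}, Adj i j → Adj j i
  lA : ∀ a : BI n, IsLift π (LE Fr a) (A a.1)
  lB : ∀ {a b}, Adj a.1 b.1 → IsLift π (RE Fr a b) (B a b)
  sB : ∀ {a b}, Adj a.1 b.1 → B a b = B b a
  fA : ∀ k l, Flat π (A k ⊔ A l)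
  fB : ∀ {a b}, Adj a.1 b.1 → ∀ k, Flat π (B a b ⊔ A k)
  cB : ∀ {a b c e}, Adj a.1 b.1 → Adj c.1 e.1 → c ≠ ng a → c ≠ ng b → e ≠ ng a → e ≠ ng b →
    ∀ x ∈ B a b, ∀ y ∈ B c e, Commute x y
  sw : ∀ {a b}, Adj a.1 b.1 → B (ng a) b ≤ B a b ⊔ A a.1

theorem sl2_big_cell {r s : F} (h : 1 + r * s ≠ 0) : H36.sl2L r * sl2U s * (H36.sl2L r)⁻¹ =
    sl2U (s / (1 + r * s)) * stH sl2U H36.sl2L (1 + r * s)⁻¹ *
      H36.sl2L (-(r ^ 2 * s) / (1 + r * s)) := by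
  have h' : 1 + s * r ≠ 0 := mul_comm r s ▸ h
  rw [mul_inv_eq_iff_eq_mul]
  ext i j
  simp only [Matrix.SpecialLinearGroup.coe_mul, coe_sl2U, coe_sl2L, coe_stH_sl2 _ (inv_ne_zero h)]
  fin_cases i <;> fin_cases j <;> simp <;> field_simp <;> ring

namespace SpAm

variable {Fr : Frame P n} {π : Γ →* P.E} {Adj : Fin n → Fin n → Prop} {A : Fin n → Subgroup Γ}
  {B : BI n → BI n → Subgroup Γ} (h : SpAm Fr π Adj A B) {a b c m : BI n} {g x y z : Γ}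

/-- Lifts of the long root groups. -/
def YL (_ : SpAm Fr π Adj A B) (a : BI n) : Subgroup Γ := A a.1 ⊓ (XE Fr a a).comap π

/-- Lifts of the short root groups of adjacent pairs. -/
def YS (_ : SpAm Fr π Adj A B) (a b : BI n) : Subgroup Γ := B a b ⊓ (XE Fr a b).comap π

/-- Lifts of the short root `SL₂`. -/
def LS (a b : BI n) : Subgroup Γ := h.YS a b ⊔ h.YS (ng a) (ng b)

/-- Lifts of the short root groups at distance two. -/
def YT (a c m : BI n) : Subgroup Γ := ⁅h.YS a m, h.YS c (ng m)⁆ ⊔ ⁅h.YS a (ng m), h.YS c m⁆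

theorem lYL (a : BI n) : IsLift π (XE Fr a a) (h.YL a) := isLift_inf (h.lA a) le_sup_left

theorem lYS (e : Adj a.1 b.1) : IsLift π (XE Fr a b) (h.YS a b) :=
  isLift_inf (h.lB e) (le_sup_right.trans le_sup_left)

theorem YS_symm (e : Adj a.1 b.1) : h.YS a b = h.YS b a := by rw [YS, YS, h.sB e, XE_symm]

theorem LS_symm (e : Adj a.1 b.1) : h.LS a b = h.LS b a := by
  rw [LS, LS, h.YS_symm e, h.YS_symm (a := ng a) (b := ng b) e]

theorem LS_ng (a b : BI n) : h.LS (ng a) (ng b) = h.LS a b := by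
  rw [LS, LS, ng_ng, ng_ng, sup_comm]

theorem YT_ng (a c m : BI n) : h.YT a c (ng m) = h.YT a c m := by rw [YT, YT, ng_ng, sup_comm]

theorem YT_symm (a c m : BI n) : h.YT a c m = h.YT c a m := by
  rw [YT, YT, sup_comm, Subgroup.commutator_comm, Subgroup.commutator_comm (h.YS a m)]

theorem YL_le (e : Adj a.1 b.1) : h.YL a ≤ B a b := fun _ hy =>
  (h.fB e a.1).mem (h.lB e) le_sup_left (Subgroup.mem_sup_right hy.1)
    (Subgroup.mem_sup_left (Subgroup.mem_sup_left hy.2))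

theorem A_eq (a : BI n) : A a.1 = h.YL a ⊔ h.YL (ng a) :=
  have h1 : h.YL a ⊔ h.YL (ng a) ≤ A a.1 := sup_le inf_le_left inf_le_left
  le_antisymm (fun _ hy => Flat.mem (h.lA a).inj
    (isLift_sup (h.lYL a) (h.lYL (ng a)) (Flat.mono (h.lA a).inj h1)) h1 hy ((h.lA a).map _ hy)) h1

include h

theorem comm_AA {k l : Fin n} (e : k ≠ l) (hx : x ∈ A k) (hy : y ∈ A l) : Commute x y :=
  have h1 := (h.lA (k, false)).map x hx
  (h.fA k l).commute (Subgroup.mem_sup_left hx) (Subgroup.mem_sup_right hy) (commute_LE h.hV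
    (a := (l, false)) (LE_fix h1 e.symm) (LE_fix h1 e.symm) ((h.lA (l, false)).map y hy))

theorem comm_AB {k : Fin n} (e : Adj a.1 b.1) (h1 : a.1 ≠ k) (h2 : b.1 ≠ k) (hx : x ∈ A k)
    (hy : y ∈ B a b) : Commute x y :=
  have h3 := (h.lA (k, false)).map x hx
  (h.fB e k).commute (Subgroup.mem_sup_right hx) (Subgroup.mem_sup_left hy) (commute_RE h.hV
    (ne_ng_of_fst (h.ne e).symm) (LE_fix h3 h1) (LE_fix h3 h2) ((h.lB e).map y hy))

theorem comm_AK (e : Adj m.1 c.1) (h1 : m.1 ≠ a.1) (h2 : c.1 ≠ a.1) (hx : x ∈ A a.1)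
    (hy : y ∈ B m c ⊔ A m.1) : Commute x y :=
  (commute_sup_left (fun _ h3 => (h.comm_AB e h1 h2 hx h3).symm)
    (fun _ h3 => h.comm_AA h1 h3 hx) y hy).symm

theorem mem_YS (e : Adj a.1 b.1) (hy : y ∈ B a b ⊔ A a.1) (h1 : π y ∈ XE Fr a b) : y ∈ h.YS a b :=
  (h.fB e _).mem (h.lYS e) (inf_le_left.trans le_sup_left) hy h1

theorem mem_YS' (e : Adj a.1 b.1) (hy : y ∈ B a b ⊔ A a.1) (h1 : π y ∈ XE Fr (ng a) b) :
    y ∈ h.YS (ng a) b :=
  (h.fB e _).mem (h.lYS (a := ng a) e) (inf_le_left.trans (h.sw e)) hy h1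

theorem conj_B (e : Adj a.1 b.1) (hg : g ∈ h.LS a b) (hy : y ∈ B a (ng b)) :
    g * y * g⁻¹ ∈ B a (ng b) := by
  have key : ∀ {a b : BI n}, Adj a.1 b.1 → ∀ g ∈ h.YS a b, ∀ y ∈ B a (ng b),
      g * y * g⁻¹ ∈ B a (ng b) := fun {a b} e g hg y hy => by
    have e' : Adj a.1 (ng b).1 := e
    have h1 : g ∈ B a (ng b) ⊔ A b.1 := by
      have := h.sw (h.symm e')
      rw [ng_ng, ← h.sB e, ← h.sB e'] at this
      exact this hg.1
    refine (h.fB e' _).mem (h.lB e') le_sup_left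
      (mul_mem (mul_mem h1 (Subgroup.mem_sup_left hy)) (inv_mem h1)) ?_
    simpa using conj_RE h.hV (h.ne e) hg.2 ((h.lB e').map y hy)
  refine RD.Lifts.conj_mem_of_sup (key e) (fun g hg => ?_) hg hy
  have := key (a := ng b) (b := ng a) (h.symm e) g (h.YS_symm (a := ng a) (b := ng b) e ▸ hg)
  rwa [ng_ng, ← h.sB (a := a) (b := ng b) e] at this

theorem conj_A (e : Adj a.1 b.1) (hg : g ∈ h.LS a b) {σ : WI n} (h1 : Fr.Mono (π g).1 σ)
    (h2 : σ.1 a = ng b) (hy : y ∈ A a.1) : g * y * g⁻¹ ∈ A b.1 := by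
  have key : ∀ {a b : BI n}, Adj a.1 b.1 → g ∈ h.LS a b → σ.1 a = ng b → ∀ y ∈ h.YL a,
      g * y * g⁻¹ ∈ A b.1 := fun {a b} e hg h2 y hy => by
    have e' : Adj a.1 (ng b).1 := e
    refine (Flat.mem (h.lB e').inj (h.lYL (ng b)) (h.sB e' ▸ h.YL_le (h.symm e'))
      (h.conj_B e hg (h.YL_le e' hy)) ?_).1
    simpa [h2] using mon_of_mono h1 a a (ne_ng a) _ hy.2
  exact conj_mem_sup (key e hg h2) (key (a := ng a) (b := ng b) e (h.LS_ng a b ▸ hg)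
    (by rw [map_ng, h2])) (h.A_eq a ▸ hy)

theorem exists_n (a : BI n) : ∃ g ∈ A a.1, Fr.Mono (π g).1 (rf a a) :=
  let ⟨g, h1, h2⟩ := (h.lA a).surj _ (h.hL.wL_mem a 1)
  ⟨g, h1, h2 ▸ h.hL.wL_mono a one_ne_zero⟩

theorem conj_swap (e : Adj a.1 b.1) (hg : g ∈ h.LS a b) (h1 : Fr.Mono (π g).1 (rf a b))
    (hy : y ∈ h.YS a b) : g * y * g⁻¹ ∈ h.YS (ng a) (ng b) := by
  obtain ⟨w, h3, h4⟩ := h.exists_n a
  have hab := ne_ng_of_fst (h.ne e).symm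
  have h5 : w * y * w⁻¹ ∈ h.YS (ng a) b := h.mem_YS' e (mul_mem (mul_mem (Subgroup.mem_sup_right h3)
    (Subgroup.mem_sup_left hy.1)) (Subgroup.mem_sup_right (inv_mem h3))) (by
      simpa [rf_left, rf_of_fst (h.ne e).symm (h.ne e).symm] using mon_of_mono h4 a b hab _ hy.2)
  have h6 := h.conj_B (a := ng a) (b := ng b) e (h.LS_ng a b ▸ hg) (y := w * y * w⁻¹)
    (by rw [ng_ng]; exact h5.1)
  rw [ng_ng, h.sB (a := ng a) e] at h6
  have h7 := h.conj_A e hg h1 (rf_left a b) h3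
  rw [h.YS_symm (a := ng a) (b := ng b) e]
  refine h.mem_YS' (b := ng a) (h.symm e) ?_
    (by simpa [rf_left, rf_right] using mon_of_mono h1 a b hab _ hy.2)
  simpa [mul_assoc] using mul_mem (mul_mem (Subgroup.mem_sup_right (inv_mem h7))
    (Subgroup.mem_sup_left h6)) (Subgroup.mem_sup_right h7)

theorem exists_st (e : Adj a.1 b.1) : ∃ x y : F → Γ, (∀ t, x t ∈ h.YS a b ∧ π (x t) = xE Fr a b t) ∧
    (∀ t, y t ∈ h.YS (ng a) (ng b) ∧ π (y t) = yE Fr a b t) ∧ StRel x y ∧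
    (∀ t, t ≠ 0 → stH x y t ∈ A a.1 ⊔ A b.1 ∧ π (stH x y t) ∈ HE Fr ∧
      Fr.Mono (π (stW x y t)).1 (rf a b)) ∧
    ∀ t u, t ≠ 0 → u ≠ 0 → stH x y t * stH x y u = stH x y (t * u) := by
  have hab := h.ne e
  have l1 := h.lYS e
  have l2 := h.lYS (a := ng a) (b := ng b) e
  choose x hx hx' using fun t => l1.surj _ (xE_mem (Fr := Fr) (ne_ng_of_fst hab.symm) t)
  choose y hy hy' using fun t => l2.surj _ ((mem_XE_neg (Fr := Fr) hab _).2 ⟨t, rfl⟩)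
  have hs := stRel_short (Fr := Fr) hab
  have h1 : ∀ t, π (stW x y t) = wE Fr a b t := fun t => by simp only [stW, map_mul, hx', hy', wE]
  have h2 : ∀ t, π (stH x y t) = hE Fr a b t := fun t => by simp only [stH, map_mul, h1]; rfl
  have h3 : ∀ t, stW x y t ∈ h.LS a b := fun t => mul_mem (mul_mem (Subgroup.mem_sup_left (hx _))
    (Subgroup.mem_sup_right (hy _))) (Subgroup.mem_sup_left (hx _))
  have h4 : ∀ t, t ≠ 0 → Fr.Mono (π (stW x y t)).1 (rf a b) := fun t ht => h1 t ▸ wE_mono hab ht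
  have hst : StRel x y := ⟨fun t u => l1.eq_of_map_eq (hx _) (mul_mem (hx _) (hx _))
      (by simp only [map_mul, hx', hs.x_add]), fun t u => l2.eq_of_map_eq (hy _)
      (mul_mem (hy _) (hy _)) (by simp only [map_mul, hy', hs.y_add]), fun t u ht =>
    mul_inv_eq_iff_eq_mul.1 (l2.eq_of_map_eq (h.conj_swap e (h3 t) (h4 t ht) (hx u)) (hy _) (by
      rw [map_mul, map_mul, map_inv, mul_inv_eq_iff_eq_mul]
      change π (stW x y t) * _ = _ * π (stW x y t)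
      rw [h1, hx', hy']
      exact hs.conj t u ht))⟩
  have h5 : ∀ t, t ≠ 0 → stH x y t ∈ A a.1 ⊔ A b.1 := fun t ht => by
    obtain ⟨τ, h5, h6⟩ := (h.lA a).surj _ (h.hL.hL_mem' a t)
    have h7 := h6 ▸ h.hL.single_hL (Fr := Fr) a ht
    have h8 : ∀ s, τ * x s * τ⁻¹ = x (t * s) := fun s => (h.fB e a.1).eq
      (mul_mem (mul_mem (Subgroup.mem_sup_right h5) (Subgroup.mem_sup_left (hx _).1))
        (Subgroup.mem_sup_right (inv_mem h5))) (Subgroup.mem_sup_left (hx _).1) (by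
      rw [map_mul, map_mul, map_inv, hx', hx', Sc.conj_xE hab h7.sc (h7.ne b hab.symm), lng_σ h.hL]
      simp)
    have h9 : ∀ s, τ * y s * τ⁻¹ = y (t⁻¹ * s) := fun s => (h.fB (a := ng a) (b := ng b) e a.1).eq
      (mul_mem (mul_mem (Subgroup.mem_sup_right h5) (Subgroup.mem_sup_left (hy _).1))
        (Subgroup.mem_sup_right (inv_mem h5))) (Subgroup.mem_sup_left (hy _).1) (by
      rw [map_mul, map_mul, map_inv, hy', hy', yE, yE, Sc.conj_xE (a := ng b) (b := ng a) hab.symm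
        (h7.ne (ng b) hab.symm) (h7.sc.ng h7.mem), lng_σ h.hL, lng_σ h.hL]
      exact congrArg _ (by simp only [RingHom.id_apply]; ring))
    have h10 : stW x y t = τ * stW x y 1 * τ⁻¹ := by
      have := h8 1
      have := h9 (-1⁻¹)
      rw [mul_one, show t⁻¹ * -1⁻¹ = -t⁻¹ by simp] at *
      simp only [stW, ← this, ← ‹τ * x 1 * τ⁻¹ = _›]
      group
    rw [stH, hst.w_neg, h10, mul_assoc, mul_assoc, ← mul_assoc _ τ⁻¹]
    exact mul_mem (Subgroup.mem_sup_left h5) (Subgroup.mem_sup_right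
      (h.conj_A e (h3 1) (h4 1 one_ne_zero) (rf_left a b) (inv_mem h5)))
  exact ⟨x, y, fun t => ⟨hx t, hx' t⟩, fun t => ⟨hy t, hy' t⟩, hst,
    fun t ht => ⟨h5 t ht, h2 t ▸ hE_mem hab ht, h4 t ht⟩, fun t u ht hu => (h.fA _ _).eq
      (mul_mem (h5 t ht) (h5 u hu)) (h5 _ (mul_ne_zero ht hu)) (by
        rw [map_mul, h2, h2, h2, hE_mul h.hV hab ht hu])⟩

theorem mem_of_HE (e : Adj a.1 b.1) (hg : g ∈ h.LS a b) (h1 : π g ∈ HE Fr) : g ∈ A a.1 ⊔ A b.1 := by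
  obtain ⟨x, y, hx, hy, hs, h2, h3⟩ := h.exists_st e
  have l1 := h.lYS e
  have l2 := h.lYS (a := ng a) (b := ng b) e
  have h4 : h.LS a b ≤ Subgroup.closure (Set.range x ∪ Set.range y) := sup_le (fun z hz =>
    let ⟨t, ht⟩ := (mem_XES (h.ne e) _).1 hz.2
    Subgroup.subset_closure (Or.inl ⟨t, l1.eq_of_map_eq (hx t).1 hz ((hx t).2.trans ht)⟩))
    fun z hz => let ⟨t, ht⟩ := (mem_XE_neg (h.ne e) _).1 hz.2
      Subgroup.subset_closure (Or.inr ⟨t, l2.eq_of_map_eq (hy t).1 hz ((hy t).2.trans ht)⟩)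
  rcases hs.normal_form h3 (h4 hg) with ⟨t, s, ht, rfl⟩ | ⟨r, t, s, ht, rfl⟩
  · rw [map_mul, Subgroup.mul_mem_cancel_left _ (h2 t ht).2.1] at h1
    rw [l1.inj _ (hx s).1 (XE_eq_one_of_HE (h.ne e) (hx s).1.2 h1), mul_one]
    exact (h2 t ht).1
  · rw [map_mul, map_mul] at h1
    exact absurd h1 (not_mem_HE (h.ne e) (hx r).1.2 (hx s).1.2 (h2 t ht).2.2)

theorem big_cell (hF : ∃ a : F, a ≠ 0 ∧ a ≠ 1) (e : Adj a.1 b.1) (hg : g ∈ h.YS (ng a) (ng b)) :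
    ∃ x ∈ h.YS a b, x ≠ 1 ∧ ∃ u ∈ h.YS a b, ∃ k ∈ A a.1 ⊔ A b.1, π k ∈ HE Fr ∧
      ∃ v ∈ h.YS (ng a) (ng b), g * x * g⁻¹ = u * k * v := by
  obtain ⟨x, y, hx, hy, hs, h2, h3⟩ := h.exists_st e
  obtain ⟨r, hr⟩ := (mem_XE_neg (h.ne e) _).1 hg.2
  obtain rfl := (h.lYS (a := ng a) (b := ng b) e).eq_of_map_eq (hy r).1 hg ((hy r).2.trans hr)
  obtain ⟨s, h4, h5⟩ : ∃ s : F, s ≠ 0 ∧ 1 + r * s ≠ 0 := by
    obtain ⟨c, h4, h5⟩ := hF
    by_cases h6 : r = 0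
    · exact ⟨1, one_ne_zero, by simp [h6]⟩
    · exact ⟨-c / r, by simp [h4, h6], by rw [mul_div_cancel₀ _ h6]; exact sub_ne_zero.2 h5.symm ∘
        (sub_eq_add_neg 1 c).trans⟩
  obtain ⟨ψ, h6, h7⟩ := exists_hom_SL2 hs h3
  refine ⟨x s, (hx s).1, fun e' => h4 ((xE_eq_one (Fr := Fr) (h.ne e) s).1
    (by rw [← (hx s).2, e', map_one])), _, (hx (s / (1 + r * s))).1, _,
    (h2 _ (inv_ne_zero h5)).1, (h2 _ (inv_ne_zero h5)).2.1, _,
    (hy (-(r ^ 2 * s) / (1 + r * s))).1, ?_⟩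
  simpa only [map_mul, map_inv, stH, stW, h6, h7] using congrArg ψ (sl2_big_cell h5)

theorem exists_heis (e : Adj m.1 a.1) : ∃ x : F × F → Γ, (∀ u, x u ∈ B m a ⊔ A m.1 ∧
    π (x u) = eE P (Fr.e a) (u.1 • Fr.e m + u.2 • Fr.e (ng m)) 0) ∧
    (∀ s, x (s, 0) ∈ h.YS m a ∧ π (x (s, 0)) = xE Fr a m s) ∧
    (∀ s, x (0, s) ∈ h.YS (ng m) a ∧ π (x (0, s)) = xE Fr a (ng m) s) ∧
    (∀ u u', ∃ z ∈ A a.1, x (u + u') = x u * x u' * z) ∧
    ∀ g ∈ A m.1, ∀ u u' : F × F, (π g).1 (u.1 • Fr.e m + u.2 • Fr.e (ng m)) =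
      u'.1 • Fr.e m + u'.2 • Fr.e (ng m) → g * x u * g⁻¹ = x u' := by
  have h1 : m ≠ ng a := ne_ng_of_fst (h.ne e)
  have h2 : ng m ≠ ng a := ne_ng_of_fst (a := ng m) (h.ne e)
  have ev : ∀ (u : F × F) ν, P.EV (Fr.e a) (u.1 • Fr.e m + u.2 • Fr.e (ng m)) ν := fun u ν =>
    ⟨Fr.sing a, by simp [P.f_add_left, P.f_smul_left, Fr.orth _ _ (ne_ng_symm h1),
      Fr.orth _ _ (ne_ng_symm h2)], lng_mem h.hL _⟩
  have ev0 : ∀ ν, P.EV (Fr.e a) 0 ν := fun ν => EV.of_mem (Fr.sing a) (lng_mem h.hL ν)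
  have hL : h.YL a ≤ B m a ⊔ A m.1 := ((h.YL_le (h.symm e)).trans (h.sB e).ge).trans le_sup_left
  have : ∀ u : F × F, eE P (Fr.e a) (u.1 • Fr.e m + u.2 • Fr.e (ng m)) 0 ∈
      (B m a ⊔ A m.1).map π := fun u => by
    have h3 := mul_mem (mul_mem
      (Subgroup.map_mono (inf_le_left.trans le_sup_left : _ ≤ B m a ⊔ A m.1)
        ((h.lYS e).surj _ (XE_symm (Fr := Fr) _ _ ▸ xE_mem h1 u.1)))
      (Subgroup.map_mono (inf_le_left.trans (h.sw e))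
        ((h.lYS (a := ng m) e).surj _ (XE_symm (Fr := Fr) _ _ ▸ xE_mem h2 u.2))))
      (Subgroup.map_mono hL ((h.lYL a).surj _ (eE_mem (zero_mem _)
        (ev0 (-P.f (u.2 • Fr.e (ng m)) (u.1 • Fr.e m))))))
    change eE P _ _ 0 * eE P _ _ 0 * _ ∈ _ at h3
    rwa [eE_mul (Fr.ev_xs h1 _) (Fr.ev_xs h2 _), eE_mul (ev u _) (ev0 _), add_zero, f_zero_left,
      add_zero, add_zero, zero_add, add_neg_cancel] at h3
  choose x hx hx' using this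
  have h4 : ∀ s, π (x (s, 0)) = xE Fr a m s := fun s => by rw [hx']; simp; rfl
  have h5 : ∀ s, π (x (0, s)) = xE Fr a (ng m) s := fun s => by rw [hx']; simp; rfl
  refine ⟨x, fun u => ⟨hx u, hx' u⟩, fun s => ⟨h.mem_YS e (hx _) ?_, h4 s⟩,
    fun s => ⟨h.mem_YS' e (hx _) ?_, h5 s⟩, fun u u' => ?_, fun g hg u u' e' => ?_⟩
  · rw [h4, XE_symm]; exact xE_mem h1 s
  · rw [h5, XE_symm]; exact xE_mem h2 s
  · obtain ⟨z, h6, h7⟩ := (h.lYL a).surj _ (eE_mem (zero_mem _) (ev0 (-P.f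
      (u'.1 • Fr.e m + u'.2 • Fr.e (ng m)) (u.1 • Fr.e m + u.2 • Fr.e (ng m)))))
    refine ⟨z, h6.1, (h.fB e _).eq (hx _) (mul_mem (mul_mem (hx _) (hx _)) (hL h6)) ?_⟩
    have h8 : u.1 • Fr.e m + u.2 • Fr.e (ng m) + (u'.1 • Fr.e m + u'.2 • Fr.e (ng m)) =
        (u + u').1 • Fr.e m + (u + u').2 • Fr.e (ng m) := by
      simp only [Prod.fst_add, Prod.snd_add]; module
    rw [map_mul, map_mul, h7, hx', hx', hx', eE_mul (ev _ _) (ev _ _), h8, eE_mul (ev _ _) (ev0 _)]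
    simp [f_zero_left]
  · refine (h.fB e _).eq (mul_mem (mul_mem (Subgroup.mem_sup_right hg) (hx _))
      (Subgroup.mem_sup_right (inv_mem hg))) (hx _) (Subtype.ext ?_)
    rw [map_mul, map_mul, map_inv, hx', hx', ← e', ← LE_fix ((h.lA m).map g hg) (h.ne e).symm]
    conv_lhs => rw [LE_fix ((h.lA m).map g hg) (h.ne e).symm]
    exact eT_conj (isom_E _) (ev _ _)

theorem heis (e1 : Adj m.1 a.1) (e2 : Adj m.1 c.1) (hac : a.1 ≠ c.1) :
    IsLift π (XE Fr a c) (h.YT a c m) ∧ (∀ z ∈ h.YT a c m, ∀ x ∈ h.YS a m, Commute x z) ∧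
      ∀ x ∈ h.YS a (ng m), x ≠ 1 → ∀ z ∈ h.YT a c m, ∃ y ∈ h.YS c m, z = ⁅x, y⁆ := by
  obtain ⟨x, x1, x2, x3, x4, x5⟩ := h.exists_heis e1
  obtain ⟨y, y1, y2, y3, y4, y5⟩ := h.exists_heis e2
  have n1 := h.ne e1
  have n2 := h.ne e2
  have h1 : ∀ l k, Commute (x (l, 0)) (y (k, 0)) := fun l k => h.cB e1 e2 (ne_ng m)
    (ne_ng_of_fst n1) (ne_ng_of_fst n2.symm) (ne_ng_of_fst hac.symm) _ (x2 l).1.1 _ (y2 k).1.1
  have h2 : ∀ l k, Commute (x (0, l)) (y (0, k)) := fun l k => h.cB (a := ng m) (c := ng m) e1 e2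
    (ne_ng _) (ne_ng_of_fst (a := ng m) n1) (ne_ng_of_fst (b := ng m) n2.symm)
    (ne_ng_of_fst hac.symm) _ (x3 l).1.1 _ (y3 k).1.1
  obtain ⟨d, d1, d2, d3, d4⟩ := heis_two (x := x) (y := y)
    (fun u u' => (x4 u u').imp fun z hz => ⟨hz.2, fun v => h.comm_AK e2 n1 hac.symm hz.1 (y1 v).1⟩)
    (fun u u' => (y4 u u').imp fun z hz => ⟨hz.2, fun v => h.comm_AK e1 n2 hac hz.1 (x1 v).1⟩)
    fun ⟨p, q⟩ l k => by
      by_cases hp : p = 0
      · simpa [hp] using h2 (l * q) (k * q)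
      obtain ⟨g, g1, g2⟩ := (h.lYL (ng m)).surj _ (eE_mem (zero_mem _) (EV.of_mem (Fr.sing (ng m))
        (lng_mem h.hL (q / p / P.f (Fr.e m) (Fr.e (ng m))))))
      have g3 : ∀ l : F, (π g).1 ((l * p) • Fr.e m + (0 : F) • Fr.e (ng m)) =
          (l • (p, q)).1 • Fr.e m + (l • (p, q)).2 • Fr.e (ng m) := fun l => by
        have := Fr.pair m
        rw [zero_smul, add_zero, map_smul, g2, eE_zero_apply (Fr.sing _) (lng_mem h.hL _),
          lng_ε h.hL]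
        simp only [Prod.smul_mk, smul_eq_mul]
        match_scalars <;> field_simp
      rw [← x5 g g1.1 (l * p, 0) _ (g3 l), ← y5 g g1.1 (k * p, 0) _ (g3 k)]
      exact (h1 _ _).conj g
  have h3 : ∀ r, π (d r) = xE Fr c a (P.f (Fr.e (ng m)) (Fr.e m) * r) := fun r => by
    rw [← mul_one r, ← d2, map_commutatorElement, (x2 _).2, (y3 _).2, xE_swap (ne_ng_of_fst n1),
      xE_commutator n1 n2 (ne_ng_of_fst hac.symm), lng_ε h.hL, lng_σ h.hL]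
    simp
  have p1 : ∀ {a} {x : F → Γ}, Adj m.1 a.1 → (∀ s, x s ∈ h.YS m a ∧ π (x s) = xE Fr a m s) →
      ∀ z ∈ h.YS a m, ∃ s, x s = z := fun {a x} e hx z hz =>
    ((mem_XES (h.ne e).symm _).1 hz.2).imp fun s hs => (h.lYS (h.symm e)).eq_of_map_eq
      (h.YS_symm e ▸ (hx s).1) hz ((hx s).2.trans hs)
  have p2 : ∀ {a} {x : F → Γ}, Adj m.1 a.1 →
      (∀ s, x s ∈ h.YS (ng m) a ∧ π (x s) = xE Fr a (ng m) s) →
      ∀ z ∈ h.YS a (ng m), ∃ s, x s = z := fun {a x} e hx z hz =>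
    ((mem_XES (b := ng m) (h.ne e).symm _).1 hz.2).imp fun s hs =>
      (h.lYS (b := ng m) (h.symm e)).eq_of_map_eq (h.YS_symm (a := ng m) e ▸ (hx s).1) hz
        ((hx s).2.trans hs)
  have h4 : ∀ z ∈ h.YT a c m, ∃ r, d r = z := fun z hz => (mem_parHom_range d1 z).1
    ((sup_le (Subgroup.commutator_le.2 fun u hu v hv => by
      obtain ⟨s, rfl⟩ := p1 e1 x2 u hu
      obtain ⟨t, rfl⟩ := p2 e2 y3 v hv
      exact (mem_parHom_range d1 _).2 ⟨_, (d2 s t).symm⟩)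
      (Subgroup.commutator_le.2 fun u hu v hv => by
      obtain ⟨s, rfl⟩ := p2 e1 x3 u hu
      obtain ⟨t, rfl⟩ := p1 e2 y2 v hv
      exact (mem_parHom_range d1 _).2 ⟨_, (d3 s t).symm⟩) : _ ≤ (parHom d1).range) hz)
  refine ⟨⟨fun z hz => ?_, fun z hz e => ?_, fun z hz => ?_⟩, fun z hz u hu => ?_,
    fun u hu h5 z hz => ?_⟩
  · obtain ⟨r, rfl⟩ := h4 z hz
    rw [h3, XE_symm]
    exact xE_mem (ne_ng_of_fst hac) _
  · obtain ⟨r, rfl⟩ := h4 z hz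
    rw [h3, xE_eq_one hac.symm, mul_eq_zero, or_iff_right (Fr.pair' m)] at e
    rw [e, par_zero d1]
  · obtain ⟨t, rfl⟩ := (mem_XES hac.symm _).1 (XE_symm (Fr := Fr) _ _ ▸ hz)
    refine ⟨d (t / P.f (Fr.e (ng m)) (Fr.e m)), ?_, by rw [h3, mul_div_cancel₀ _ (Fr.pair' m)]⟩
    rw [← mul_one (t / _), ← d2]
    exact Subgroup.mem_sup_left (Subgroup.commutator_mem_commutator (h.YS_symm e1 ▸ (x2 _).1)
      (h.YS_symm (a := ng m) e2 ▸ (y3 _).1))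
  · obtain ⟨r, rfl⟩ := h4 z hz
    obtain ⟨s, rfl⟩ := p1 e1 x2 u hu
    exact (d4 r s).1
  · obtain ⟨r, rfl⟩ := h4 z hz
    obtain ⟨s, rfl⟩ := p2 e1 x3 u hu
    have hs : s ≠ 0 := fun e => h5 ((h.lYS (b := ng m) (h.symm e1)).inj _ hu (by
      rw [(x3 s).2, e, xE_zero]))
    exact ⟨_, h.YS_symm e2 ▸ (y2 (-r / s)).1, by rw [d3, mul_div_cancel₀ _ hs, neg_neg]⟩

theorem rel3 (hF : ∃ a : F, a ≠ 0 ∧ a ≠ 1) (e1 : Adj m.1 a.1) (e2 : Adj m.1 c.1) (hac : a.1 ≠ c.1)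
    (hz : z ∈ h.YT a c m) (hy : y ∈ h.YS (ng a) m) : ⁅z, y⁆ ∈ h.YS c m := by
  obtain ⟨l1, -, h1⟩ := h.heis e1 e2 hac
  have n1 := h.ne e1
  have n2 := h.ne e2
  obtain ⟨x, hx, h2, u, hu, k, hk, hk', v, hv, h3⟩ := h.big_cell hF (b := ng m) (h.symm e1) (g := y)
    (by rwa [ng_ng])
  rw [ng_ng] at hv
  obtain ⟨w, hw, h4⟩ := h1 x hx h2 z hz
  have c1 : ∀ y ∈ h.YS (ng a) m, Commute y w := fun y hy => h.cB (a := ng a) (h.symm e1) (h.symm e2)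
    (ne_ng_of_fst (b := ng a) hac.symm) (ne_ng_of_fst n2.symm) (ne_ng_of_fst (b := ng a) n1)
    (ne_ng m) _ hy.1 _ hw.1
  have h5 : k * w * k⁻¹ ∈ h.YS c m := h.YS_symm e2 ▸ h.mem_YS e2 (RD.Lifts.conj_mem_of_sup
    (fun g hg y hy => by rwa [(h.comm_AK e2 n1 hac.symm hg hy).eq, mul_inv_cancel_right])
    (fun g hg y hy => mul_mem (mul_mem (Subgroup.mem_sup_right hg) hy)
      (Subgroup.mem_sup_right (inv_mem hg))) hk (Subgroup.mem_sup_left (h.sB e2 ▸ hw.1))) (by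
    simpa [XE_symm m c] using mon_HE hk' c m (ne_ng_of_fst n2) _ hw.2)
  have h6 : ⁅u, k * w * k⁻¹⁆ ∈ h.YT a c m :=
    Subgroup.mem_sup_right (Subgroup.commutator_mem_commutator hu h5)
  have h7 : y * z * y⁻¹ = ⁅u, k * w * k⁻¹⁆ * (k * w * k⁻¹ * w⁻¹) := by
    rw [h4, conjugate_commutatorElement, (c1 y hy).eq, mul_inv_cancel_right, h3,
      commutatorElement_def, mul_assoc _ v, (c1 v hv).eq, commutatorElement_def]
    group
  have h8 := (h.heis e2 e1 hac.symm).2.1 _ (h.YT_symm a c m ▸ h6) _ (mul_mem h5 (inv_mem hw))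
  have h9 : ⁅z, y⁆ = z * ⁅u, k * w * k⁻¹⁆⁻¹ * (k * w * k⁻¹ * w⁻¹)⁻¹ := by
    rw [mul_assoc, ← mul_inv_rev, h8.eq, ← h7, commutatorElement_def]
    group
  have h10 := mul_mem hz (inv_mem h6)
  have h11 := (bcSys_XE (Fr := Fr) (d := True) fun h => absurd trivial h).c4 a c m hac n1.symm
    (ne_ng_of_fst n2) _ (l1.map z hz) _ hy.2
  rw [← map_commutatorElement, h9, map_mul,
    Subgroup.mul_mem_cancel_right (XE Fr c m)
      ((inv_mem (mul_mem h5 (inv_mem hw))).2 : π _ ∈ XE Fr c m)] at h11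
  rw [h9, l1.inj _ h10 (XE_disj hac (l1.map _ h10) h11 (ne_of_fst hac) (ne_of_fst n1.symm)), one_mul]
  exact inv_mem (mul_mem h5 (inv_mem hw))

end SpAm

end Cfsg.Agent.H35
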