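/-
The slim amalgam of the symplectic group: the Curtis–Tits data.
-/
import Mathlib
import Cfsg.Agent.H35.SpAm
import Cfsg.Agent.H75.ModCl

set_option autoImplicit false

namespace Cfsg.Agent.H35

open H78 H78.Frame H26 H26.PForm H80 H75 H34 H40
open scoped commutatorElement Pointwise

variable {n : ℕ}

theorem bc_comm_int {J : Type*} [Group J] {Y : BI n → BI n → Subgroup J} (hY : BCSys True Y)
    (h0 : ∀ a c, c ≠ ng a → ∀ x ∈ Y a a, ∀ y ∈ Y c c, Commute x y) (hn : True ∨ 2 ≤ n)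
    {r s : Rt n True} (h2 : s ≠ (H78.bcSys hn).neg r) : ∀ x ∈ hY.X r, ∀ y ∈ hY.X s,
    ⁅x, y⁆ ∈ rootU hY.X {t | ∃ a b : ℤ, 0 < a ∧ 0 < b ∧ (coordBC hn 1 one_pos).c t =
      a • (coordBC hn 1 one_pos).c r + b • (coordBC hn 1 one_pos).c s} := by
  let A : Rt n True → Rt n True → Set (Rt n True) := fun r s => {t | ∃ a b : ℤ, 0 < a ∧ 0 < b ∧
    vecBC 1 t = a • vecBC 1 r + b • vecBC 1 s}
  suffices ∀ x ∈ hY.X r, ∀ y ∈ hY.X s, ⁅x, y⁆ ∈ rootU hY.X (A r s) from fun x hx y hy =>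
    rootU_mono (by
      rintro t ⟨a, b, ha, hb, e⟩
      exact ⟨a, b, ha, hb, by simp only [coordBC_c, e, map_add, map_zsmul]⟩) (this x hx y hy)
  have mk : ∀ {r s t : Rt n True} {a : ℤ}, 0 < a →
      vecBC 1 t = a • vecBC 1 r + vecBC 1 s → t ∈ A r s := fun ha e =>
    ⟨_, 1, ha, one_pos, by rw [e, one_smul]⟩
  have sym : ∀ r s : Rt n True, (∀ x ∈ hY.X r, ∀ y ∈ hY.X s, ⁅x, y⁆ ∈ rootU hY.X (A r s)) →
      ∀ x ∈ hY.X s, ∀ y ∈ hY.X r, ⁅x, y⁆ ∈ rootU hY.X (A s r) := by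
    intro r s h x hx y hy
    rw [← commutatorElement_inv]
    refine inv_mem (rootU_mono ?_ (h y hy x hx))
    rintro t ⟨a, b, ha, hb, e⟩
    exact ⟨b, a, hb, ha, e.trans (add_comm _ _)⟩
  have triv : ∀ {x y : J} {B : Set (Rt n True)}, Commute x y → ⁅x, y⁆ ∈ rootU hY.X B := fun h => by
    rw [h.commutator_eq]; exact one_mem _
  have k5 : ∀ (a b : BI n) h h', a.1 ≠ b.1 → ∀ x ∈ Y a b, ∀ y ∈ Y (ng a) (ng a),
      ⁅x, y⁆ ∈ rootU hY.X (A (rt a b h) (rt (ng a) (ng a) h')) := by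
    intro a b h h' hab x hx y hy
    obtain ⟨h3, h4⟩ := fst_ne_iff.1 hab
    refine sup_le (hY.le_rootU (by simpa using h3) fun _ => mk one_pos ?_)
      (hY.le_rootU (ne_ng b) fun _ => mk two_pos ?_) (hY.c5 a b hab x hx y hy) <;>
    simp only [vecBC_rt, ite_self, vI_ng] <;> module
  have key : ∀ (a b e : BI n) h h', e ≠ ng b → ∀ x ∈ Y a b, ∀ y ∈ Y (ng a) e,
      ⁅x, y⁆ ∈ rootU hY.X (A (rt a b h) (rt (ng a) e h')) := by
    intro a b e h h' he
    have hea : e ≠ a := by simpa using h'.1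
    by_cases hab : a = b
    · subst hab
      have := k5 (ng a) e h' (by simpa using h) (fst_ne_iff.2 ⟨he.symm, h'.1⟩)
      simp only [ng_ng] at this
      exact sym (rt (ng a) e h') (rt a a h) this
    have hab' := fst_ne_iff.2 ⟨hab, h.1⟩
    by_cases hea' : e = ng a
    · subst hea'
      exact k5 a b h h' hab'
    intro x hx y hy
    refine hY.le_rootU he (fun _ => mk one_pos ?_)
      (hY.c4 a b e hab' (fst_ne_iff.2 ⟨hea.symm, hea'⟩) he x hx y hy)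
    simp only [vecBC_rt, ite_self, vI_ng]
    module
  obtain ⟨a, b, h, rfl⟩ := r.exists_rt
  obtain ⟨c, e, h', rfl⟩ := s.exists_rt
  have sw : ∀ (a b : BI n) (h : b ≠ ng a ∧ (a = b → True)),
      rt a b h = rt b a ⟨ne_ng_symm h.1, fun e => h.2 e.symm⟩ :=
    fun a b h => rt_eq_iff.2 (Or.inr ⟨rfl, rfl⟩)
  rw [bc_neg, ne_eq, rt_eq_iff] at h2
  by_cases e1 : c = ng a
  · subst e1
    exact key a b e h h' (by tauto)
  by_cases e2 : c = ng b
  · subst e2
    rw [sw a b]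
    exact key b a e _ h' (by tauto)
  by_cases e3 : e = ng a
  · subst e3
    rw [sw c]
    exact key a b c h _ e2
  by_cases e4 : e = ng b
  · subst e4
    rw [sw c, sw a]
    exact key b a c _ _ e1
  intro x hx y hy
  by_cases hab : a = b
  · subst hab
    by_cases hce : c = e
    · subst hce
      exact triv (h0 a c e1 x hx y hy)
    · exact triv (hY.c2 c e a a (fst_ne_iff.2 ⟨hce, h'.1⟩) h.1 (ne_ng_symm e1) (ne_ng_symm e3)
        (ne_ng_symm e1) (ne_ng_symm e3) y hy x hx).symm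
  · exact triv (hY.c2 a b c e (fst_ne_iff.2 ⟨hab, h.1⟩) h'.1 e1 e2 e3 e4 x hx y hy)

theorem idx_le {hn : True ∨ 2 ≤ n} {J : Set (Fin n)} (hJ : ∀ k ∈ J, k.val ≤ 1) {a b : BI n}
    {h : b ≠ ng a ∧ (a = b → True)} (hr : rt a b h ∈ (H78.bcSys hn).Phi J) :
    a.1.val ≤ 1 ∧ b.1.val ≤ 1 := by
  have key : ∀ {a b : BI n} {h : b ≠ ng a ∧ (a = b → True)}, rt a b h ∈ (H78.bcSys hn).Phi J →
      b.1.val ≤ a.1.val → a.1.val ≤ 1 := fun {a b h} hr h1 => by
    by_contra h2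
    have := (coordBC hn 1 one_pos).c_eq_zero hr (i := a.1) fun e => h2 (hJ _ e)
    have h3 : a.1.val ≠ 0 := by omega
    have h4 := h.1
    simp only [coordBC_c, vecBC_rt, ite_self, one_smul, map_add, Pi.add_apply, θBC_vI, mBC, h3,
      if_false, not_true, false_and, le_refl, if_true] at this
    rcases a with ⟨a, _ | _⟩ <;> rcases b with ⟨b, _ | _⟩ <;> simp [ng, Fin.ext_iff] at * <;>
      split_ifs at this <;> first | omega | norm_num at this
  rcases le_total b.1.val a.1.val with h1 | h1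
  · exact ⟨key hr h1, h1.trans (key hr h1)⟩
  · rw [show rt a b h = rt b a ⟨ne_ng_symm h.1, fun _ => trivial⟩ from
      rt_eq_iff.2 (Or.inr ⟨rfl, rfl⟩)] at hr
    exact ⟨h1.trans (key hr h1), key hr h1⟩

/-- The Cartan matrix of type `C`. -/
def cartC (i j : Fin n) : ℤ := if i = j then 2 else if i.val = 1 ∧ j.val = 0 then -2 else
  if i.val + 1 = j ∨ j.val + 1 = i then -1 else 0

theorem κ_cartC (hn : True ∨ 2 ≤ n) (i j : Fin n) :
    (coordBC hn 1 one_pos).κ i (Pi.single j 1) = cartC i j := by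
  rw [coordBC_κ, cartC]
  simp only [add_dotProduct, dotProduct_add, vI_dot, ← ht_inj, ht_ng, ht_false, Fin.ext_iff,
    ite_self]
  have h1 : i.val = j ∨ i.val + 1 = j ∨ (j.val + 1 = i ∧ j.val = 0) ∨ (j.val + 1 = i ∧ j.val ≠ 0) ∨
    (i.val ≠ j ∧ i.val + 1 ≠ j ∧ j.val + 1 ≠ i) := by omega
  rcases ht_sB hn i with h3 | h3 | h3 <;> rcases ht_sB hn j with h4 | h4 | h4 <;>
    first | exact (h3.2.1 trivial).elim | exact (h4.2.1 trivial).elim |
      (rcases h1 with h1 | h1 | h1 | h1 | h1 <;>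
        first | omega | (simp (disch := omega) only [if_pos, if_neg]; norm_num))

theorem eq_or_ng {a b : BI n} (h : a.1 = b.1) : b = a ∨ b = ng a := by
  by_contra h1
  exact fst_ne_iff.2 ⟨fun e => h1 (Or.inl e.symm), fun e => h1 (Or.inr e)⟩ h

theorem cmem {Γ : Type*} [Group Γ] {K : Subgroup Γ} {x y : Γ} (hx : x ∈ K) (hy : y ∈ K) :
    ⁅x, y⁆ ∈ K := mul_mem (mul_mem (mul_mem hx hy) (inv_mem hx)) (inv_mem hy)

theorem sB_zero (hn : True ∨ 2 ≤ n) {i : Fin n} (h : i.val = 0) : sB hn i = (i, false) := by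
  simp [sB, h]

theorem sB_succ (hn : True ∨ 2 ≤ n) {i j : Fin n} (h : j.val + 1 = i) : sB hn i = (j, true) := by
  rw [sB, dif_neg (by omega)]
  exact Prod.ext (Fin.ext (by simp only; omega)) rfl

namespace SpAm

variable {F V : Type*} [Field F] [AddCommGroup V] [Module F V] {P : PForm F V}
  {Γ : Type*} [Group Γ] {Fr : Frame P n} {π : Γ →* P.E} {Adj : Fin n → Fin n → Prop}
  {A : Fin n → Subgroup Γ} {B : BI n → BI n → Subgroup Γ} (h : SpAm Fr π Adj A B)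
  {a b c e m : BI n} {g x y z : Γ}

open Classical in
/-- Lifts of the long root groups and of the short root groups of adjacent pairs. -/
noncomputable def Y0 (a b : BI n) : Subgroup Γ :=
  if a = b then h.YL a else if Adj a.1 b.1 then h.YS a b else ⊥

theorem Y0_self (a : BI n) : h.Y0 a a = h.YL a := if_pos rfl

theorem Y0_adj (e : Adj a.1 b.1) : h.Y0 a b = h.YS a b := by
  rw [Y0, if_neg (ne_of_fst (h.ne e)), if_pos e]

theorem Y0_symm (a b : BI n) : h.Y0 a b = h.Y0 b a := by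
  by_cases h1 : a = b
  · rw [h1]
  by_cases h2 : Adj a.1 b.1
  · rw [h.Y0_adj h2, h.Y0_adj (h.symm h2), h.YS_symm h2]
  · rw [Y0, Y0, if_neg h1, if_neg h2, if_neg (Ne.symm h1), if_neg (mt h.symm h2)]

theorem lY0 (h1 : a = b ∨ Adj a.1 b.1) : IsLift π (XE Fr a b) (h.Y0 a b) := by
  rcases h1 with rfl | h1
  exacts [h.Y0_self a ▸ h.lYL a, h.Y0_adj h1 ▸ h.lYS h1]

theorem Y0_le (h1 : Adj a.1 b.1) (hc : c = a ∨ c = b) (he : e = a ∨ e = b) : h.Y0 c e ≤ B a b := by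
  rcases hc with rfl | rfl <;> rcases he with rfl | rfl
  · exact h.Y0_self e ▸ h.YL_le h1
  · exact h.Y0_adj h1 ▸ inf_le_left
  · exact h.Y0_symm e c ▸ h.Y0_adj h1 ▸ inf_le_left
  · exact h.Y0_self e ▸ h.sB h1 ▸ h.YL_le (h.symm h1)

/-- The root groups of the subsystem of type `C₂`. -/
noncomputable def Yp (a b : BI n) : Subgroup Γ :=
  if a.1.val ≤ 1 ∧ b.1.val ≤ 1 then h.Y0 a b else ⊥

theorem mem_Yp (hx : x ∈ h.Yp a b) : x = 1 ∨ (a.1.val ≤ 1 ∧ b.1.val ≤ 1) ∧ x ∈ h.Y0 a b := by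
  unfold Yp at hx
  split_ifs at hx with h1
  exacts [Or.inr ⟨h1, hx⟩, Or.inl hx]

theorem Yp_comm (h1 : c ≠ ng a) : ∀ x ∈ h.Yp a a, ∀ y ∈ h.Yp c c, Commute x y := fun x hx y hy => by
  rcases h.mem_Yp hx with rfl | ⟨-, hx⟩
  · exact Commute.one_left _
  rcases h.mem_Yp hy with rfl | ⟨-, hy⟩
  · exact Commute.one_right _
  rw [Y0_self] at hx hy
  exact (h.fA _ _).commute (Subgroup.mem_sup_left hx.1) (Subgroup.mem_sup_right hy.1)
    (commute_of_coe (commute_XL_of_bot h.hV h1 _ hx.2 _ hy.2))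

variable (hAdj : ∀ i j, Adj i j ↔ i.val + 1 = j ∨ j.val + 1 = i)
include hAdj

theorem bcSys_Yp : BCSys True h.Yp := by
  have adj : ∀ {a b : BI n}, a.1.val ≤ 1 ∧ b.1.val ≤ 1 → a.1 ≠ b.1 → Adj a.1 b.1 := fun h1 h2 =>
    (hAdj _ _).2 (by have := Fin.val_ne_of_ne h2; omega)
  have two : ∀ {a b c : BI n}, a.1.val ≤ 1 ∧ b.1.val ≤ 1 → a.1 ≠ b.1 → c.1.val ≤ 1 → c ≠ ng a →
      c ≠ ng b → c = a ∨ c = b := fun {a b c} h1 h2 h3 h4 h5 => by
    have := Fin.val_ne_of_ne h2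
    by_cases h6 : a.1 = c.1
    · exact Or.inl ((eq_or_ng h6).resolve_right h4)
    · have := Fin.val_ne_of_ne h6
      exact Or.inr ((eq_or_ng (Fin.ext (by omega))).resolve_right h5)
  have sys := bcSys_XE (Fr := Fr) (d := True) fun h => absurd trivial h
  refine ⟨fun a b => by rw [Yp, Yp, h.Y0_symm, if_congr and_comm rfl rfl],
    fun h => absurd trivial h, fun a b c e h1 _ h3 h4 h5 h6 x hx y hy => ?_,
    fun a c h1 x hx y hy => ?_, fun a b e h1 h2 h3 x hx y hy => ?_, fun a b h1 x hx y hy => ?_⟩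
  · rcases h.mem_Yp hx with rfl | ⟨p, hx⟩
    · exact Commute.one_left _
    rcases h.mem_Yp hy with rfl | ⟨q, hy⟩
    · exact Commute.one_right _
    exact h.cB (adj p h1) (adj p h1) (ne_ng a) (ne_ng_of_fst h1) (ne_ng_of_fst h1.symm) (ne_ng b) _
      (h.Y0_le (adj p h1) (Or.inl rfl) (Or.inr rfl) hx) _
      (h.Y0_le (adj p h1) (two p h1 q.1 h3 h4) (two p h1 q.2 h5 h6) hy)
  · rw [(h.Yp_comm (ne_ng_of_fst h1.symm) x hx y hy).commutator_eq]
    exact one_mem _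
  · rcases h.mem_Yp hx with rfl | ⟨p, hx⟩
    · simp
    rcases h.mem_Yp hy with rfl | ⟨q, hy⟩
    · simp
    obtain rfl : e = b := (two p h1 q.2 (ne_ng_of_fst h2.symm) h3).resolve_left (ne_of_fst h2.symm)
    have e1 := adj p h1
    rw [h.Y0_adj e1] at hx
    rw [h.Y0_adj (a := ng a) e1] at hy
    rw [Yp, if_pos ⟨p.2, p.2⟩]
    exact (h.fB e1 a.1).mem (h.lY0 (Or.inl rfl)) ((h.Y0_le e1 (Or.inr rfl) (Or.inr rfl)).trans
      le_sup_left) (cmem (Subgroup.mem_sup_left hx.1) (h.sw e1 hy.1))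
      (map_commutatorElement π x y ▸ sys.c4 a e e h1 h1 h3 _ hx.2 _ hy.2)
  · rcases h.mem_Yp hx with rfl | ⟨p, hx⟩
    · simp
    rcases h.mem_Yp hy with rfl | ⟨q, hy⟩
    · simp
    have e1 := adj p h1
    rw [h.Y0_adj e1] at hx
    rw [Y0_self] at hy
    rw [Yp, if_pos ⟨p.2, p.1⟩, Yp, if_pos ⟨p.2, p.2⟩]
    have h2 : h.Y0 b (ng a) ⊔ h.Y0 b b ≤ B a b ⊔ A a.1 := sup_le ((h.Y0_le (a := ng a) e1
      (Or.inr rfl) (Or.inl rfl)).trans (h.sw e1))
      ((h.Y0_le e1 (Or.inr rfl) (Or.inr rfl)).trans le_sup_left)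
    exact (h.fB e1 a.1).mem (isLift_sup (h.lY0 (Or.inr (h.symm e1))) (h.lY0 (Or.inl rfl))
      ((h.fB e1 a.1).mono h2)) h2
      (cmem (Subgroup.mem_sup_left hx.1) (Subgroup.mem_sup_right hy.1))
      (map_commutatorElement π x y ▸ sys.c5 a b h1 _ hx.2 _ hy.2)

omit hAdj in
theorem exists_Z (hF : ∃ a : F, a ≠ 0 ∧ a ≠ 1) (e1 : Adj m.1 a.1) (e2 : Adj m.1 c.1)
    (hac : a.1 ≠ c.1) : ∃ Z : RA 3 → Subgroup Γ, Z (r3 0 1) = h.YS a (ng m) ∧
    Z (r3 1 0) = h.YS (ng a) m ∧ Z (r3 1 2) = h.YS m (ng c) ∧ Z (r3 2 1) = h.YS (ng m) c ∧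
    IsLift π (XE Fr a (ng c)) (Z (r3 0 2)) ∧ IsLift π (XE Fr (ng a) c) (Z (r3 2 0)) ∧
    (∀ r s : RA 3, r.1.1 ≠ s.1.2 → r.1.2 ≠ s.1.1 → r ≠ s → ∀ x ∈ Z r, ∀ y ∈ Z s, Commute x y) ∧
    ∀ (a b c : Fin 3) (h1 : a ≠ b) (h2 : b ≠ c) (h3 : a ≠ c), ∀ x ∈ Z ⟨(a, b), h1⟩,
      ∀ y ∈ Z ⟨(b, c), h2⟩, ⁅x, y⁆ ∈ Z ⟨(a, c), h3⟩ := by
  have c1 : ∀ {a c m : BI n}, Adj m.1 a.1 → Adj m.1 c.1 → a.1 ≠ c.1 → ∀ x ∈ h.YS a m,
      ∀ y ∈ h.YS c m, Commute x y := fun e1 e2 hac x hx y hy => h.cB (h.symm e1) (h.symm e2)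
    (ne_ng_of_fst hac.symm) (ne_ng_of_fst (h.ne e2).symm) (ne_ng_of_fst (h.ne e1)) (ne_ng _) _ hx.1
    _ hy.1
  have c2 : ∀ {a c m : BI n}, Adj m.1 a.1 → Adj m.1 c.1 → a.1 ≠ c.1 → ∀ x ∈ h.YS a m,
      ∀ y ∈ h.YT a c m, Commute x y := fun e1 e2 hac x hx y hy => (h.heis e1 e2 hac).2.1 y hy x hx
  have c3 : ∀ {a c m : BI n}, Adj m.1 a.1 → Adj m.1 c.1 → a.1 ≠ c.1 → ∀ x ∈ h.YS a (ng m),
      ∀ y ∈ h.YT a c m, Commute x y := fun {a c m} e1 e2 hac x hx y hy =>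
    c2 (m := ng m) e1 e2 hac x hx y (h.YT_ng a c m ▸ hy)
  have c4 : ∀ {a c m : BI n}, Adj m.1 a.1 → Adj m.1 c.1 → a.1 ≠ c.1 → ∀ x ∈ h.YS c m,
      ∀ y ∈ h.YT a c m, Commute x y := fun {a c m} e1 e2 hac x hx y hy =>
    c2 e2 e1 hac.symm x hx y (h.YT_symm a c m ▸ hy)
  have r1 : ∀ {a c m : BI n}, Adj m.1 a.1 → Adj m.1 c.1 → a.1 ≠ c.1 → ∀ x ∈ h.YT a (ng c) m,
      ∀ y ∈ h.YS c (ng m), ⁅x, y⁆ ∈ h.YS a (ng m) := fun {a c m} e1 e2 hac x hx y hy =>
    h.rel3 hF (a := ng c) (m := ng m) e2 e1 hac.symm (by rwa [YT_ng, YT_symm]) (by rwa [ng_ng])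
  have r2 : ∀ {a c m : BI n}, Adj m.1 a.1 → Adj m.1 c.1 → a.1 ≠ c.1 → ∀ x ∈ h.YS (ng a) m,
      ∀ y ∈ h.YT a c m, ⁅x, y⁆ ∈ h.YS c m := fun e1 e2 hac x hx y hy =>
    commutatorElement_inv y x ▸ inv_mem (h.rel3 hF e1 e2 hac hy hx)
  refine ⟨fun r => ![![⊥, h.YS a (ng m), h.YT a (ng c) m], ![h.YS (ng a) m, ⊥, h.YS (ng c) m],
    ![h.YT c (ng a) m, h.YS c (ng m), ⊥]] r.1.1 r.1.2, rfl, rfl, h.YS_symm (a := ng c) (h.symm e2),
    h.YS_symm (b := ng m) (h.symm e2), (h.heis (c := ng c) e1 e2 hac).1,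
    XE_symm (Fr := Fr) c (ng a) ▸ (h.heis (c := ng a) e2 e1 hac.symm).1, ?_, fun i j k h1 h2 h3 => ?_⟩
  · rintro ⟨⟨i, j⟩, h1⟩ ⟨⟨k, l⟩, h2⟩ h3 h4 h5 x hx y hy
    fin_cases i <;> fin_cases j <;> fin_cases k <;> fin_cases l <;> first
      | exact absurd rfl h1 | exact absurd rfl h2 | exact absurd rfl h3 | exact absurd rfl h4
      | exact absurd rfl h5 | skip
    exacts [c3 (c := ng c) e1 e2 hac x hx y hy, c1 (m := ng m) e1 e2 hac x hx y hy,
      (c3 (c := ng c) e1 e2 hac y hy x hx).symm, (c4 (c := ng c) e1 e2 hac y hy x hx).symm,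
      c1 (a := ng a) (c := ng c) e1 e2 hac x hx y hy, c4 (c := ng a) e2 e1 hac.symm x hx y hy,
      c4 (c := ng c) e1 e2 hac x hx y hy, c1 (a := ng c) (c := ng a) e2 e1 hac.symm x hx y hy,
      (c4 (c := ng a) e2 e1 hac.symm y hy x hx).symm, (c3 (c := ng a) e2 e1 hac.symm y hy x hx).symm,
      c1 (m := ng m) e2 e1 hac.symm x hx y hy, c3 (c := ng a) e2 e1 hac.symm x hx y hy]
  · fin_cases i <;> fin_cases j <;> fin_cases k <;> first
      | exact absurd rfl h1 | exact absurd rfl h2 | exact absurd rfl h3 | skip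
    exacts [fun x hx y hy => Subgroup.mem_sup_right (Subgroup.commutator_mem_commutator hx hy),
      r1 e1 e2 hac, r2 (c := ng c) e1 e2 hac, r2 (c := ng a) e2 e1 hac.symm, r1 e2 e1 hac.symm,
      fun x hx y hy => Subgroup.mem_sup_right (Subgroup.commutator_mem_commutator hx hy)]

omit hAdj in
theorem B_le (e : Adj a.1 b.1) : B a b ≤ A a.1 ⊔ h.YS a b ⊔ A b.1 := fun _ hy =>
  have h1 := h.YL_le e
  have h2 : h.YL b ≤ B a b := h.sB e ▸ h.YL_le (h.symm e)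
  have h3 : h.YL a ⊔ h.YS a b ≤ B a b := sup_le h1 inf_le_left
  (sup_le_sup (sup_le_sup_right inf_le_left _) inf_le_left : h.YL a ⊔ h.YS a b ⊔ h.YL b ≤ _)
    (Flat.mem (h.lB e).inj (isLift_sup (isLift_sup (h.lYL a) (h.lYS e) (Flat.mono (h.lB e).inj h3))
      (h.lYL b) (Flat.mono (h.lB e).inj (sup_le h3 h2))) (sup_le h3 h2) hy ((h.lB e).map _ hy))

include h

omit hAdj in
theorem B_le_of {W : Subgroup Γ} (hA : ∀ k, A k ≤ W) (e1 : Adj a.1 b.1) (h1 : B a b ≤ W)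
    (h2 : a.1 = c.1) (h3 : b.1 = e.1) : B c e ≤ W := by
  have key : ∀ {a b c : BI n}, Adj a.1 b.1 → B a b ≤ W → a.1 = c.1 → B c b ≤ W :=
    fun e1 h1 h2 => by
    rcases eq_or_ng h2 with rfl | rfl
    exacts [h1, (h.sw e1).trans (sup_le h1 (hA _))]
  have e2 : Adj c.1 b.1 := h2 ▸ e1
  rw [h.sB (h3 ▸ e2)]
  exact key (h.symm e2) (h.sB e2 ▸ key e1 h1 h2) h3

omit hAdj in
theorem flat_A : Flat π (⨆ k, A k) := by
  suffices ∀ s : Finset (Fin n), Flat π (⨆ k ∈ s, A k) by simpa using this Finset.univ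
  intro s
  induction s using Finset.induction_on with
  | empty => exact fun y hy _ => by simpa using hy
  | insert k s hk ih =>
    rw [Finset.iSup_insert]
    intro y hy e
    have h1 : ∀ l ∈ s, l ≠ k := fun l hl e => hk (e ▸ hl)
    have h2 : (⨆ l ∈ s, A l) ≤ Subgroup.centralizer (A k : Set Γ) := iSup₂_le fun l hl y hy x hx =>
      h.comm_AA (h1 l hl).symm hx hy
    obtain ⟨a, ha, b, hb, rfl⟩ : y ∈ (A k : Set Γ) * ((⨆ l ∈ s, A l : Subgroup Γ) : Set Γ) := by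
      rwa [← Subgroup.coe_mul_of_right_le_normalizer_left _ _
        (h2.trans (Subgroup.centralizer_le_normalizer _))]
    have h3 : a = 1 := (h.lA (k, false)).inj a ha (ext_E h.hV fun c => by
      by_cases h3 : c.1 = k
      · have h4 : (⨆ l ∈ s, A l) ≤ ((MulAction.stabilizer (V ≃ₗ[F] V) (Fr.e c)).comap
            P.E.subtype).comap π := iSup₂_le fun l hl y hy =>
          LE_fix ((h.lA (l, false)).map y hy) (h3 ▸ (h1 l hl).symm)
        rw [map_mul, mul_eq_one_iff_eq_inv, ← map_inv] at e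
        exact e ▸ h4 (inv_mem hb)
      · exact LE_fix ((h.lA (k, false)).map a ha) h3)
    simp only [h3, one_mul] at e ⊢
    exact ih b hb e

theorem bijective [FiniteDimensional F V] (hF : ∃ a : F, a ≠ 0 ∧ a ≠ 1) (hn : 2 ≤ n)
    (gen : ∀ W : Subgroup Γ, (∀ k, A k ≤ W) → (∀ a b, Adj a.1 b.1 → B a b ≤ W) → W = ⊤) :
    Function.Bijective π := by
  have hn' : True ∨ 2 ≤ n := Or.inl trivial
  have hA : Fr.Aniso := fun w hw _ => by simpa [h.hV] using hw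
  have hd' : True → ∀ a, Fr.X a a ≠ ⊥ := fun _ a => XL_ne_bot (zero_mem _)
    (EV.of_mem (Fr.sing a) (lng_mem h.hL 1)) fun _ => one_ne_zero
  have hL : BCL Fr.X 1 := ⟨by norm_num, le_rfl, fun a => commute_XL_of_bot h.hV (ne_ng a),
    Or.inr fun a c h1 => commute_XL_of_bot h.hV (fst_ne_iff.1 h1).2, Or.inl rfl⟩
  let S := H78.bcSys hn'
  let Y₁ : Rt n True → Subgroup Γ := fun r => Sym2.lift ⟨h.Y0, h.Y0_symm⟩ r.1
  have k0 : ∀ i : Fin n, i.val = 0 → rk1 S Y₁ i = A i := fun i hi => by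
    change h.Y0 (i, false) (H78.sB hn' i) ⊔ h.Y0 (ng (i, false)) (ng (H78.sB hn' i)) = _
    rw [sB_zero hn' hi, Y0_self, Y0_self]
    exact (h.A_eq (i, false)).symm
  have adj : ∀ {i j : Fin n}, j.val + 1 = i → Adj i j := fun e => (hAdj _ _).2 (Or.inr e)
  have y1 : ∀ {i j : Fin n}, j.val + 1 = i → Y₁ (S.α i) = h.YS (i, false) (j, true) ∧
      Y₁ (S.neg (S.α i)) = h.YS (i, true) (j, false) := fun {i j} e => by
    change h.Y0 _ (H78.sB hn' i) = _ ∧ h.Y0 _ (ng (H78.sB hn' i)) = _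
    rw [sB_succ hn' e]
    exact ⟨h.Y0_adj (adj e), h.Y0_adj (adj e)⟩
  have k1 : ∀ {i j : Fin n}, j.val + 1 = i → rk1 S Y₁ i = h.LS (i, false) (j, true) := fun e => by
    rw [rk1, (y1 e).1, (y1 e).2]
    rfl
  have pre : ∀ i : Fin n, i.val = 0 ∨ ∃ j : Fin n, j.val + 1 = i := fun i =>
    (Nat.eq_zero_or_pos i).imp_right fun h => ⟨⟨i - 1, by omega⟩, by simp only; omega⟩
  have orth : ∀ i j : Fin n, i.val + 1 < j → ∀ x ∈ rk1 S Y₁ i, ∀ y ∈ rk1 S Y₁ j, Commute x y :=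
    fun i j h1 x hx y hy => by
    obtain ⟨l, h2⟩ := (pre j).resolve_left (by omega)
    have e2 := adj h2
    rw [k1 h2] at hy
    rcases pre i with h3 | ⟨k, h3⟩
    · rw [k0 i h3] at hx
      have h4 : j ≠ i := fun e => by omega
      have h5 : l ≠ i := fun e => by omega
      have c : ∀ {p q}, ∀ y ∈ h.YS (j, p) (l, q), Commute y x := fun {p q} y hy =>
        (h.comm_AB (a := (j, p)) (b := (l, q)) e2 h4 h5 hx hy.1).symm
      exact (commute_sup_left c c y hy).symm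
    rw [k1 h3] at hx
    have c : ∀ {p q r s}, ∀ x ∈ h.YS (i, p) (k, q), ∀ y ∈ h.YS (j, r) (l, s), Commute x y :=
      fun x hx y hy => h.cB (adj h3) e2 (ne_ng_of_fst fun e => by simp only at e; omega)
        (ne_ng_of_fst fun e => by simp only at e; omega)
        (ne_ng_of_fst fun e => by simp only at e; omega)
        (ne_ng_of_fst fun e => by simp only at e; omega) _ hx.1 _ hy.1
    exact commute_sup_left (fun x hx => (commute_sup_left (fun y hy => (c x hx y hy).symm)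
      (fun y hy => (c x hx y hy).symm) y hy).symm) (fun x hx => (commute_sup_left
        (fun y hy => (c x hx y hy).symm) (fun y hy => (c x hx y hy).symm) y hy).symm) x hx
  let Q := (frameRDL hA hn' (fun h => absurd trivial h) hd' P.E.subtype Subtype.val_injective
    P.E.range_subtype (by omega) hL).split
  have pA : ∀ i j : Fin n, j.val + 1 = i → j.val ≠ 0 →
      PairA π (coordBC hn' 1 one_pos) cartC Q Y₁ i j := fun i j h1 h2 => by
    obtain ⟨k, h3⟩ := (pre j).resolve_left h2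
    have h4 : i ≠ k := fun e => by omega
    obtain ⟨Z, z1, z2, z3, z4, z5, z6, z7, z8⟩ := h.exists_Z hF (a := (i, false)) (m := (j, false))
      (c := (k, false)) (h.symm (adj h1)) (adj h3) h4
    refine ⟨?_, ?_, rt (i, false) (k, true) ⟨ne_ng_of_fst h4.symm, fun _ => trivial⟩, Z, ?_,
      z1.trans (y1 h1).1.symm, z2.trans (y1 h1).2.symm, z3.trans (y1 h3).1.symm,
      z4.trans (y1 h3).2.symm, z5, z6, z7, z8⟩
    · simp (disch := omega) only [cartC, Fin.ext_iff, if_pos, if_neg]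
    · simp (disch := omega) only [cartC, Fin.ext_iff, if_pos, if_neg]
    · simp only [bc_α, coordBC_c, ← map_add, vecBC_rt, ite_self, sB_succ hn' h1, sB_succ hn' h3]
      exact congrArg _ (by rw [show vI (j, true) = -vI (j, false) from vI_ng (j, false)]; module)
  have pG : ∀ i j : Fin n, i.val ≤ 1 → j.val ≤ 1 → PairG π (coordBC hn' 1 one_pos) Q Y₁ i j :=
    fun i j h1 h2 => by
    have hJ : ∀ k ∈ ({i, j} : Set (Fin n)), k.val ≤ 1 := by rintro k (rfl | rfl) <;> assumption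
    refine ⟨(h.bcSys_Yp hAdj).X, fun r hr => ?_, fun r s h3 => bc_comm_int _ (fun _ _ => h.Yp_comm)
      hn' h3, fun k hk => ?_⟩
    · obtain ⟨a, b, h3, rfl⟩ := r.exists_rt
      have h4 := idx_le hJ hr
      rw [BCSys.X_rt, Yp, if_pos h4]
      refine h.lY0 (a := a) (b := b) ((em _).imp_right fun e => (hAdj _ _).2 ?_)
      have := Fin.val_ne_of_ne (fst_ne_iff.2 ⟨e, h3.1⟩)
      omega
    · have h3 := idx_le (h := sB_ok hn' k) hJ (S.α_mem_Phi hk)
      exact ⟨if_pos h3, if_pos h3⟩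
  obtain ⟨h1, h2⟩ := ker_le_of_coord (P := Q) (π := π) (Y₁ := Y₁) (κ_cartC hn')
    (fun i => if i.val = 0 then 2 else 1) (fun i => by split_ifs <;> norm_num)
    (fun i j => by simp only [cartC, Fin.ext_iff]; split_ifs <;> omega)
    (fun i => by
      have : (i, false) = H78.sB hn' i ∨ Adj i (H78.sB hn' i).1 := (pre i).imp
        (fun e => (sB_zero hn' e).symm) fun ⟨j, e⟩ => sB_succ hn' e ▸ adj e
      exact ⟨h.lY0 this, h.lY0 (this.imp_left (congrArg ng))⟩)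
    (fun i j hij => by
      have := Fin.val_ne_of_ne hij
      by_cases h1 : i.val ≤ 1 ∧ j.val ≤ 1
      · exact Or.inr (Or.inr (Or.inr (pG i j h1.1 h1.2)))
      by_cases h2 : j.val + 1 = i
      · exact Or.inr (Or.inl (pA i j h2 (by omega)))
      by_cases h3 : i.val + 1 = j
      · exact Or.inr (Or.inr (Or.inl (pA j i h3 (by omega))))
      refine Or.inl ⟨by simp (disch := omega) only [cartC, Fin.ext_iff, if_neg], ?_⟩
      by_cases h4 : i.val + 1 < j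
      · exact orth i j h4
      · exact fun x hx y hy => (orth j i (by omega) y hy x hx).symm)
    (fun i => by
      rcases pre i with e | ⟨j, e⟩
      · exact ⟨⟨1, hn⟩, fun e' => by simp [← e'] at e, by simp [cartC, Fin.ext_iff, e]⟩
      · exact ⟨j, fun e' => by omega, by
          simp (disch := omega) only [cartC, Fin.ext_iff, if_pos, if_neg]; norm_num⟩)
    (by
      have h1 : ∀ m (k : Fin n), k.val = m → A k ≤ ⨆ i, rk1 S Y₁ i := fun m => by
        induction m with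
        | zero => exact fun k e => k0 k e ▸ le_iSup _ k
        | succ m ih =>
          intro k e y hy
          obtain ⟨l, e'⟩ := (pre k).resolve_left (by omega)
          obtain ⟨u, v, h1, h2, -, h3, -⟩ := h.exists_st (a := (k, false)) (b := (l, true)) (adj e')
          have h4 : H36.stW u v 1 ∈ h.LS (k, false) (l, true) := mul_mem (mul_mem
            (Subgroup.mem_sup_left (h1 _).1) (Subgroup.mem_sup_right (h2 _).1))
            (Subgroup.mem_sup_left (h1 _).1)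
          have h5 := le_iSup (rk1 S Y₁) k (k1 e' ▸ h4)
          simpa [mul_assoc] using mul_mem (mul_mem (inv_mem h5) (ih l (by omega) (h.conj_A (adj e') h4
            (h3 1 one_ne_zero).2.2 (rf_left _ _) hy))) h5
      have h2 : ∀ {i j : Fin n}, j.val + 1 = i → B (i, false) (j, true) ≤ ⨆ i, rk1 S Y₁ i :=
        fun {i j} e => (h.B_le (adj e)).trans (sup_le (sup_le (h1 _ _ rfl)
          ((le_sup_left.trans (k1 e).ge).trans (le_iSup _ i))) (h1 _ _ rfl))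
      refine gen _ (fun k => h1 _ k rfl) fun a b e => ?_
      rcases (hAdj _ _).1 e with e' | e'
      · exact h.sB e ▸ h.B_le_of (a := (b.1, false)) (b := (a.1, true)) (fun k => h1 _ k rfl)
          (adj e') (h2 e') rfl rfl
      · exact h.B_le_of (a := (a.1, false)) (b := (b.1, true)) (fun k => h1 _ k rfl) (adj e')
          (h2 e') rfl rfl)
  refine ⟨(injective_iff_map_eq_one π).2 fun y e => h.flat_A y
    (h1.trans (iSup_le fun i z hz => ?_) e) e, MonoidHom.range_eq_top.1 (h2.trans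
      (frameRD'_gen hA hn' (fun h => absurd trivial h) hd' P.E.subtype Subtype.val_injective
        P.E.range_subtype (by omega)))⟩
  rcases pre i with e | ⟨j, e⟩
  · exact le_iSup A i (k0 i e ▸ hz.1)
  · exact sup_le (le_iSup A i) (le_iSup A j) (h.mem_of_HE (a := (i, false)) (b := (j, true)) (adj e)
      ((k1 e).le hz.1) hz.2)

end SpAm

end Cfsg.Agent.H35
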