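/-
The symplectic group is the universal completion of the slim amalgam.
-/
import Mathlib
import Cfsg.Agent.H35.SpAm2

set_option autoImplicit false

namespace Cfsg.Agent.H35

open H78 H78.Frame H26 H26.PForm H80

universe u v

theorem universal_of_flat {G : Type u} {H : Type v} [Group G] [Group H] {κ : Type*}
    (T : κ → Subgroup G) (τ : ∀ k, T k →* H) (hτ : ∀ k l, k ≠ l → ∃ Ψ : ↥(T k ⊔ T l) →* H,
      (∀ g hg, Ψ ⟨g, Subgroup.mem_sup_left hg⟩ = τ k ⟨g, hg⟩) ∧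
      ∀ g hg, Ψ ⟨g, Subgroup.mem_sup_right hg⟩ = τ l ⟨g, hg⟩)
    (h : ∀ (Γ : Type (max u v)) [Group Γ] (π : Γ →* G) (L : κ → Subgroup Γ),
      (∀ k, IsLift π (T k) (L k)) → (∀ k l, Flat π (L k ⊔ L l)) →
      (∀ W, (∀ k, L k ≤ W) → W = ⊤) → Function.Bijective π) :
    ∃! Φ : G →* H, ∀ k g hg, Φ g = τ k ⟨g, hg⟩ := by
  let Γ := ⨆ k, ((T k).subtype.prod (τ k)).range
  let π : Γ →* G := (MonoidHom.fst G H).comp Γ.subtype
  let L : κ → Subgroup Γ := fun k => ((T k).subtype.prod (τ k)).range.subgroupOf Γ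
  have fl : ∀ {K : Subgroup G} (ψ : K →* H), Flat π ((K.subtype.prod ψ).range.subgroupOf Γ) := by
    rintro K ψ ⟨_, _⟩ ⟨x, rfl⟩ e
    obtain rfl : x = 1 := Subtype.ext e
    exact Subtype.ext (map_one _)
  have le : ∀ k, _ ≤ Γ := le_iSup _
  have gen : ∀ W, (∀ k, L k ≤ W) → W = ⊤ := fun W hW => eq_top_iff.2 fun x _ => by
    obtain ⟨y, h1, h2⟩ : x.1 ∈ W.map Γ.subtype :=
      (iSup_le fun k z hz => ⟨⟨z, le k hz⟩, hW k hz, rfl⟩ : Γ ≤ W.map Γ.subtype) x.2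
    exact Subtype.ext h2 ▸ h1
  have hb := h Γ π L (fun k => ⟨by rintro ⟨_, _⟩ ⟨x, rfl⟩; exact x.2, fl _,
    fun x hx => ⟨⟨_, le k ⟨⟨x, hx⟩, rfl⟩⟩, ⟨_, rfl⟩, rfl⟩⟩) (fun k l => by
      by_cases e : k = l
      · simpa [e] using fl (τ l)
      obtain ⟨Ψ, h1, h2⟩ := hτ k l e
      refine (fl Ψ).mono (sup_le ?_ ?_) <;> rintro ⟨_, _⟩ ⟨⟨x, hx⟩, rfl⟩
      exacts [⟨_, Prod.ext rfl (h1 x hx)⟩, ⟨_, Prod.ext rfl (h2 x hx)⟩]) gen
  refine ⟨((MonoidHom.snd G H).comp Γ.subtype).comp (MulEquiv.ofBijective π hb).symm.toMonoidHom,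
    fun k g hg => congrArg (·.1.2) ((MulEquiv.ofBijective π hb).symm_apply_apply
      ⟨_, le k ⟨⟨g, hg⟩, rfl⟩⟩), fun Φ hΦ => MonoidHom.ext fun g => ?_⟩
  obtain ⟨x, rfl⟩ := hb.2 g
  refine Eq.trans ?_ (congrArg (·.1.2) ((MulEquiv.ofBijective π hb).symm_apply_apply x)).symm
  refine (gen ((Φ.comp π).eqLocus ((MonoidHom.snd G H).comp Γ.subtype)) fun k => ?_).ge trivial
  rintro ⟨_, _⟩ ⟨⟨x, hx⟩, rfl⟩
  exact hΦ k x hx

variable {F V : Type*} [Field F] [AddCommGroup V] [Module F V] {P : PForm F V} {n : ℕ}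
  {Γ : Type*} [Group Γ] {Fr : Frame P n} {π : Γ →* P.E} {Adj : Fin n → Fin n → Prop}
  {A : Fin n → Subgroup Γ} {M : Fin n → Fin n → Subgroup Γ}

theorem exists_spAm (hV : Fr.V0 = ⊥) (hL : Lng P (RingHom.id F) 1)
    (ne : ∀ {i j}, Adj i j → i ≠ j) (symm : ∀ {i j}, Adj i j → Adj j i)
    (lA : ∀ k, IsLift π (LE Fr (k, false)) (A k))
    (lM : ∀ {i j}, Adj i j → IsLift π (RE Fr (i, false) (j, false)) (M i j))
    (sM : ∀ {i j}, Adj i j → M i j = M j i) (fA : ∀ k l, Flat π (A k ⊔ A l))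
    (fM : ∀ {i j}, Adj i j → ∀ k, Flat π (M i j ⊔ A k))
    (fMM : ∀ {i j k l}, Adj i j → Adj k l → Flat π (M i j ⊔ M k l)) :
    ∃ B, SpAm Fr π Adj A B ∧ ∀ i j, B (i, false) (j, false) = M i j := by
  classical
  have lA' : ∀ a : BI n, IsLift π (LE Fr a) (A a.1) := fun a =>
    LE_eq (Fr := Fr) (a := (a.1, false)) (b := a) rfl ▸ lA a.1
  have cA : ∀ {k l x y}, k ≠ l → x ∈ A k → y ∈ A l → Commute x y := fun {k l x y} e hx hy =>
    have h1 := (lA k).map x hx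
    (fA k l).commute (Subgroup.mem_sup_left hx) (Subgroup.mem_sup_right hy) (commute_LE hV
      (a := (l, false)) (LE_fix h1 e.symm) (LE_fix h1 e.symm) ((lA l).map y hy))
  have nA : ∀ {k l x y}, x ∈ A k → y ∈ A l → x * y * x⁻¹ ∈ A l := fun {k l x y} hx hy => by
    by_cases e : k = l
    · exact mul_mem (mul_mem (e ▸ hx) hy) (inv_mem (e ▸ hx))
    · rwa [(cA e hx hy).eq, mul_inv_cancel_right]
  have : ∀ k, ∃ g ∈ A k, Fr.Mono (π g).1 (rf (k, false) (k, false)) := fun k =>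
    let ⟨g, h1, h2⟩ := (lA k).surj _ (hL.wL_mem (k, false) 1)
    ⟨g, h1, h2 ▸ hL.wL_mono _ one_ne_zero⟩
  choose w w1 w2 using this
  have : ∀ a : BI n, ∃ g ∈ A a.1, (a.2 = false → g = 1) ∧ ∃ σ : WI n, Fr.Mono (π g).1 σ ∧
      σ.1 (a.1, false) = a ∧ ∀ c : BI n, c.1 ≠ a.1 → σ.1 c = c := by
    rintro ⟨k, _ | _⟩
    · exact ⟨1, one_mem _, fun _ => rfl, 1, map_one π ▸ Mono.one, rfl, fun _ _ => rfl⟩
    · exact ⟨w k, w1 k, by simp, _, w2 k, rf_left _ _, fun c h => rf_of_fst h h⟩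
  choose ν n1 n2 σ n3 n4 n5 using this
  let B := fun a b : BI n => (M a.1 b.1).map (MulAut.conj (ν a * ν b)).toMonoidHom
  have hB : ∀ i j, B (i, false) (j, false) = M i j := fun i j => by
    simp only [B, n2 (i, false) rfl, n2 (j, false) rfl, mul_one, map_one]
    exact Subgroup.map_id _
  have lB : ∀ {a b : BI n}, Adj a.1 b.1 → IsLift π (RE Fr a b) (B a b) := fun {a b} e => by
    have h1 : Fr.Mono (π (ν a * ν b)).1 (σ a * σ b) := map_mul π _ _ ▸ (n3 a).mul (n3 b)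
    have h2 : (σ a * σ b).1 (a.1, false) = a := 
      (congrArg (σ a).1 (n5 b (a.1, false) (ne e))).trans (n4 a)
    have h3 : (σ a * σ b).1 (b.1, false) = b := (congrArg _ (n4 b)).trans (n5 a _ (ne e).symm)
    refine isLift_conj (lM e) _ (fun x hx => ?_) fun x hx => ?_
    · simpa only [h2, h3] using mon_RE h1 (by simp [ng]) hx
    · have := mon_RE (g := (π (ν a * ν b))⁻¹) h1.inv (ne_ng_of_fst (ne e).symm) hx
      rwa [inv_inv, show (σ a * σ b)⁻¹.1 a = _ from (Equiv.symm_apply_eq _).2 h2.symm,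
        show (σ a * σ b)⁻¹.1 b = _ from (Equiv.symm_apply_eq _).2 h3.symm] at this
  have sB : ∀ {a b : BI n}, Adj a.1 b.1 → B a b = B b a := fun {a b} e => by
    simp only [B, sM e, (cA (ne e) (n1 a) (n1 b)).eq]
  have fB : ∀ {a b : BI n}, Adj a.1 b.1 → ∀ k, Flat π (B a b ⊔ A k) := fun {a b} e k =>
    ((fM e k).conj (ν a * ν b)).mono (sup_le (Subgroup.map_mono le_sup_left) fun y hy =>
      ⟨_, Subgroup.mem_sup_right (nA (inv_mem (n1 b)) (nA (inv_mem (n1 a)) hy)), by simp [mul_assoc]⟩)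
  have sw : ∀ {a b : BI n}, B (ng a) b ≤ B a b ⊔ A a.1 := fun {a b} => by
    rintro _ ⟨x, hx, rfl⟩
    have h1 : ν (ng a) * (ν a)⁻¹ ∈ B a b ⊔ A a.1 :=
      Subgroup.mem_sup_right (mul_mem (n1 (ng a)) (inv_mem (n1 a)))
    simpa [mul_assoc] using mul_mem (mul_mem h1 (Subgroup.mem_sup_left ⟨x, hx, rfl⟩)) (inv_mem h1)
  let fl := fun (t : Finset (Fin n)) (c : BI n) => if c.1 ∈ t then ng c else c
  have f1 : ∀ t c, (fl t c).1 = c.1 := fun t c => by simp only [fl]; split_ifs <;> rfl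
  have f2 : ∀ k {a b : BI n}, Adj a.1 b.1 → ∀ y ∈ B a b,
      w k * y * (w k)⁻¹ ∈ B (fl {k} a) (fl {k} b) := fun k a b e y hy => by
    have h1 : ∀ c : BI n, (rf (k, false) (k, false)).1 c = fl {k} c := fun c => by
      by_cases h : c.1 = k
      · obtain ⟨c, _ | _⟩ := c <;> obtain rfl : c = k := h <;> simp [fl, rf_apply, rfun, ng]
      · simp [fl, h, rf_of_fst (a := (k, false)) (b := (k, false)) h h]
    refine (fB e k).mem (lB (by rwa [f1, f1])) ?_ (mul_mem (mul_mem (Subgroup.mem_sup_right (w1 k))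
      (Subgroup.mem_sup_left hy)) (Subgroup.mem_sup_right (inv_mem (w1 k)))) (by
        simpa only [h1, map_mul, map_inv] using mon_RE (w2 k) (ne_ng_of_fst (ne e).symm)
          ((lB e).map y hy))
    have := ne e
    simp only [fl, Finset.mem_singleton]
    split_ifs with h2 h3 h3
    · exact absurd (h2.trans h3.symm) this
    · exact h2 ▸ sw
    · rw [sB (b := ng b) e, sB e]
      exact h3 ▸ sw
    · exact le_sup_left
  have f3 : ∀ t, ∃ g : Γ, ∀ {a b : BI n}, Adj a.1 b.1 → ∀ y ∈ B a b,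
      g * y * g⁻¹ ∈ B (fl t a) (fl t b) := fun t => by
    induction t using Finset.induction_on with
    | empty => exact ⟨1, fun _ y hy => by simpa [fl] using hy⟩
    | insert k t hk ih =>
      obtain ⟨g, hg⟩ := ih
      have h1 : ∀ c, fl (insert k t) c = fl {k} (fl t c) := fun c => by
        by_cases h : c.1 = k
        · simp [fl, h, hk]
        · simp [fl, h, f1 t c]
      refine ⟨w k * g, fun e y hy => ?_⟩
      simpa [h1, mul_assoc] using f2 k (by rwa [f1, f1]) _ (hg e y hy)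
  refine ⟨B, ⟨hV, hL, ne, symm, lA', lB, sB, fA, fB, fun {a b c e} e1 e2 h1 h2 h3 h4 x hx y hy => ?_,
    fun _ => sw⟩, hB⟩
  obtain ⟨g, hg⟩ := f3 (Finset.univ.filter fun k => (k, true) ∈ ({a, b, c, e} : Set (BI n)))
  have h5 : ∀ d ∈ ({a, b, c, e} : Set (BI n)), fl (Finset.univ.filter fun k =>
      (k, true) ∈ ({a, b, c, e} : Set (BI n))) d = (d.1, false) := fun d hd => by
    have h5 : ng d ∉ ({a, b, c, e} : Set (BI n)) := by
      have h6 := ne_ng_of_fst (ne e1)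
      have h7 := ne_ng_of_fst (ne e2)
      simp only [Set.mem_insert_iff, Set.mem_singleton_iff, ← ht_inj, ht_ng, ne_eq] at *
      have := ht_ne_zero d
      omega
    obtain ⟨d, _ | _⟩ := d
    · exact if_neg (by simpa [ng] using h5)
    · exact if_pos (by simpa using hd)
  have h6 := hg e1 x hx
  have h7 := hg e2 y hy
  rw [h5 _ (by simp), h5 _ (by simp), hB] at h6 h7
  have h8 := (lM e1).map _ h6
  exact (Commute.conj_iff g).1 ((fMM e1 e2).commute (Subgroup.mem_sup_left h6)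
    (Subgroup.mem_sup_right h7) (commute_RE hV (by simp [ng]) (RE_fix h8 (by simp [ng]) (by simp [ng]))
      (RE_fix h8 (by simp [ng]) (by simp [ng])) ((lM e2).map _ h7)))

theorem bijective_of_slim [FiniteDimensional F V] (hV : Fr.V0 = ⊥) (hL : Lng P (RingHom.id F) 1)
    (hF : ∃ a : F, a ≠ 0 ∧ a ≠ 1) (hn : 2 ≤ n) {L : Fin n ⊕ {i : Fin n // i.val + 1 < n} → Subgroup Γ}
    (lA : ∀ k, IsLift π (LE Fr (k, false)) (L (.inl k)))
    (lM : ∀ i h, IsLift π (RE Fr (i, false) (⟨i + 1, h⟩, false)) (L (.inr ⟨i, h⟩)))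
    (fl : ∀ k l, Flat π (L k ⊔ L l)) (gen : ∀ W, (∀ k, L k ≤ W) → W = ⊤) : Function.Bijective π := by
  let M : Fin n → Fin n → Subgroup Γ := fun i j => if h : i.val + 1 = j then
    L (.inr ⟨i, h ▸ j.2⟩) else if h : j.val + 1 = i then L (.inr ⟨j, h ▸ i.2⟩) else ⊥
  have m1 : ∀ (i : Fin n) h, M i ⟨i + 1, h⟩ = L (.inr ⟨i, h⟩) := fun i h => dif_pos rfl
  have m2 : ∀ (i : Fin n) h, M ⟨i + 1, h⟩ i = L (.inr ⟨i, h⟩) := fun i h =>
    (dif_neg (by simp only; omega)).trans (dif_pos rfl)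
  have cs : ∀ {i j : Fin n}, i.val + 1 = j ∨ j.val + 1 = i →
      (∃ h, j = ⟨i + 1, h⟩) ∨ ∃ h, i = ⟨j + 1, h⟩ := fun {i j} =>
    Or.imp (fun h => ⟨h ▸ j.2, Fin.ext h.symm⟩) fun h => ⟨h ▸ i.2, Fin.ext h.symm⟩
  have m3 : ∀ {i j : Fin n}, i.val + 1 = j ∨ j.val + 1 = i → ∃ k, M i j = L k := fun h => by
    rcases cs h with ⟨e, rfl⟩ | ⟨e, rfl⟩
    exacts [⟨_, m1 _ e⟩, ⟨_, m2 _ e⟩]
  obtain ⟨B, h1, h2⟩ := exists_spAm (Adj := fun i j => i.val + 1 = j ∨ j.val + 1 = i) (M := M) hV hL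
    (fun h e => by omega) Or.symm lA (fun h => by
      rcases cs h with ⟨e, rfl⟩ | ⟨e, rfl⟩
      exacts [m1 _ e ▸ lM _ e, m2 _ e ▸ RE_symm (Fr := Fr) _ _ ▸ lM _ e])
    (fun h => by rcases cs h with ⟨h, rfl⟩ | ⟨h, rfl⟩ <;> rw [m1, m2]) (fun _ _ => fl _ _)
    (fun h _ => let ⟨_, e⟩ := m3 h; e ▸ fl _ _)
    fun h h' => let ⟨_, e⟩ := m3 h; let ⟨_, e'⟩ := m3 h'; e ▸ e' ▸ fl _ _
  refine h1.bijective (fun _ _ => Iff.rfl) hF hn fun W h3 h4 => gen W ?_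
  rintro (k | ⟨i, h⟩)
  exacts [h3 k, m1 i h ▸ h2 _ _ ▸ h4 (i, false) (⟨i + 1, h⟩, false) (Or.inl rfl)]

end Cfsg.Agent.H35
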